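import Cfsg.Agent.R3.Tab

/-! Flags as cosets; orbit numbers on flags in the rank three situation. -/

set_option autoImplicit false

namespace Cfsg.Agent.R3

open Cfsg Cfsg.Agent.GLn MulAction Module
open scoped Pointwise

theorem card_orb_prod {G X Y T : Type*} [Group G] [MulAction G X] [IsPretransitive G X]
    [MulAction G Y] [MulAction G T] (x0 : X) (φ : Y → T) (hφ : ∀ (g : G) y, φ (g • y) = g • φ y)
    (hi : Function.Injective φ) :
    Nat.card (orbitRel.Quotient G (X × Y)) = NN (stabilizer G x0) (Set.range φ) := by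
  let r : X → G := fun x => (exists_smul_eq G x x0).choose
  have hr : ∀ x, r x • x = x0 := fun x => (exists_smul_eq G x x0).choose_spec
  let f : orbitRel.Quotient G (X × Y) → orbitRel.Quotient (stabilizer G x0) T :=
    Quotient.lift (fun p => Quotient.mk _ (r p.1 • φ p.2)) (by
      rintro _ ⟨x, y⟩ ⟨g, rfl⟩
      refine mk_eq_iff.2 ⟨⟨r x * g⁻¹ * (r (g • x))⁻¹, ?_⟩, ?_⟩
      · rw [mem_stabilizer_iff, mul_smul, mul_smul, ← hr (g • x), inv_smul_smul, inv_smul_smul, hr,
          hr]
      · change (r x * g⁻¹ * (r (g • x))⁻¹) • r (g • x) • φ (g • y) = r x • φ y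
        rw [hφ, mul_smul, mul_smul, inv_smul_smul, inv_smul_smul])
  have hf : Function.Injective f := by
    intro a b
    induction a using Quotient.inductionOn with | h a =>
    induction b using Quotient.inductionOn with | h b =>
    intro h
    obtain ⟨⟨g, hg⟩, h⟩ := mk_eq_iff.1 h
    change g • r a.1 • φ a.2 = r b.1 • φ b.2 at h
    refine mk_eq_iff.2 ⟨(r b.1)⁻¹ * g * r a.1, Prod.ext ?_ (hi ?_)⟩
    · change ((r b.1)⁻¹ * g * r a.1) • a.1 = b.1
      rw [mul_smul, mul_smul, hr, hg, ← hr b.1, inv_smul_smul]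
    · change φ (((r b.1)⁻¹ * g * r a.1) • a.2) = φ b.2
      rw [hφ, mul_smul, mul_smul, h, inv_smul_smul]
  rw [NN, ← Set.ncard_range_of_injective hf]
  congr 1
  ext z
  constructor
  · rintro ⟨a, rfl⟩
    induction a using Quotient.inductionOn with | h a =>
    exact ⟨_, ⟨r a.1 • a.2, hφ _ _⟩, rfl⟩
  · rintro ⟨_, ⟨y, rfl⟩, rfl⟩
    exact ⟨Quotient.mk _ (x0, y), mk_eq_iff.2 (Eqv.symm ⟨⟨r x0, hr x0⟩, rfl⟩)⟩

theorem ext_basis {F V : Type*} [Field F] [AddCommGroup V] [Module F V] [FiniteDimensional F V]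
    {B : Submodule F V} {m : ℕ} (hB : dm B = m) {k : ℕ} (hk : k ≤ m) :
    ∀ (u : ℕ → V) (A : Submodule F V), LinearIndepOn F u (Set.Iio k) →
      Submodule.span F (u '' Set.Iio k) = A → dm A = k → A ≤ B →
      ∃ u' : ℕ → V, (∀ i < k, u' i = u i) ∧ LinearIndepOn F u' (Set.Iio m) ∧
        Submodule.span F (u' '' Set.Iio m) = B := by
  induction hk using Nat.decreasingInduction with
  | self => intro u A h1 h2 h3 h4; exact ⟨u, fun _ _ => rfl, h1, h2.trans (eq_of_dm h4 (by omega))⟩
  | of_succ k hk ih =>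
    intro u A h1 h2 h3 h4
    obtain ⟨v, hv, hv'⟩ := Set.not_subset.1 fun h : B ≤ A => by have := dm_mono h; omega
    have e : Set.EqOn u (Function.update u k v) (Set.Iio k) := fun i hi =>
      (Function.update_of_ne (ne_of_lt hi) _ _).symm
    have e' : Set.Iio (k + 1) = insert k (Set.Iio k) := by ext; simp
    obtain ⟨u', h5, h6⟩ := ih (Function.update u k v) (A ⊔ F ∙ v)
      (by rw [e']; exact (h1.congr e).insert (by rw [← e.image_eq, h2]; simpa using hv'))
      (by rw [e', Set.image_insert_eq, Submodule.span_insert, ← e.image_eq, h2, sup_comm]; simp)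
      (by rw [dm_sup_span hv', h3]) (sup_le h4 ((Submodule.span_singleton_le_iff_mem _ _).2 hv))
    exact ⟨u', fun i hi => (h5 i (by omega)).trans (e hi).symm, h6⟩

section Lin
variable {F : Type*} [Field F] {n : ℕ}

local notation "SL" => Matrix.SpecialLinearGroup (Fin n) F
local notation "V" => Fin n → F

variable (F n) in
/-- coordinate subspaces -/
def std (k : ℕ) : Submodule F V := Submodule.span F (Pi.basisFun F (Fin n) '' {j | j.val < k})

theorem mem_std {k : ℕ} {v : V} : v ∈ std F n k ↔ ∀ i : Fin n, k ≤ i.val → v i = 0 := by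
  rw [std, Basis.mem_span_image]
  simp only [Set.subset_def, Finset.mem_coe, Finsupp.mem_support_iff, Pi.basisFun_repr,
    Set.mem_ofPred_eq]
  exact forall_congr' fun i => by rw [← not_lt]; tauto

theorem std_mono {k l : ℕ} (h : k ≤ l) : std F n k ≤ std F n l := fun _ hv =>
  mem_std.2 fun i hi => mem_std.1 hv i (h.trans hi)

theorem std_top : std F n n = ⊤ := eq_top_iff.2 fun _ _ => mem_std.2 fun i hi => absurd i.2 (by omega)

theorem dm_std {k : ℕ} (hk : k ≤ n) : dm (std F n k) = k := by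
  have h : LinearIndependent F fun j : {j : Fin n | j.val < k} => Pi.basisFun F (Fin n) j :=
    (Pi.basisFun F (Fin n)).linearIndependent.comp _ Subtype.val_injective
  have := finrank_span_eq_card h
  rw [← Set.image_eq_range] at this
  rw [dm, std, this, Fintype.card_subtype]
  simp [Fin.card_filter_val_lt, hk]

theorem gl_le (g : GL (Fin n) F) (A B : Submodule F V) : g • A ≤ g • B ↔ A ≤ B := smul_le_smul g A B
theorem gl_dm (g : GL (Fin n) F) (A : Submodule F V) : dm (g • A) = dm A := dm_smul g A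
theorem gl_top (g : GL (Fin n) F) : g • (⊤ : Submodule F V) = ⊤ := smul_top g
theorem gl_mem (g : GL (Fin n) F) (A : Submodule F V) (v : V) : g • v ∈ g • A ↔ v ∈ A :=
  smul_mem_smul g A v
theorem gl_span (g : GL (Fin n) F) (S : Set V) :
    g • Submodule.span F S = Submodule.span F ((g • ·) '' S) := Submodule.smul_span g S

theorem exists_gl (u : ℕ → V) (hu : LinearIndepOn F u (Set.Iio n)) : ∃ g : GL (Fin n) F,
    ∀ k ≤ n, g • std F n k = Submodule.span F (u '' Set.Iio k) := by
  have h1 : LinearIndependent F fun j : Fin n => u j :=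
    hu.comp (fun j : Fin n => (⟨j, j.2⟩ : Set.Iio n)) fun a b h => Fin.ext (congrArg Subtype.val h)
  have h2 : IsUnit (Matrix.of fun j : Fin n => u j).transpose :=
    Matrix.linearIndependent_cols_iff_isUnit.1 h1
  refine ⟨h2.unit, fun k hk => ?_⟩
  rw [std, gl_span, Set.image_image]
  congr 1
  have h3 : ∀ j : Fin n, h2.unit • Pi.basisFun F (Fin n) j = u j := fun j => by
    change (Matrix.of fun j : Fin n => u j).transpose.mulVec _ = _
    ext i; simp
  simp only [h3]
  ext v
  exact ⟨fun ⟨j, hj, e⟩ => ⟨j, hj, e⟩, fun ⟨j, hj, e⟩ => ⟨⟨j, lt_of_lt_of_le hj hk⟩, hj, e⟩⟩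

theorem mem_parabolic_iff {α : Fin n → ℕ} (hα : ∑ i, α i = n) (g : GL (Fin n) F) :
    g ∈ parabolicGL n F α ↔ ∀ s : Fin n,
      g • std F n (∑ k ∈ Finset.univ.filter (fun k : Fin n => k ≤ s), α k) =
        std F n (∑ k ∈ Finset.univ.filter (fun k : Fin n => k ≤ s), α k) := by
  constructor
  · intro hg s
    refine eq_of_dm ?_ (gl_dm g _).ge
    rintro _ ⟨v, hv, rfl⟩
    refine mem_std.2 fun i hi => ?_
    change ∑ j, (g : Matrix (Fin n) (Fin n) F) i j * v j = 0
    refine Finset.sum_eq_zero fun j _ => ?_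
    by_cases hj : s.val < compLabel α j
    · exact mul_eq_zero_of_right _ (mem_std.1 hv j ((lt_compLabel_iff α j s).1 hj))
    · exact mul_eq_zero_of_left (hg (lt_of_le_of_lt (not_lt.1 hj) ((lt_compLabel_iff α i s).2 hi))) _
  · intro h i j hij
    let s : Fin n := ⟨compLabel α j, compLabel_lt hα j⟩
    have h1 := (lt_compLabel_iff α i s).1 hij
    have h2 := (lt_compLabel_iff α j s).not.1 (lt_irrefl _)
    have h3 : (Pi.single j 1 : V) ∈ std F n (∑ k ∈ Finset.univ.filter (fun k : Fin n => k ≤ s), α k) :=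
      mem_std.2 fun k hk => Pi.single_eq_of_ne (by rintro rfl; exact h2 hk) _
    have h4 := (gl_mem g _ _).2 h3
    rw [h s] at h4
    have h5 := mem_std.1 h4 i h1
    change (g : Matrix (Fin n) (Fin n) F).mulVec _ i = 0 at h5
    simpa using h5

/-- the composition of a four step flag -/
def al (n a b c e : ℕ) : Fin n → ℕ := ext5 n ![a, b - a, c - b, e - c, n - e]

variable {a b c e : ℕ}

theorem al_sum (hn : 5 ≤ n) (hab : a ≤ b) (hbc : b ≤ c) (hce : c ≤ e) (hen : e ≤ n) :
    ∑ i, al n a b c e i = n := by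
  rw [al, ext5_sum hn, Fin.sum_univ_five]; simp; omega

theorem al_ps (hn : 5 ≤ n) (hab : a ≤ b) (hbc : b ≤ c) (hce : c ≤ e) (hen : e ≤ n) (s : Fin n) :
    ∑ k ∈ Finset.univ.filter (fun k : Fin n => k ≤ s), al n a b c e k =
      if s.val = 0 then a else if s.val = 1 then b else if s.val = 2 then c else
        if s.val = 3 then e else n := by
  rw [Finset.sum_filter, sum_ext5 hn _ fun i hi => by simp [al, ext5, hi], Fin.sum_univ_five]
  simp only [al, ext5, Fin.le_def, Fin.val_castLE]
  simp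
  split_ifs <;> omega

theorem exists_phi (hn : 5 ≤ n) (hab : a ≤ b) (hbc : b ≤ c) (hce : c ≤ e) (hen : e ≤ n) :
    ∃ φ : Cos F (al n a b c e) → Submodule F V × Submodule F V × Submodule F V × Submodule F V,
      (∀ (g : SL) y, φ (g • y) = g • φ y) ∧ Function.Injective φ ∧ Set.range φ = Fl F V a b c e := by
  let x0 := (std F n a, std F n b, std F n c, std F n e)
  have hP : ∀ g : GL (Fin n) F, g ∈ parabolicGL n F (al n a b c e) ↔ g • x0 = x0 := by
    intro g
    rw [mem_parabolic_iff (al_sum hn hab hbc hce hen)]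
    simp only [al_ps hn hab hbc hce hen, x0, Prod.smul_mk, Prod.mk.injEq]
    refine ⟨fun h => ⟨h ⟨0, by omega⟩, h ⟨1, by omega⟩, h ⟨2, by omega⟩, h ⟨3, by omega⟩⟩,
      fun h s => ?_⟩
    split_ifs
    exacts [h.1, h.2.1, h.2.2.1, h.2.2.2, by rw [std_top, gl_top]]
  have hQ : ∀ g g' : GL (Fin n) F, g⁻¹ * g' ∈ parabolicGL n F (al n a b c e) ↔ g • x0 = g' • x0 := by
    intro g g'; rw [hP, mul_smul, inv_smul_eq_iff, eq_comm]
  refine ⟨Quotient.lift (fun g : GL (Fin n) F => g • x0) fun g g' h =>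
    (hQ g g').1 (QuotientGroup.leftRel_apply.1 h), fun g y => ?_, fun y y' => ?_, ?_⟩
  · induction y using QuotientGroup.induction_on with | H y =>
    exact mul_smul (Matrix.SpecialLinearGroup.toGL g) y x0
  · induction y using QuotientGroup.induction_on with | H y =>
    induction y' using QuotientGroup.induction_on with | H y' =>
    exact fun h => QuotientGroup.eq.2 ((hQ _ _).2 h)
  · ext x
    constructor
    · rintro ⟨y, rfl⟩
      induction y using QuotientGroup.induction_on with | H y =>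
      change y • x0 ∈ _
      simp only [Fl, x0, Prod.smul_mk, Set.mem_ofPred_eq, gl_le, gl_dm]
      exact ⟨std_mono hab, std_mono hbc, std_mono hce, dm_std (by omega), dm_std (by omega),
        dm_std (by omega), dm_std hen⟩
    · obtain ⟨A, B, C, E⟩ := x
      rintro ⟨h1, h2, h3, h4, h5, h6, h7⟩
      simp only at h1 h2 h3 h4 h5 h6 h7
      obtain ⟨u1, -, l1, s1⟩ := ext_basis h4 (Nat.zero_le _) 0 ⊥ (by simp) (by simp) dm_bot bot_le
      obtain ⟨u2, e2, l2, s2⟩ := ext_basis h5 hab u1 A l1 s1 h4 h1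
      obtain ⟨u3, e3, l3, s3⟩ := ext_basis h6 hbc u2 B l2 s2 h5 h2
      obtain ⟨u4, e4, l4, s4⟩ := ext_basis h7 hce u3 C l3 s3 h6 h3
      obtain ⟨u5, e5, l5, -⟩ := ext_basis (B := ⊤) (m := n) (by simp [dm]) hen u4 E l4 s4 h7 le_top
      obtain ⟨g, hg⟩ := exists_gl u5 l5
      refine ⟨(g : GL (Fin n) F ⧸ _), ?_⟩
      change g • x0 = _
      simp only [x0, Prod.smul_mk, Prod.mk.injEq]
      rw [hg a (by omega), hg b (by omega), hg c (by omega), hg e hen, ← s1, ← s2, ← s3, ← s4]
      refine ⟨?_, ?_, ?_, ?_⟩ <;> congr 1 <;> refine Set.image_congr fun i (hi : i < _) => ?_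
      · rw [e5 i (by omega), e4 i (by omega), e3 i (by omega), e2 i hi]
      · rw [e5 i (by omega), e4 i (by omega), e3 i hi]
      · rw [e5 i (by omega), e4 i hi]
      · exact e5 i hi

end Lin

end Cfsg.Agent.R3
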