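import Cfsg.Agent.R3.Base

/-! Livingstone-Wagner steps and the gcd rule for flag orbits. -/

set_option autoImplicit false

namespace Cfsg.Agent.R3

open scoped Pointwise
open Module

open Classical in
theorem sum_sq_inc {α β : Type*} (S : Finset α) (T : Finset β) (R : α → β → Prop) (g : α → ℤ) :
    ∑ y ∈ T, (∑ x ∈ S.filter (fun x => R x y), g x) ^ 2 =
      ∑ x ∈ S, ∑ x' ∈ S, g x * g x' * ((T.filter (fun y => R x y ∧ R x' y)).card : ℤ) := by
  simp only [sq, Finset.sum_filter, Finset.sum_mul_sum, Finset.card_filter, Nat.cast_sum]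
  simp only [Finset.mul_sum]
  rw [Finset.sum_comm]
  refine Finset.sum_congr rfl fun x _ => ?_
  rw [Finset.sum_comm]
  refine Finset.sum_congr rfl fun x' _ => Finset.sum_congr rfl fun y _ => ?_
  by_cases h1 : R x y <;> by_cases h2 : R x' y <;> simp [h1, h2]

theorem card_filter_ncard {α : Type*} [Fintype α] (P Q : α → Prop) {_ : DecidablePred P}
    {_ : DecidablePred Q} :
    ((Finset.univ.filter P).filter Q).card = {x | P x ∧ Q x}.ncard := by
  rw [← Set.ncard_coe_finset]; congr 1; ext x; simp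

variable {F V Γ : Type*} [Field F] [Fintype F] [AddCommGroup V] [Module F V] [Finite V] [Group Γ]
  [DistribMulAction Γ V] [SMulCommClass Γ F V]

open Classical in
/-- injectivity of the inclusion map between consecutive levels -/
theorem lw_inj [Fintype (Submodule F V)] (x : Submodule F V) {k : ℕ} (hk : dm x + 1 ≤ k)
    (h2 : 2 * k < finrank F V + dm x) (g : Submodule F V → ℤ)
    (hg : ∀ B, x ≤ B → dm B = k + 1 →
      ∑ A ∈ (Finset.univ.filter fun A => x ≤ A ∧ dm A = k).filter (fun A => A ≤ B), g A = 0)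
    {A : Submodule F V} (hA : x ≤ A) (hA' : dm A = k) : g A = 0 := by
  set S := Finset.univ.filter fun A : Submodule F V => x ≤ A ∧ dm A = k with hS
  have e1 := sum_sq_inc S (Finset.univ.filter fun B : Submodule F V => x ≤ B ∧ dm B = k + 1)
    (fun A B => A ≤ B) g
  have e2 := sum_sq_inc S (Finset.univ.filter fun B : Submodule F V => x ≤ B ∧ dm B + 1 = k)
    (fun A B => B ≤ A) g
  rw [Finset.sum_eq_zero (fun B hB => by
    rw [hg B (by simpa using (Finset.mem_filter.1 hB).2.1) (Finset.mem_filter.1 hB).2.2]; simp)]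
    at e1
  have e3 : (0 : ℤ) ≤ _ := e2 ▸ Finset.sum_nonneg fun _ _ => sq_nonneg _
  set q := Fintype.card F
  have hlt : θ q (k - dm x) < θ q (finrank F V - k) := θ_lt one_le_q (by omega)
  have e4 : ∀ A ∈ S, ∀ A' ∈ S,
      g A * g A' * (((Finset.univ.filter fun B : Submodule F V => x ≤ B ∧ dm B = k + 1).filter
        (fun B => A ≤ B ∧ A' ≤ B)).card : ℤ) =
      g A * g A' * (((Finset.univ.filter fun B : Submodule F V => x ≤ B ∧ dm B + 1 = k).filter
        (fun B => B ≤ A ∧ B ≤ A')).card : ℤ) +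
      if A = A' then g A ^ 2 * ((θ q (finrank F V - k) : ℤ) - θ q (k - dm x)) else 0 := by
    intro A hA A' hA'
    obtain ⟨a1, a2⟩ := (Finset.mem_filter.1 hA).2
    obtain ⟨b1, b2⟩ := (Finset.mem_filter.1 hA').2
    rw [card_filter_ncard, card_filter_ncard]
    split_ifs with h
    · subst h
      have c1 := card_up' (le_top : A ≤ ⊤) (k := k + 1) (m := finrank F V - k) (by omega)
        (by rw [dm_top]; omega)
      have c2 := card_dn' a1 (k := k - 1) (m := k - dm x) (by omega) (by omega)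
      rw [show {B : Submodule F V | (x ≤ B ∧ dm B = k + 1) ∧ A ≤ B ∧ A ≤ B} =
          {P | A ≤ P ∧ P ≤ ⊤ ∧ dm P = k + 1} from Set.ext fun B =>
            ⟨fun h => ⟨h.2.1, le_top, h.1.2⟩, fun h => ⟨⟨a1.trans h.1, h.2.2⟩, h.1, h.1⟩⟩,
        show {B : Submodule F V | (x ≤ B ∧ dm B + 1 = k) ∧ B ≤ A ∧ B ≤ A} =
          {P | x ≤ P ∧ P ≤ A ∧ dm P = k - 1} from Set.ext fun B =>
            ⟨fun h => ⟨h.1.1, h.2.1, by have := h.1.2; omega⟩,
              fun h => ⟨⟨h.1, by have := h.2.2; omega⟩, h.2.1, h.2.1⟩⟩, c1, c2]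
      ring
    · have d1 := dm_sup_inf A A'
      have d2 : dm A < dm (A ⊔ A') := dm_lt_of_not_le le_sup_left fun h' =>
        not_le_of_ne (b2.trans a2.symm) (Ne.symm h) (le_sup_right.trans h')
      rw [add_zero]
      congr 2
      by_cases d3 : dm (A ⊔ A') = k + 1
      · refine (ncard_eq_one_of (A ⊔ A') ?_ ?_).trans (ncard_eq_one_of (A ⊓ A') ?_ ?_).symm
        · exact ⟨⟨a1.trans le_sup_left, d3⟩, le_sup_left, le_sup_right⟩
        · exact fun B hB => (eq_of_dm (sup_le hB.2.1 hB.2.2) (by have := hB.1.2; omega)).symm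
        · exact ⟨⟨le_inf a1 b1, by omega⟩, inf_le_left, inf_le_right⟩
        · exact fun B hB => eq_of_dm (le_inf hB.2.1 hB.2.2) (by have := hB.1.2; omega)
      · refine (ncard_eq_zero_of fun B hB => ?_).trans (ncard_eq_zero_of fun B hB => ?_).symm
        · have := dm_mono (sup_le hB.2.1 hB.2.2); have := hB.1.2; omega
        · have := dm_mono (le_inf hB.2.1 hB.2.2); have := hB.1.2; omega
  rw [Finset.sum_congr rfl fun A hA => Finset.sum_congr rfl fun A' hA' => e4 A hA A' hA'] at e1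
  simp only [Finset.sum_add_distrib] at e1
  rw [Finset.sum_congr rfl (fun A hA => Finset.sum_ite_eq_of_mem S A _ hA), ← Finset.sum_mul] at e1
  have e5 : (0 : ℤ) < (θ q (finrank F V - k) : ℤ) - θ q (k - dm x) := by
    have : (θ q (k - dm x) : ℤ) < θ q (finrank F V - k) := by exact_mod_cast hlt
    linarith
  have e6 : g A ^ 2 ≤ ∑ A ∈ S, g A ^ 2 :=
    Finset.single_le_sum (f := fun A => g A ^ 2) (fun _ _ => sq_nonneg _) (by simp [hS, hA, hA'])
  have e7 : ∑ A ∈ S, g A ^ 2 ≤ 0 := by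
    by_contra hc
    push Not at hc
    have := mul_pos hc e5
    linarith
  exact pow_eq_zero_iff two_ne_zero |>.1 (le_antisymm (e6.trans e7) (sq_nonneg _))

theorem tr2 {a b : ℕ} (h : NN Γ (Fl F V a b b b) ≤ 1) {A B A' B' : Submodule F V} (h1 : A ≤ B)
    (h2 : A' ≤ B') (a1 : dm A = a) (b1 : dm B = b) (a2 : dm A' = a) (b2 : dm B' = b) :
    ∃ g : Γ, g • A = A' ∧ g • B = B' := by
  obtain ⟨g, e1, e2, -⟩ := eqv_iff.1 (eqv_of_NN h (x := (A, B, B, B)) (y := (A', B', B', B'))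
    ⟨h1, le_rfl, le_rfl, a1, b1, b1, b1⟩ ⟨h2, le_rfl, le_rfl, a2, b2, b2, b2⟩)
  exact ⟨g, e1, e2⟩

theorem tr1 {a : ℕ} (h : NN Γ (Fl F V a a a a) ≤ 1) {A A' : Submodule F V}
    (a1 : dm A = a) (a2 : dm A' = a) : ∃ g : Γ, g • A = A' :=
  (tr2 h le_rfl le_rfl a1 a1 a2 a2).imp fun _ h => h.1

theorem NN2_le_one {a b : ℕ} (h : ∀ A B A' B' : Submodule F V, A ≤ B → A' ≤ B' → dm A = a →
    dm B = b → dm A' = a → dm B' = b → Eqv Γ (A, B) (A', B')) : NN Γ (Fl F V a b b b) ≤ 1 := by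
  refine NN_le_one ?_
  rintro ⟨A, B, C, D⟩ ⟨h1, h2, h3, h4, h5, h6, h7⟩ ⟨A', B', C', D'⟩ ⟨g1, g2, g3, g4, g5, g6, g7⟩
  obtain rfl : B = C := eq_of_dm h2 (by simp only at h5 h6; omega)
  obtain rfl : B = D := eq_of_dm h3 (by simp only at h5 h7; omega)
  obtain rfl : B' = C' := eq_of_dm g2 (by simp only at g5 g6; omega)
  obtain rfl : B' = D' := eq_of_dm g3 (by simp only at g5 g7; omega)
  obtain ⟨g, hg⟩ := h A B A' B' h1 g1 h4 h5 g4 g5
  obtain ⟨e1, e2⟩ := Prod.ext_iff.1 hg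
  exact eqv_iff.2 ⟨g, e1, e2, e2, e2⟩

omit [Fintype F] [Finite V] in
theorem eqv_smul2 (g : Γ) (p : Submodule F V × Submodule F V) (A B : Submodule F V) :
    Eqv Γ p (g • A, g • B) ↔ Eqv Γ p (A, B) := eqv_smul g p (A, B)

/-- Livingstone-Wagner step -/
theorem lw {a k : ℕ} (hk : a + 1 ≤ k) (h2 : 2 * k < finrank F V + a)
    (h : NN Γ (Fl F V a (k + 1) (k + 1) (k + 1)) ≤ 1) : NN Γ (Fl F V a k k k) ≤ 1 := by
  classical
  have := Fintype.ofFinite (Submodule F V)
  refine NN2_le_one fun x A x' A' h1 h1' a1 b1 a2 b2 => ?_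
  obtain ⟨B0, c1, c2⟩ := exists_above A (k := k + 1) (by omega) (by omega)
  set c := {C | (x ≤ C ∧ C ≤ B0 ∧ dm C = k) ∧ Eqv Γ (x, A) (x, C)}.ncard with hc
  set q := Fintype.card F
  have key : ∀ y C, y ≤ C → dm y = a → dm C = k →
      ((if Eqv Γ (x, A) (y, C) then (θ q (k + 1 - a) : ℤ) else 0) - c) = 0 := by
    intro y C d1 d2 d3
    refine lw_inj y (k := k) (by omega) (by omega)
      (fun C => (if Eqv Γ (x, A) (y, C) then (θ q (k + 1 - a) : ℤ) else 0) - c) ?_ d1 d3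
    intro B e1 e2
    obtain ⟨g, rfl, rfl⟩ := tr2 h (h1.trans c1) e1 a1 c2 d2 e2
    rw [Finset.sum_sub_distrib, ← Finset.sum_filter, Finset.sum_const, Finset.sum_const,
      Finset.filter_filter, card_filter_ncard, card_filter_ncard]
    have f1 : {C | (g • x ≤ C ∧ dm C = k) ∧ C ≤ g • B0 ∧ Eqv Γ (x, A) (g • x, C)}.ncard = c :=
      ncard_eq_of_smul g fun C => by simp [eqv_smul2, and_assoc, and_left_comm]
    have f2 := card_dn' e1 (k := k) (m := k + 1 - a) (by omega) (by omega)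
    rw [show {C | (g • x ≤ C ∧ dm C = k) ∧ C ≤ g • B0} = {P | g • x ≤ P ∧ P ≤ g • B0 ∧ dm P = k}
      from Set.ext fun C => by simp only [Set.mem_setOf_eq]; tauto, f1, f2]
    simp [mul_comm, q]
  have k1 := key x A h1 a1 b1
  have k2 := key x' A' h1' a2 b2
  rw [if_pos (Eqv.refl _)] at k1
  by_contra hn
  rw [if_neg hn] at k2
  have : 0 < θ q (k + 1 - a) := θ_pos one_le_q (by omega)
  omega

theorem fisher (hn : 4 ≤ finrank F V) (h13 : NN Γ (Fl F V 1 3 3 3) ≤ 1) :
    NN Γ (Fl F V 1 2 2 2) ≤ 1 := lw (by omega) (by omega) h13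

/-- the gcd rule -/
theorem gcd_rule {s : ℕ} (hs : s + 1 ≤ finrank F V) (hc : Nat.Coprime (s + 1) (finrank F V - s))
    (h1 : NN Γ (Fl F V s s s s) ≤ 1) (h2 : NN Γ (Fl F V (s + 1) (s + 1) (s + 1) (s + 1)) ≤ 1) :
    NN Γ (Fl F V s (s + 1) (s + 1) (s + 1)) ≤ 1 := by
  refine NN2_le_one fun A B A' B' e1 e2 a1 b1 a2 b2 => ?_
  set q := Fintype.card F
  set a := {C | C ∈ {C : Submodule F V | dm C = s} ∧ C ≤ B' ∧ Eqv Γ (A, B) (C, B')}.ncard with ha
  set b := {D | D ∈ {D : Submodule F V | dm D = s + 1} ∧ A ≤ D ∧ Eqv Γ (A, B) (A, D)}.ncard with hb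
  have d1 := dc {C : Submodule F V | dm C = s} {D : Submodule F V | dm D = s + 1}
    (fun C D => C ≤ D ∧ Eqv Γ (A, B) (C, D)) (a := b) (b := a) (fun C hC => by
      obtain ⟨g, rfl⟩ := tr1 h1 a1 hC
      exact ncard_eq_of_smul g fun D => by simp [eqv_smul2]) (fun D hD => by
      obtain ⟨g, rfl⟩ := tr1 h2 b2 hD
      exact ncard_eq_of_smul g fun D => by simp [eqv_smul2])
  have u : ∀ D : Submodule F V, dm D = s + 1 →
      {C | C ∈ {C : Submodule F V | dm C = s} ∧ C ≤ D}.ncard = θ q (s + 1) := fun D hD => by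
    rw [← card_dn' (bot_le : ⊥ ≤ D) (k := s) (m := s + 1) hD.symm (by rw [dm_bot]; omega)]
    congr 1; ext C; simp [and_comm]
  have d2 := dc {C : Submodule F V | dm C = s} {D : Submodule F V | dm D = s + 1}
    (fun C D => C ≤ D) (a := θ q (finrank F V - s)) (b := θ q (s + 1)) (fun C hC => by
      rw [← card_up' (le_top : C ≤ ⊤) (k := s + 1) (m := finrank F V - s) (by rw [hC])
        (by rw [dm_top, hC]; omega)]
      congr 1; ext C; simp [and_comm]) u
  have p1 : 0 < {C : Submodule F V | dm C = s}.ncard := (Set.ncard_pos (Set.toFinite _)).2 ⟨A, a1⟩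
  have p2 : 0 < {C : Submodule F V | dm C = s + 1}.ncard :=
    (Set.ncard_pos (Set.toFinite _)).2 ⟨B, b1⟩
  have p3 : 0 < b := (Set.ncard_pos (Set.toFinite _)).2 ⟨B, b1, e1, Eqv.refl _⟩
  have p4 : a * θ q (finrank F V - s) = b * θ q (s + 1) := by
    refine Nat.eq_of_mul_eq_mul_left (mul_pos p1 p2) ?_
    calc _ = ({C : Submodule F V | dm C = s + 1}.ncard * a) *
          ({C : Submodule F V | dm C = s}.ncard * θ q (finrank F V - s)) := by ring
      _ = _ := by rw [← d1, d2]; ring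
  have p5 : θ q (s + 1) ∣ a := (θ_coprime two_le_q hc).dvd_of_dvd_mul_right ⟨b, by rw [p4]; ring⟩
  have p6 : 0 < a := by
    rcases Nat.eq_zero_or_pos a with h | h
    · have := mul_pos p1 p3
      rw [d1, h] at this; omega
    · exact h
  have p7 := Nat.le_of_dvd p6 p5
  rw [← u B' b2] at p7
  have p8 := Set.eq_of_subset_of_ncard_le (fun C hC => And.intro hC.1 hC.2.1) p7
  exact ((Set.ext_iff.1 p8 A').2 ⟨a2, e2⟩).2.2

theorem calc23 (hn : 6 ≤ finrank F V) (hk : ∀ k ≤ finrank F V, NN Γ (Fl F V k k k k) ≤ 1)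
    (perm : ∀ s, s + 1 ≤ finrank F V → NN Γ (Fl F V 1 (s + 1) (s + 1) (s + 1)) =
      NN Γ (Fl F V s (s + 1) (s + 1) (s + 1))) : NN Γ (Fl F V 1 3 3 3) ≤ 1 := by
  obtain ⟨s, s1, s2, s3⟩ : ∃ s, 2 ≤ s ∧ 2 * s ≤ finrank F V ∧
      Nat.Coprime (s + 1) (finrank F V - s) := by
    have key : ∀ s c d, finrank F V + 1 + d * (s + 1) = c * (s + 1) + 4 ∨
        finrank F V + 1 = c * (s + 1) + 2 → s % 2 = 0 → s ≤ finrank F V →
        Nat.Coprime (s + 1) (finrank F V - s) := by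
      intro s c d h h2 h3
      refine Nat.coprime_of_dvd fun p hp h4 h5 => ?_
      have h6 : p ∣ finrank F V + 1 := by
        have := dvd_add h4 h5
        rwa [show s + 1 + (finrank F V - s) = finrank F V + 1 by omega] at this
      have h7 : p ∣ 2 ^ 2 := by
        rcases h with h | h
        · exact (Nat.dvd_add_right (h4.mul_left c)).1 (h ▸ dvd_add h6 (h4.mul_left d))
        · exact ((Nat.dvd_add_right (h4.mul_left c)).1 (h ▸ h6)).mul_right 2
      obtain rfl := (Nat.prime_dvd_prime_iff_eq hp Nat.prime_two).1 (hp.dvd_of_dvd_pow h7)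
      omega
    rcases Nat.even_or_odd' (finrank F V) with ⟨m, hm | hm⟩
    · refine ⟨3, by omega, by omega, ?_⟩
      refine (Nat.coprime_pow_left_iff two_pos 2 _).2 ?_
      rw [Nat.coprime_two_left, Nat.odd_iff]; omega
    · rcases Nat.even_or_odd' m with ⟨l, hl | hl⟩
      · exact ⟨m - 2, by omega, by omega, key _ 2 0 (Or.inl (by omega)) (by omega) (by omega)⟩
      · exact ⟨m - 1, by omega, by omega, key _ 2 0 (Or.inr (by omega)) (by omega) (by omega)⟩
  have h0 := gcd_rule (Γ := Γ) (by omega) s3 (hk _ (by omega)) (hk _ (by omega))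
  rw [← perm s (by omega)] at h0
  have : ∀ j, j + 3 ≤ s + 1 → NN Γ (Fl F V 1 (s + 1 - j) (s + 1 - j) (s + 1 - j)) ≤ 1 := by
    intro j
    induction j with
    | zero => exact fun _ => h0
    | succ j ih =>
      intro hj
      refine lw (by omega) (by omega) ?_
      rw [show s + 1 - (j + 1) + 1 = s + 1 - j by omega]
      exact ih (by omega)
  have h := this (s - 2) (by omega)
  rwa [show s + 1 - (s - 2) = 3 by omega] at h

end Cfsg.Agent.R3
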