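import Cfsg.Agent.R3.FiveA

/-! Two special orbit patterns in dimension five. -/

set_option autoImplicit false

namespace Cfsg.Agent.R3

open scoped Pointwise
open Module

variable {F V Γ : Type*} [Field F] [Fintype F] [AddCommGroup V] [Module F V] [Finite V] [Group Γ]
  [DistribMulAction Γ V] [SMulCommClass Γ F V]

theorem ex_two {a b : ℕ} (h : 2 ≤ NN Γ (Fl F V a b b b)) : ∃ A B A' B' : Submodule F V, A ≤ B ∧
    A' ≤ B' ∧ dm A = a ∧ dm B = b ∧ dm A' = a ∧ dm B' = b ∧ ¬ Eqv Γ (A, B) (A', B') := by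
  by_contra hc
  push Not at hc
  have := NN2_le_one hc
  omega

theorem two_orb {a b : ℕ} (h : NN Γ (Fl F V a b b b) ≤ 2) (Q : Submodule F V → Submodule F V → Prop)
    (hQ : ∀ (γ : Γ) A B, Q (γ • A) (γ • B) ↔ Q A B) {A0 B0 A B A' B' : Submodule F V}
    (a0 : dm A0 = a) (b0 : dm B0 = b) (c0 : A0 ≤ B0) (d0 : Q A0 B0) (a1 : dm A = a) (b1 : dm B = b)
    (c1 : A ≤ B) (a2 : dm A' = a) (b2 : dm B' = b) (c2 : A' ≤ B') (d1 : ¬ Q A B) (d2 : ¬ Q A' B') :
    ∃ γ : Γ, γ • A = A' ∧ γ • B = B' := by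
  classical
  obtain ⟨g, e1, e2, -⟩ := eqv_iff.1 (eqv_of_inv (fun z => if Q z.1 z.2.1 then 0 else 1)
    (fun g z => by simp [hQ]) h (fun i hi => by
      interval_cases i
      · exact ⟨(A0, B0, B0, B0), ⟨c0, le_rfl, le_rfl, a0, b0, b0, b0⟩, if_pos d0⟩
      · exact ⟨(A, B, B, B), ⟨c1, le_rfl, le_rfl, a1, b1, b1, b1⟩, if_neg d1⟩)
    (x := (A, B, B, B)) (y := (A', B', B', B')) ⟨c1, le_rfl, le_rfl, a1, b1, b1, b1⟩
    ⟨c2, le_rfl, le_rfl, a2, b2, b2, b2⟩ (by simp [d1, d2]))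
  exact ⟨g, e1, e2⟩

theorem ex_pure {a b c : ℕ} (h2 : 2 ≤ NN Γ (Fl F V a c c c)) (h3 : NN Γ (Fl F V a b c c) ≤ 3)
    (Q : Submodule F V → Submodule F V → Submodule F V → Prop)
    (hQ : ∀ (γ : Γ) A B C, Q (γ • A) (γ • B) (γ • C) ↔ Q A B C) :
    ∃ A C, dm A = a ∧ dm C = c ∧ A ≤ C ∧ ((∀ B, dm B = b → A ≤ B → B ≤ C → ¬ Q A B C) ∨
      ∀ B, dm B = b → A ≤ B → B ≤ C → ¬ ¬ Q A B C) := by
  classical
  by_contra hc
  simp only [not_exists, not_and, not_or, not_forall, not_not, exists_prop] at hc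
  obtain ⟨A, C, A', C', h4, h5, h6, h7, h8, h9, h10⟩ := ex_two h2
  obtain ⟨⟨B1, b1⟩, B2, b2⟩ := hc A C h6 h7 h4
  obtain ⟨⟨B3, b3⟩, B4, b4⟩ := hc A' C' h8 h9 h5
  have := inv_le (Γ := Γ) (S := Fl F V a b c c)
    (fun z => (if Q z.1 z.2.1 z.2.2.1 then 1 else 0) + if Eqv Γ (A, C) (z.1, z.2.2.1) then 2 else 0)
    (fun g z => by simp [hQ, eqv_smul2]) (m := 4) fun i hi => by
      interval_cases i
      · exact ⟨(A', B4, C', C'), ⟨b4.2.1, b4.2.2.1, le_rfl, h8, b4.1, h9, h9⟩, by simp [b4, h10]⟩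
      · exact ⟨(A', B3, C', C'), ⟨b3.2.1, b3.2.2.1, le_rfl, h8, b3.1, h9, h9⟩, by simp [b3, h10]⟩
      · exact ⟨(A, B2, C, C), ⟨b2.2.1, b2.2.2.1, le_rfl, h6, b2.1, h7, h7⟩,
          by simp [b2, Eqv.refl]⟩
      · exact ⟨(A, B1, C, C), ⟨b1.2.1, b1.2.2.1, le_rfl, h6, b1.1, h7, h7⟩,
          by simp [b1, Eqv.refl]⟩
  omega

theorem dm_sup_btw {L E E' : Submodule F V} (h1 : L ≤ E) (h2 : L ≤ E') (h3 : dm E = dm L + 1)
    (h4 : dm E' = dm L + 1) (h : E ≠ E') : dm (E ⊔ E') = dm L + 2 := by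
  have := pt_sup h1 h3 h2 (not_le_of_ne (h3.trans h4.symm) h)
  omega

theorem kill221 (hn : finrank F V = 5) (h14 : NN Γ (Fl F V 1 4 4 4) ≤ 1)
    (h34 : NN Γ (Fl F V 3 4 4 4) ≤ 1) (h12 : NN Γ (Fl F V 1 2 2 2) ≤ 1)
    (h23 : NN Γ (Fl F V 2 3 3 3) = 2) (h13 : NN Γ (Fl F V 1 3 3 3) = 2)
    (h24 : NN Γ (Fl F V 2 4 4 4) = 2) (h123 : NN Γ (Fl F V 1 2 3 3) = 3)
    (h234 : NN Γ (Fl F V 2 3 4 4) = 3) (h1234 : NN Γ (Fl F V 1 2 3 4) = 6) : False := by
  obtain ⟨L0, E0, L1, E1, a1, a2, a3, a4, a5, a6, a7⟩ := ex_two h23.ge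
  let D : Five.Dt (Submodule F V) := ⟨(· ≤ ·), fun A => dm A = 1, fun A => dm A = 2,
    fun A => dm A = 3, fun A => dm A = 4, fun L E => Eqv Γ (L0, E0) (L, E)⟩
  have hfull : ∀ f : Submodule F V → Submodule F V → Submodule F V → Submodule F V → ℕ,
      (∀ (γ : Γ) a b c d, f (γ • a) (γ • b) (γ • c) (γ • d) = f a b c d) →
      (∀ i < 6, ∃ x L E T, D.Fg x L E T ∧ f x L E T = i) → ∀ x L E T x' L' E' T', D.Fg x L E T →
      D.Fg x' L' E' T' → f x L E T = f x' L' E' T' →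
      ∃ γ : Γ, γ • x = x' ∧ γ • L = L' ∧ γ • E = E' ∧ γ • T = T' := by
    intro f h1 h2 x L E T x' L' E' T' f1 f2 h3
    have key : ∀ {x L E T}, D.Fg x L E T → (x, L, E, T) ∈ Fl F V 1 2 3 4 :=
      fun ⟨b1, b2, b3, b4, b5, b6, b7⟩ => ⟨b5, b6, b7, b1, b2, b3, b4⟩
    exact eqv_iff.1 (eqv_of_inv (fun z => f z.1 z.2.1 z.2.2.1 z.2.2.2) (fun g z => h1 g _ _ _ _)
      h1234.le (fun i hi => by
        obtain ⟨x, L, E, T, b1, b2⟩ := h2 i hi
        exact ⟨_, key b1, b2⟩) (key f1) (key f2) h3)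
  refine Five.Gm.false (Γ := Γ) (q := Fintype.card F) (D := D) ⟨?_, ?_⟩
    (fun x T x' T' b1 b2 b3 b4 b5 b6 => tr2 h14 b3 b6 b1 b2 b4 b5)
    (fun x L L' T b1 b2 b3 b4 b5 b6 b7 b8 b9 => ⟨L ⊔ L', ?_, le_sup_left, le_sup_right,
      sup_le b7 b8⟩)
  · refine ⟨two_le_q, le_trans, smul_le_smul, fun γ a => by simp [D], fun γ a => by simp [D],
      fun γ a b => eqv_smul2 γ _ a b, fun L T b1 b2 b3 => ?_, fun E b1 => ?_, fun L b1 => ?_,
      fun L E E' b1 b2 b3 b4 b5 b6 => ?_,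
      fun E T E' T' b1 b2 b3 b4 b5 b6 => tr2 h34 b3 b6 b1 b2 b4 b5,
      fun Q hQ ⟨L, T, b1, b2, b3, b4⟩ _ _ _ _ c1 c2 c3 c4 c5 c6 c7 c8 =>
        two_orb h24.le Q hQ b1 b2 b3 b4 c1 c2 c3 c4 c5 c6 c7 c8,
      ex_pure h24.ge h234.le (fun L E _ => Eqv Γ (L0, E0) (L, E)) (fun γ a b _ => eqv_smul2 γ _ a b),
      hfull, ⟨L0, E0, a3, a4, a1, Eqv.refl _⟩, ⟨L1, E1, a5, a6, a2, a7⟩⟩
    · rw [← θ_two, ← card_up' b3 (k := 3) (m := 2) (by simp only [D] at b1; omega)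
        (by simp only [D] at b1 b2; omega)]
      congr 1; ext E; simp only [D, Set.mem_setOf_eq]; tauto
    · rw [← θ_two, ← card_up' (le_top : E ≤ ⊤) (k := 4) (m := 2) (by simp only [D] at b1; omega)
        (by simp only [D] at b1; rw [dm_top]; omega)]
      congr 1; ext E; simp [D, and_comm]
    · rw [← θ_three, ← card_up' (le_top : L ≤ ⊤) (k := 3) (m := 3) (by simp only [D] at b1; omega)
        (by simp only [D] at b1; rw [dm_top]; omega)]
      congr 1; ext E; simp [D, and_comm]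
    · simp only [D] at b1 b2 b3 b4 b5 ⊢
      have := dm_sup_btw b4 b5 (by omega) (by omega) b6
      exact ncard_eq_one_of (E ⊔ E') ⟨by omega, le_sup_left, le_sup_right⟩
        fun T h => (eq_of_dm (sup_le h.2.1 h.2.2) (by have := h.1; omega)).symm
  · refine ⟨two_le_q, fun h h' => le_trans h' h, fun γ a b => smul_le_smul γ b a,
      fun γ a => by simp [D], fun γ a => by simp [D],
      fun γ a b => eqv_smul2 γ _ b a, fun E x b1 b2 b3 => ?_, fun L b1 => ?_, fun E b1 => ?_,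
      fun E L L' b1 b2 b3 b4 b5 b6 => ?_,
      fun L x L' x' b1 b2 b3 b4 b5 b6 => (tr2 h12 b3 b6 b2 b1 b5 b4).imp fun _ h => h.symm,
      fun Q hQ ⟨E, x, b1, b2, b3, b4⟩ _ _ _ _ c1 c2 c3 c4 c5 c6 c7 c8 =>
        (two_orb h13.le (fun a b => Q b a) (fun γ a b => hQ γ b a) b2 b1 b3 b4 c2 c1 c3 c5 c4 c6 c7
          c8).imp fun _ h => h.symm, ?_,
      fun f h1 h2 T E L x T' E' L' x' f1 f2 h3 => ?_,
      ⟨E0, L0, a4, a3, a1, Eqv.refl _⟩, ⟨E1, L1, a6, a5, a2, a7⟩⟩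
    · rw [← θ_two, ← card_up' (show x ≤ E from b3) (k := 2) (m := 2)
        (by simp only [D] at b2; omega) (by simp only [D] at b1 b2; omega)]
      congr 1; ext E; simp only [D, Set.mem_setOf_eq]; tauto
    · rw [← θ_two, ← card_up' (bot_le : ⊥ ≤ L) (k := 1) (m := 2) (by rw [dm_bot])
        (by simp only [D] at b1; rw [dm_bot]; omega)]
      congr 1; ext E; simp [D, and_comm]
    · rw [← θ_three, ← card_dn' (bot_le : ⊥ ≤ E) (k := 2) (m := 3) (by simp only [D] at b1; omega)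
        (by simp only [D] at b1; rw [dm_bot]; omega)]
      congr 1; ext E; simp [D, and_comm]
    · simp only [D] at b1 b2 b3 b4 b5 ⊢
      have := hp_inf b5 (by omega) b4 (not_le_of_ne (b2.trans b3.symm) b6)
      exact ncard_eq_one_of (L ⊓ L') ⟨by omega, inf_le_left, inf_le_right⟩
        fun T h => eq_of_dm (le_inf h.2.1 h.2.2) (by have := h.1; omega)
    · obtain ⟨x, E, b1, b2, b3, b4⟩ := ex_pure h13.ge h123.le (fun _ L E => Eqv Γ (L0, E0) (L, E))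
        (fun γ _ a b => eqv_smul2 γ _ a b)
      exact ⟨E, x, b2, b1, b3, b4.imp (fun h L c1 c2 c3 => h L c1 c3 c2)
        (fun h L c1 c2 c3 => h L c1 c3 c2)⟩
    · obtain ⟨γ, e1, e2, e3, e4⟩ := hfull (fun a b c d => f d c b a) (fun γ a b c d => h1 γ d c b a)
        (fun i hi => by
          obtain ⟨T, E, L, x, b1, b2⟩ := h2 i hi
          exact ⟨x, L, E, T, b1.du, b2⟩) x L E T x' L' E' T' f1.du f2.du h3
      exact ⟨γ, e4, e3, e2, e1⟩
  · simp only [D] at b1 b2 b3 b5 b6 ⊢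
    have := dm_sup_btw b5 b6 (by omega) (by omega) b9
    omega

/-- double counting of consecutive flags in an invariant relation -/
theorem flag_ratio {s : ℕ} (hs : s + 1 ≤ finrank F V) (h1 : NN Γ (Fl F V s s s s) ≤ 1)
    (h2 : NN Γ (Fl F V (s + 1) (s + 1) (s + 1) (s + 1)) ≤ 1)
    (Q : Submodule F V → Submodule F V → Prop) (hQ : ∀ (γ : Γ) A B, Q (γ • A) (γ • B) ↔ Q A B)
    {A B : Submodule F V} (a1 : dm A = s) (b2 : dm B = s + 1) :
    {C | dm C = s ∧ C ≤ B ∧ Q C B}.ncard * θ (Fintype.card F) (finrank F V - s) =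
      {D | dm D = s + 1 ∧ A ≤ D ∧ Q A D}.ncard * θ (Fintype.card F) (s + 1) := by
  set q := Fintype.card F
  set a := {C | dm C = s ∧ C ≤ B ∧ Q C B}.ncard
  set b := {D | dm D = s + 1 ∧ A ≤ D ∧ Q A D}.ncard
  have d1 := dc {C : Submodule F V | dm C = s} {D : Submodule F V | dm D = s + 1}
    (fun C D => C ≤ D ∧ Q C D) (a := b) (b := a) (fun C hC => by
      obtain ⟨g, rfl⟩ := tr1 h1 a1 hC
      exact ncard_eq_of_smul g fun D => by simp [hQ]) (fun D hD => by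
      obtain ⟨g, rfl⟩ := tr1 h2 b2 hD
      exact ncard_eq_of_smul g fun D => by simp [hQ])
  have d2 := dc {C : Submodule F V | dm C = s} {D : Submodule F V | dm D = s + 1}
    (fun C D => C ≤ D) (a := θ q (finrank F V - s)) (b := θ q (s + 1)) (fun C hC => by
      rw [← card_up' (le_top : C ≤ ⊤) (k := s + 1) (m := finrank F V - s) (by rw [hC])
        (by rw [dm_top, hC]; omega)]
      congr 1; ext C; simp [and_comm]) fun D hD => by
      rw [← card_dn' (bot_le : ⊥ ≤ D) (k := s) (m := s + 1) hD.symm (by rw [dm_bot]; simpa using hD)]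
      congr 1; ext C; simp [and_comm]
  have p1 : 0 < {C : Submodule F V | dm C = s}.ncard := (Set.ncard_pos (Set.toFinite _)).2 ⟨A, a1⟩
  have p2 : 0 < {C : Submodule F V | dm C = s + 1}.ncard :=
    (Set.ncard_pos (Set.toFinite _)).2 ⟨B, b2⟩
  refine Nat.eq_of_mul_eq_mul_left (mul_pos p1 p2) ?_
  calc _ = ({C : Submodule F V | dm C = s + 1}.ncard * a) *
        ({C : Submodule F V | dm C = s}.ncard * θ q (finrank F V - s)) := by ring
    _ = _ := by rw [← d1, d2]; ring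

theorem arith311 {q c a b : ℤ} (c1 : 1 ≤ c) (c2 : c ≤ q)
    (s4 : 0 = c * (q ^ 2 + 1) * (c * (q ^ 2 + 1) + (q ^ 2 + q)) -
      (a + b) * (c * (q ^ 2 + 1) * (q ^ 2 + q + 1)) + (q ^ 2 + 1) * (q ^ 2 + q + 1) * (a * b)) :
    False := by
  have d1 : q ^ 2 + q + 1 ∣ c * (c * q + 1) * q :=
    ⟨(a + b - 1) * (c * (q ^ 2 + 1)) - (q ^ 2 + 1) * (a * b) - c * (c * (q ^ 2 + 1) - c * q - 1),
      by linear_combination -s4⟩
  have d2 : q ^ 2 + q + 1 ∣ c * (c * q + 1) :=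
    IsCoprime.dvd_of_dvd_mul_right ⟨1, -(q + 1), by ring⟩ d1
  have d3 : q ^ 2 + q + 1 ∣ c * (q + 1 - c) := by
    rw [show c * (q + 1 - c) = (q + 1) * (c * (c * q + 1)) - c ^ 2 * (q ^ 2 + q + 1) by ring]
    exact (d2.mul_left (q + 1)).sub (Dvd.intro_left (c ^ 2) rfl)
  have := Int.le_of_dvd (mul_pos (by omega) (by omega)) d3
  nlinarith

theorem kill311 (hn : finrank F V = 5) (h1 : NN Γ (Fl F V 1 1 1 1) ≤ 1)
    (h2 : NN Γ (Fl F V 2 2 2 2) ≤ 1) (h13 : NN Γ (Fl F V 1 3 3 3) ≤ 2) :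
    NN Γ (Fl F V 1 2 2 2) ≤ 1 := by
  classical
  have := Fintype.ofFinite (Submodule F V)
  refine NN2_le_one fun x L x' L' e1 e2 a1 b1 a2 b2 => ?_
  by_contra hne
  have hr := flag_ratio (s := 1) (by omega) h1 h2 (fun y M => Eqv Γ (x, L) (y, M))
    (fun γ a b => eqv_smul2 γ _ a b) a1 b2
  set q := Fintype.card F with hq
  set c := {C | dm C = 1 ∧ C ≤ L' ∧ Eqv Γ (x, L) (C, L')}.ncard
  have hc : c < q + 1 := by
    rw [← θ_two, ← card_up' (bot_le : ⊥ ≤ L') (k := 1) (m := 2) (by rw [dm_bot])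
      (by rw [dm_bot]; omega)]
    exact Set.ncard_lt_ncard ⟨fun C h => ⟨bot_le, h.2.1, h.1⟩,
      fun h => hne (h (show x' ∈ {P | ⊥ ≤ P ∧ P ≤ L' ∧ dm P = 1} from ⟨bot_le, e2, a2⟩)).2.2⟩
  set S := (Finset.univ.filter fun M : Submodule F V => dm M = 2).filter
    fun M => x ≤ M ∧ Eqv Γ (x, L) (x, M) with hS
  set T := Finset.univ.filter fun E : Submodule F V => x ≤ E ∧ dm E = 3 with hT
  have hs : S.card = c * (q ^ 2 + 1) := by
    rw [hS, card_filter_ncard]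
    rw [hn, θ_four, θ_two] at hr
    refine Nat.eq_of_mul_eq_mul_right (Nat.succ_pos q) ?_
    simp only [Nat.succ_eq_add_one]
    rw [← hr]; ring
  have hS0 : 0 < S.card := Finset.card_pos.2 ⟨L, by simp [hS, b1, e1, Eqv.refl]⟩
  have up : ∀ M : Submodule F V, x ≤ M → dm M = 2 →
      {E | (x ≤ E ∧ dm E = 3) ∧ M ≤ E}.ncard = q ^ 2 + q + 1 := fun M h h' => by
    rw [← θ_three, ← card_up' (le_top : M ≤ ⊤) (k := 3) (m := 3) (by omega) (by rw [dm_top]; omega)]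
    congr 1; ext E
    exact ⟨fun a => ⟨a.2, le_top, a.1.2⟩, fun a => ⟨⟨h.trans a.1, a.2.2⟩, a.1⟩⟩
  have hT' : T.card = (q ^ 2 + 1) * (q ^ 2 + q + 1) := by
    have d := dc {M | x ≤ M ∧ M ≤ ⊤ ∧ dm M = 2} {E | x ≤ E ∧ dm E = 3} (· ≤ ·)
      (fun M h => up M h.1 h.2.2) (b := θ q 2) fun E h => by
        rw [← card_up' h.1 (k := 2) (m := 2) (by omega) (by have := h.2; omega)]
        congr 1; ext M; simp only [Set.mem_setOf_eq, le_top]; tauto
    rw [card_up' le_top (m := 4) (by omega) (by rw [dm_top]; omega), θ_four, θ_two] at d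
    rw [← Set.ncard_coe_finset, hT, Finset.coe_filter_univ]
    refine Nat.eq_of_mul_eq_mul_right (Nat.succ_pos q) ?_
    simp only [Nat.succ_eq_add_one]
    rw [← d]; ring
  let t : Submodule F V → Submodule F V → ℕ := fun y E =>
    {M | dm M = 2 ∧ (y ≤ M ∧ Eqv Γ (x, L) (y, M)) ∧ M ≤ E}.ncard
  have ht : ∀ E, (S.filter fun M => M ≤ E).card = t x E := fun E => by
    rw [hS, Finset.filter_filter, card_filter_ncard]
  have tinv : ∀ (g : Γ) y E, t (g • y) (g • E) = t y E := fun g y E =>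
    ncard_eq_of_smul g fun M => by simp [eqv_smul2]
  obtain ⟨a, b, hab⟩ : ∃ a b, ∀ E ∈ T, t x E = a ∨ t x E = b := by
    by_contra hc
    push Not at hc
    obtain ⟨E0, h0, -⟩ := hc 0 0
    obtain ⟨E1, h1, h1', -⟩ := hc (t x E0) 0
    obtain ⟨E2, h2, h2', h2''⟩ := hc (t x E0) (t x E1)
    have key : ∀ E ∈ T, (x, E, E, E) ∈ Fl F V 1 3 3 3 := fun E h => by
      obtain ⟨k1, k2⟩ := (Finset.mem_filter.1 h).2
      exact ⟨k1, le_rfl, le_rfl, a1, k2, k2, k2⟩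
    have := inv_le (Γ := Γ) (S := Fl F V 1 3 3 3)
      (fun z => if t z.1 z.2.1 = t x E0 then 0 else if t z.1 z.2.1 = t x E1 then 1 else 2)
      (fun g z => by simp only [Prod.smul_fst, Prod.smul_snd, tinv]) (m := 3) fun i hi => by
        interval_cases i
        · exact ⟨_, key E0 h0, by simp⟩
        · exact ⟨_, key E1 h1, by simp [h1']⟩
        · exact ⟨_, key E2 h2, by simp [h2', h2'']⟩
    omega
  have mS : ∀ M ∈ S, x ≤ M ∧ dm M = 2 := fun M h =>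
    ⟨(Finset.mem_filter.1 h).2.1, (Finset.mem_filter.1 (Finset.mem_filter.1 h).1).2⟩
  have s1 : ∑ E ∈ T, (t x E : ℤ) = S.card * (q ^ 2 + q + 1) := by
    have := Finset.sum_card_bipartiteAbove_eq_sum_card_bipartiteBelow (s := S) (t := T) (· ≤ ·)
    simp only [Finset.bipartiteAbove, Finset.bipartiteBelow, ht] at this
    rw [Finset.sum_congr rfl (fun M h => by
      rw [hT, card_filter_ncard, up M (mS M h).1 (mS M h).2]), Finset.sum_const, smul_eq_mul] at this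
    exact_mod_cast this.symm
  have s2 : ∑ E ∈ T, (t x E : ℤ) ^ 2 = S.card * (S.card + (q ^ 2 + q)) := by
    have := sum_sq_inc S T (· ≤ ·) (fun _ => 1)
    simp only [Finset.sum_const, nsmul_eq_mul, mul_one, one_mul] at this
    have e : ∀ M ∈ S, ∀ M' ∈ S, ((T.filter fun E => M ≤ E ∧ M' ≤ E).card : ℤ) =
        1 + if M = M' then (q : ℤ) ^ 2 + q else 0 := by
      intro M h M' h'
      rw [hT, card_filter_ncard]
      split_ifs with k
      · subst k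
        simp only [and_self]
        rw [up M (mS M h).1 (mS M h).2]; push_cast; ring
      · have := dm_sup_btw (mS M h).1 (mS M' h').1 (by rw [(mS M h).2, a1])
          (by rw [(mS M' h').2, a1]) k
        have k2 : {E | (x ≤ E ∧ dm E = 3) ∧ M ≤ E ∧ M' ≤ E}.ncard = 1 :=
          ncard_eq_one_of (M ⊔ M') ⟨⟨(mS M h).1.trans le_sup_left, by omega⟩, le_sup_left,
            le_sup_right⟩ fun E h => (eq_of_dm (sup_le h.2.1 h.2.2) (by have := h.1.2; omega)).symm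
        rw [k2]; simp
    calc _ = ∑ E ∈ T, ((S.filter fun M => M ≤ E).card : ℤ) ^ 2 := by simp only [ht]
      _ = ∑ M ∈ S, ∑ M' ∈ S, ((T.filter fun E => M ≤ E ∧ M' ≤ E).card : ℤ) := by convert this
      _ = ∑ M ∈ S, ((S.card : ℤ) + (q ^ 2 + q)) := Finset.sum_congr rfl fun M h => by
        rw [Finset.sum_congr rfl (e M h), Finset.sum_add_distrib, Finset.sum_ite_eq_of_mem S M _ h]
        simp
      _ = _ := by rw [Finset.sum_const, nsmul_eq_mul]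
  have s3 : ∑ E ∈ T, ((t x E : ℤ) - a) * (t x E - b) = 0 := Finset.sum_eq_zero fun E h => by
    rcases hab E h with h | h <;> simp [h]
  have s4 : ∑ E ∈ T, ((t x E : ℤ) - a) * (t x E - b) =
      ∑ E ∈ T, (t x E : ℤ) ^ 2 - (a + b) * ∑ E ∈ T, (t x E : ℤ) + T.card * (a * b) := by
    rw [Finset.mul_sum, ← Finset.sum_sub_distrib, ← nsmul_eq_mul, ← Finset.sum_const,
      ← Finset.sum_add_distrib]
    exact Finset.sum_congr rfl fun _ _ => by ring
  rw [s3, s1, s2, hT', hs] at s4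
  push_cast at s4
  have hc0 : 0 < c := Nat.pos_of_ne_zero fun h => by rw [hs, h] at hS0; simp at hS0
  exact arith311 (by exact_mod_cast hc0) (by exact_mod_cast Nat.lt_succ_iff.1 hc) s4

end Cfsg.Agent.R3
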