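import Cfsg.Agent.R3.Bridge

/-! Orbit numbers on flags for a rank three action. -/

set_option autoImplicit false

namespace Cfsg.Agent.R3

open Cfsg Cfsg.Agent.GLn MulAction Module Finset
open scoped Pointwise

theorem tcG_comm (α β : Fin 5 → ℕ) : tcG α β = tcG β α := tableCount_comm α β
theorem tcG_perm (α β : Fin 5 → ℕ) (σ : Equiv.Perm (Fin 5)) : tcG (α ∘ σ) β = tcG α β :=
  tableCount_perm α β σ

theorem tcG_two {k s : ℕ} (μ : Fin 5 → ℕ) (h : k + s = ∑ i, μ i) :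
    tcG ![k, 0, 0, 0, s] μ = c4 (μ 0) (μ 1) (μ 2) (μ 3) (μ 4) k := by
  rw [tcG_eq, ← tcl_two (s := s) (by rw [h, Fin.sum_univ_five])]; rfl

/-- the numerical condition -/
def Psd (n : ℕ) (M : (Fin 5 → ℕ) → ℕ) : Prop :=
  ∀ (ι : Type) [Fintype ι] (c : ι → ℤ) (β : ι → Fin 5 → ℕ), (∀ i, ∑ k, β i k = n) →
    (∑ i, c i * ((M (β i) : ℤ) - 1)) ^ 2 ≤ ∑ i, ∑ j, c i * c j * tcG (β i) (β j)

namespace Psd
variable {n : ℕ} {M : (Fin 5 → ℕ) → ℕ} (h : Psd n M)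
include h

theorem perm {β : Fin 5 → ℕ} (hβ : ∑ k, β k = n) (σ : Equiv.Perm (Fin 5)) : M (β ∘ σ) = M β := by
  have := h (Fin 2) ![1, -1] ![β ∘ σ, β] (by
    intro i; fin_cases i
    · exact (Equiv.sum_comp σ β).trans hβ
    · exact hβ)
  simp only [Fin.sum_univ_two, Matrix.cons_val_zero, Matrix.cons_val_one, tcG_perm,
    tcG_comm β (β ∘ σ)] at this
  have h1 : ((M (β ∘ σ) : ℤ) - M β) ^ 2 = 0 := by nlinarith [sq_nonneg ((M (β ∘ σ) : ℤ) - M β)]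
  have h2 := pow_eq_zero_iff two_ne_zero |>.1 h1
  omega

theorem eq_of_norm_one {ι : Type} [Fintype ι] (c : ι → ℤ) (β : ι → Fin 5 → ℕ)
    (hβ : ∀ i, ∑ k, β i k = n) (h1 : ∑ i, ∑ j, c i * c j * tcG (β i) (β j) = 1)
    (h2 : 1 ≤ ∑ i, c i * ((M (β i) : ℤ) - 1)) {μ : Fin 5 → ℕ} (hμ : ∑ k, μ k = n) :
    (M μ : ℤ) - 1 = ∑ i, c i * tcG (β i) μ := by
  have h3 := h ι c β hβ
  have h4 : ∑ i, c i * ((M (β i) : ℤ) - 1) = 1 := by rw [h1] at h3; nlinarith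
  have key : ∀ t : ℤ, ((M μ : ℤ) - 1 + t) ^ 2 ≤
      tcG μ μ + 2 * t * ∑ i, c i * tcG (β i) μ + t ^ 2 := by
    intro t
    have h5 := h (Option ι) (fun o => o.elim 1 fun i => t * c i) (fun o => o.elim μ β)
      (by rintro (_ | i); exacts [hμ, hβ i])
    simp only [Fintype.sum_option, Option.elim, one_mul, mul_one, tcG_comm μ (β _)] at h5
    have e1 : ∑ i, t * c i * ((M (β i) : ℤ) - 1) = t := by
      simp only [mul_assoc, ← mul_sum, h4, mul_one]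
    have e2 : ∑ i, t * c i * (tcG (β i) μ : ℤ) = t * ∑ i, c i * tcG (β i) μ := by
      simp only [mul_assoc, ← mul_sum]
    have e3 : ∑ i, ∑ j, t * c i * (t * c j) * (tcG (β i) (β j) : ℤ) = t ^ 2 := by
      rw [← mul_one (t ^ 2), ← h1, mul_sum]
      refine sum_congr rfl fun i _ => ?_
      rw [mul_sum]; exact sum_congr rfl fun j _ => by ring
    rw [e1, sum_add_distrib, e2, e3] at h5
    linarith
  by_contra hc
  set a := (M μ : ℤ) - 1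
  set b := ∑ i, c i * (tcG (β i) μ : ℤ)
  have h6 : 1 ≤ (a - b) ^ 2 := sq_pos_of_ne_zero (sub_ne_zero.2 hc)
  have h7 := key ((a - b) * (tcG μ μ + 1))
  have h8 : (0 : ℤ) ≤ tcG μ μ := Int.natCast_nonneg _
  nlinarith [sq_nonneg a]

theorem two {j : ℕ} (h1 : 1 ≤ j) (h2 : 2 * j ≤ n) (h3 : M ![j - 1, 0, 0, 0, n - (j - 1)] = 1)
    (h4 : 2 ≤ M ![j, 0, 0, 0, n - j]) {μ : Fin 5 → ℕ} (hμ : ∑ k, μ k = n) :
    M μ + c4 (μ 0) (μ 1) (μ 2) (μ 3) (μ 4) (j - 1) = 1 + c4 (μ 0) (μ 1) (μ 2) (μ 3) (μ 4) j := by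
  have e : ∀ k ≤ n, ∀ {μ : Fin 5 → ℕ}, ∑ k, μ k = n → tcG ![k, 0, 0, 0, n - k] μ =
      c4 (μ 0) (μ 1) (μ 2) (μ 3) (μ 4) k := fun k hk μ hμ => tcG_two μ (by omega)
  have s : ∀ k ≤ n, ∑ i, ![k, 0, 0, 0, n - k] i = n := fun k hk => by
    simp [Fin.sum_univ_five]; omega
  have := h.eq_of_norm_one ![1, -1] ![![j, 0, 0, 0, n - j], ![j - 1, 0, 0, 0, n - (j - 1)]]
    (by intro i; fin_cases i; exacts [s j (by omega), s (j - 1) (by omega)]) ?_ ?_ hμ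
  · simp only [Fin.sum_univ_two, Matrix.cons_val_zero, Matrix.cons_val_one,
      e j (by omega) hμ, e (j - 1) (by omega) hμ] at this
    omega
  · simp only [Fin.sum_univ_two, Matrix.cons_val_zero, Matrix.cons_val_one,
      e j (by omega) (s j (by omega)), e j (by omega) (s (j - 1) (by omega)),
      e (j - 1) (by omega) (s j (by omega)), e (j - 1) (by omega) (s (j - 1) (by omega))]
    simp only [Matrix.cons_val]
    rw [c4_sub (by omega), c4_sub (by omega), c4_sub (by omega), c4_sub (by omega)]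
    omega
  · simp only [Fin.sum_univ_two, Matrix.cons_val_zero, Matrix.cons_val_one, h3]
    omega

end Psd

theorem five_le {M : (Fin 5 → ℕ) → ℕ} (h : Psd 5 M) (h1 : M ![2, 0, 0, 0, 3] = 1)
    (h2 : M ![0, 0, 0, 0, 5] = 1) : M ![1, 2, 0, 0, 2] ≤ 2 := by
  have := h (Fin 3) ![1, -2, 1] ![![1, 2, 0, 0, 2], ![2, 0, 0, 0, 3], ![0, 0, 0, 0, 5]] (by decide)
  have e : ∑ i, ∑ j, ![1, -2, 1] i * ![1, -2, 1] j *
      (tcG (![![1, 2, 0, 0, 2], ![2, 0, 0, 0, 3], ![0, 0, 0, 0, 5]] i)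
        (![![1, 2, 0, 0, 2], ![2, 0, 0, 0, 3], ![0, 0, 0, 0, 5]] j) : ℤ) = 2 := by
    simp only [tcG_eq]; decide +kernel
  rw [e] at this
  simp only [Fin.sum_univ_three, Matrix.cons_val, h1, h2] at this
  by_contra hc
  have : (3 : ℤ) ≤ M ![1, 2, 0, 0, 2] := by omega
  push_cast at *
  nlinarith

theorem five_eq {M : (Fin 5 → ℕ) → ℕ} (h : Psd 5 M) (h1 : M ![2, 0, 0, 0, 3] = 1)
    (h2 : M ![1, 0, 0, 0, 4] = 1) (h3 : M ![1, 1, 0, 0, 3] = 1) (h4 : 2 ≤ M ![1, 2, 0, 0, 2]) :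
    M ![2, 1, 0, 0, 2] = 2 ∧ M ![1, 2, 0, 0, 2] = 2 ∧ M ![2, 2, 0, 0, 1] = 2 ∧
    M ![1, 1, 1, 0, 2] = 3 ∧ M ![1, 1, 2, 0, 1] = 3 ∧ M ![1, 2, 1, 0, 1] = 3 ∧
    M ![2, 1, 1, 0, 1] = 3 ∧ M ![1, 1, 1, 1, 1] = 6 := by
  have key := fun μ hμ => h.eq_of_norm_one (μ := μ) ![1, -1, -1, 1]
    ![![1, 2, 0, 0, 2], ![2, 0, 0, 0, 3], ![1, 1, 0, 0, 3], ![1, 0, 0, 0, 4]] (by decide)
    (by simp only [tcG_eq]; decide +kernel)
    (by simp only [Fin.sum_univ_four, Matrix.cons_val, h1, h2, h3]; omega) hμ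
  simp only [tcG_eq] at key
  have k : ∀ μ (m : ℕ), ∑ k, μ k = 5 → ∑ i, ![1, -1, -1, 1] i *
      (tcl (List.ofFn (![![1, 2, 0, 0, 2], ![2, 0, 0, 0, 3], ![1, 1, 0, 0, 3], ![1, 0, 0, 0, 4]] i))
        (μ 0) (μ 1) (μ 2) (μ 3) (μ 4) : ℤ) = m - 1 → M μ = m := fun μ m hμ e => by
    have := (key μ hμ).trans e; omega
  refine ⟨k _ _ ?_ ?_, k _ _ ?_ ?_, k _ _ ?_ ?_, k _ _ ?_ ?_, k _ _ ?_ ?_, k _ _ ?_ ?_, k _ _ ?_ ?_,
    k _ _ ?_ ?_⟩ <;> decide +kernel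

section Lin
variable {F : Type*} [Field F] [Fintype F] {n : ℕ}

local notation "SL" => Matrix.SpecialLinearGroup (Fin n) F
local notation "V" => Fin n → F

theorem exists_psd (hn : 5 ≤ n) (X : Type*) [Finite X] [MulAction SL X] [IsPretransitive SL X]
    (x0 : X) (h3 : Nat.card (orbitRel.Quotient (stabilizer SL x0) X) = 3)
    (hq : ¬ (Fintype.card F : ℤ) ∣ Nat.card X - 1) : ∃ M, Psd n M ∧
      ∀ a b c e, a ≤ b → b ≤ c → c ≤ e → e ≤ n →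
        NN (stabilizer SL x0) (Fl F V a b c e) = M ![a, b - a, c - b, e - c, n - e] := by
  classical
  have : Nonempty X := ⟨x0⟩
  refine ⟨fun β => Nat.card (orbitRel.Quotient SL (X × Cos F (ext5 n β))), fun ι _ c β hβ => ?_,
    fun a b c e h1 h2 h4 h5 => ?_⟩
  · have := psd (by omega) X (by
      rw [card_orb_prod x0 id (fun _ _ => rfl) Function.injective_id, NN, Set.range_id,
        Set.image_univ, Set.range_eq_univ.2 Quotient.mk_surjective, Set.ncard_univ, h3]) hq c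
      (fun i => ext5 n (β i)) fun i => (ext5_sum hn _).trans (hβ i)
    simpa only [tableCount_ext5 hn] using this
  · obtain ⟨φ, h6, h7, h8⟩ := exists_phi (F := F) hn h1 h2 h4 h5
    rw [← h8, ← card_orb_prod x0 φ h6 h7]; rfl

end Lin

end Cfsg.Agent.R3
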