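import Cfsg.Agent.R3.TwoB
import Cfsg.Agent.R3.Out
import Cfsg.Agent.R3.Calc
import Cfsg.Agent.R3.Five

/-! The case division on the orbit numbers on flags. -/

set_option autoImplicit false

namespace Cfsg.Agent.R3

open Module
open scoped Pointwise

variable {F V Γ : Type*} [Field F] [Fintype F] [AddCommGroup V] [Module F V] [Finite V] [Group Γ]
  [DistribMulAction Γ V] [SMulCommClass Γ F V]

omit [Fintype F] in
theorem NN_sub_pos {k : ℕ} (hk : k ≤ finrank F V) : 0 < NN Γ (Fl F V k k k k) := by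
  obtain ⟨W, -, h⟩ := exists_above (⊥ : Submodule F V) (k := k) (by rw [dm_bot]; omega) hk
  exact NN_pos ⟨(W, W, W, W), le_rfl, le_rfl, le_rfl, h, h, h, h⟩

theorem NN_zero : NN Γ (Fl F V 0 0 0 0) ≤ 1 :=
  NN2_le_one fun A B A' B' _ _ a b c d => by
    rw [eq_bot_of_dm a, eq_bot_of_dm b, eq_bot_of_dm c, eq_bot_of_dm d]; exact Eqv.refl _

theorem one_row (hn : 4 ≤ finrank F V) (HJ : 2 ≤ NN Γ (Fl F V 1 1 1 1))
    (H : NN Γ (Fl F V 0 0 1 2) ≤ NN Γ (Fl F V 0 0 2 2) + 1) :
    ∃ W : Submodule F V, W ≠ ⊥ ∧ W ≠ ⊤ ∧ ∀ g : Γ, g • W = W := by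
  obtain ⟨W1, W2, x, y, c⟩ := exists_two_sub HJ
  have hB : dm (⊥ : Submodule F V) = 0 := dm_bot
  have key : ∀ (S : Submodule F V → Prop) (U A B : Submodule F V), (∀ (g : Γ) W, S (g • W) ↔ S W) →
      Is S ⊥ U → dm A = 1 → dm B = 1 → S A → ¬ S B →
      ∃ W : Submodule F V, W ≠ ⊥ ∧ W ≠ ⊤ ∧ ∀ g : Γ, g • W = W := by
    intro S U A B hS h a b c d
    refine ⟨U, ?_, ?_, fun g => ?_⟩
    · rintro rfl
      have := dm_mono ((h.2 A bot_le (by omega)).1 c)
      omega
    · rintro rfl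
      exact d ((h.2 B bot_le (by omega)).2 le_top)
    · have := h.smul hS g
      rw [smul_bot] at this
      exact this.unique h
  have hC : ∀ (g : Γ) W, Eqv Γ W1 (g • W) ↔ Eqv Γ W1 W := fun g W => eqv_smul g W1 W
  rcases is_of_NN hC (le_refl ⊥) (by omega) (by rw [hB]; exact H) with ⟨U, h⟩ | ⟨U, h⟩
  · exact key _ U W1 W2 hC h x y (Eqv.refl _) c
  · exact key _ U W2 W1 (fun g W => (hC g W).not) h y x c (not_not.2 (Eqv.refl _))

theorem cls {n : ℕ} (hn : finrank F V = n) (h5 : 5 ≤ n) {M : (Fin 5 → ℕ) → ℕ} (hM : Psd n M)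
    (hN : ∀ a b c e, a ≤ b → b ≤ c → c ≤ e → e ≤ n →
      NN Γ (Fl F V a b c e) = M ![a, b - a, c - b, e - c, n - e]) :
    (∃ W : Submodule F V, W ≠ ⊥ ∧ W ≠ ⊤ ∧ ∀ g : Γ, g • W = W) ∨
      (NN Γ (Fl F V 1 3 3 3) ≤ 1 ∧ NN Γ (Fl F V 2 3 3 3) ≤ 1 ∧
        NN Γ (Fl F V (n - 1) (n - 1) (n - 1) (n - 1)) ≤ 1 ∧ NN Γ (Fl F V 4 4 4 4) ≤ 1) := by
  classical
  have h1 : ∀ k ≤ n, NN Γ (Fl F V k k k k) = M ![k, 0, 0, 0, n - k] := fun k hk => by
    rw [hN k k k k le_rfl le_rfl le_rfl hk, Nat.sub_self]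
  have h2 : ∀ a b, a ≤ b → b ≤ n → NN Γ (Fl F V a b b b) = M ![a, b - a, 0, 0, n - b] :=
    fun a b h h' => by rw [hN a b b b h le_rfl le_rfl h', Nat.sub_self]
  have s01 : ∀ a b c, a + b + c = n → M ![a, b, 0, 0, c] = M ![b, a, 0, 0, c] := fun a b c h => by
    rw [← hM.perm (by simp [Fin.sum_univ_five]; omega) (Equiv.swap 0 1)]
    congr 1; funext i; fin_cases i <;> rfl
  have s04 : ∀ a b c, a + b + c = n → M ![a, b, 0, 0, c] = M ![c, b, 0, 0, a] := fun a b c h => by
    rw [← hM.perm (by simp [Fin.sum_univ_five]; omega) (Equiv.swap 0 4)]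
    congr 1; funext i; fin_cases i <;> rfl
  have h3 : ∀ k ≤ n, NN Γ (Fl F V (n - k) (n - k) (n - k) (n - k)) = NN Γ (Fl F V k k k k) :=
    fun k hk => by rw [h1 _ (by omega), h1 _ hk, s04 _ _ _ (by omega), Nat.sub_sub_self hk]
  have h4 : ∀ s, s + 1 ≤ n → NN Γ (Fl F V 1 (s + 1) (s + 1) (s + 1)) =
      NN Γ (Fl F V s (s + 1) (s + 1) (s + 1)) := fun s hs => by
    rw [h2 _ _ (by omega) hs, h2 _ _ (by omega) hs, s01 _ _ _ (by omega)]; simp
  have h0 := NN_zero (Γ := Γ) (F := F) (V := V)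
  by_cases hx : ∃ j, 2 * j ≤ n ∧ 2 ≤ NN Γ (Fl F V j j j j)
  · obtain ⟨j, ⟨j1, j2⟩, j3⟩ : ∃ j, (2 * j ≤ n ∧ 2 ≤ NN Γ (Fl F V j j j j)) ∧
        ∀ i < j, NN Γ (Fl F V i i i i) ≤ 1 := ⟨Nat.find hx, Nat.find_spec hx, fun i hi => by
      have := Nat.find_min hx hi
      have := (Nat.find_spec hx).1
      omega⟩
    have j4 : 1 ≤ j := by
      rcases j with _ | j
      · omega
      · omega
    have T : ∀ a b c e, a ≤ b → b ≤ c → c ≤ e → e ≤ n → NN Γ (Fl F V a b c e) =
        1 + c4 a (b - a) (c - b) (e - c) (n - e) j - c4 a (b - a) (c - b) (e - c) (n - e) (j - 1) := by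
      intro a b c e e1 e2 e3 e4
      have := hM.two j4 j1 (by
        have := j3 (j - 1) (by omega)
        have := NN_sub_pos (Γ := Γ) (F := F) (V := V) (k := j - 1) (by omega)
        rw [← h1 _ (by omega)]; omega) (by rw [← h1 _ (by omega)]; exact j2)
        (μ := ![a, b - a, c - b, e - c, n - e]) (by simp [Fin.sum_univ_five]; omega)
      rw [hN a b c e e1 e2 e3 e4]
      simp only [Matrix.cons_val] at this
      omega
    have T' : ∀ a b c e, a ≤ b → b ≤ c → c ≤ e → e + j ≤ n → NN Γ (Fl F V a b c e) =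
        1 + c4 a (b - a) (c - b) (e - c) j j - c4 a (b - a) (c - b) (e - c) (j - 1) (j - 1) := by
      intro a b c e e1 e2 e3 e4
      rw [T a b c e e1 e2 e3 (by omega), c4_min _ _ _ _ (by omega : j ≤ n - e),
        c4_min _ _ _ _ (by omega : j - 1 ≤ n - e)]
    rcases Nat.lt_or_ge j 5 with j5 | j5
    swap
    · refine Or.inr ⟨?_, ?_, ?_, j3 4 (by omega)⟩
      · rw [T 1 3 3 3 (by omega) le_rfl le_rfl (by omega),
          c4_big (k := j) (k' := j - 1) (by omega) (by omega) (by omega)]; omega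
      · rw [T 2 3 3 3 (by omega) le_rfl le_rfl (by omega),
          c4_big (k := j) (k' := j - 1) (by omega) (by omega) (by omega)]; omega
      · rw [h3 1 (by omega)]; exact j3 1 (by omega)
    have G : ∀ k, j = k + 2 → 2 * k + 5 ≤ n →
        (n + 0 = 2 * k + 5 → Even (k + 2 - 0) ∨ (0 = 0 ∧ k = 1 ∧ NN Γ (Fl F V 2 4 6 6) ≤ 5)) →
        False := by
      rintro k rfl e1 e2
      have e3 : k < 3 := by omega
      refine two_row (i := 0) hn (Nat.zero_le _) e1 ?_ ?_ (fun h => ?_) e2 h0 j2 ?_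
      · rw [T' _ _ _ _ (by omega) le_rfl le_rfl (by omega)]
        interval_cases k <;> decide +kernel
      · rw [T' _ _ _ _ (by omega) (by omega) le_rfl (by omega)]
        interval_cases k <;> decide +kernel
      · rw [T' _ _ _ _ (by omega) (by omega) (by omega) (by omega)]
        interval_cases k <;> decide +kernel
      · rw [T' _ _ _ _ (by omega) (by omega) (by omega) (by omega),
          T' _ _ _ _ (by omega) (by omega) (by omega) (by omega)]
        interval_cases k <;> decide +kernel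
    interval_cases j
    · refine Or.inl (one_row (by omega) j2 ?_)
      rw [T' _ _ _ _ (by omega) (by omega) (by omega) (by omega),
        T' _ _ _ _ (by omega) (by omega) (by omega) (by omega)]
      decide +kernel
    · exact (G 0 rfl h5 fun _ => Or.inl (by decide)).elim
    · exfalso
      rcases Nat.lt_or_ge n 7 with e | e
      · obtain rfl : n = 6 := by omega
        refine two_row (i := 1) (k := 1) hn le_rfl le_rfl ?_ ?_ (fun h => by omega)
          (fun _ => Or.inl (by decide)) (j3 1 (by omega)) j2 ?_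
        · rw [T _ _ _ _ (by omega) (by omega) (by omega) (by omega)]; decide +kernel
        · rw [T _ _ _ _ (by omega) (by omega) (by omega) (by omega)]; decide +kernel
        · rw [T _ _ _ _ (by omega) (by omega) (by omega) (by omega),
            T _ _ _ _ (by omega) (by omega) (by omega) (by omega)]; decide +kernel
      · refine G 1 rfl e fun h => Or.inr ⟨rfl, rfl, ?_⟩
        obtain rfl : n = 7 := by omega
        rw [T _ _ _ _ (by omega) (by omega) (by omega) (by omega)]; decide +kernel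
    · exfalso
      rcases Nat.lt_or_ge n 9 with e | e
      · obtain rfl : n = 8 := by omega
        refine two_row (i := 2) (k := 2) hn le_rfl (by omega) ?_ ?_ (fun _ => ?_)
          (fun _ => by omega) (j3 2 (by omega)) j2 ?_
        · rw [T _ _ _ _ (by omega) (by omega) (by omega) (by omega)]; decide +kernel
        · rw [T _ _ _ _ (by omega) (by omega) (by omega) (by omega)]; decide +kernel
        · rw [T _ _ _ _ (by omega) (by omega) (by omega) (by omega)]; decide +kernel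
        · rw [T _ _ _ _ (by omega) (by omega) (by omega) (by omega),
            T _ _ _ _ (by omega) (by omega) (by omega) (by omega)]; decide +kernel
      · exact G 2 rfl e fun _ => Or.inl (by decide)
  have hk : ∀ k ≤ n, NN Γ (Fl F V k k k k) ≤ 1 := fun k hk => by
    by_contra hc
    rcases le_or_gt (2 * k) n with e | e
    · exact hx ⟨k, e, by omega⟩
    · exact hx ⟨n - k, by omega, by rw [h3 k hk]; omega⟩
  suffices h : NN Γ (Fl F V 1 3 3 3) ≤ 1 from
    Or.inr ⟨h, (h4 2 (by omega)).ge.trans h, hk _ (by omega), hk _ (by omega)⟩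
  rcases Nat.lt_or_ge n 6 with e | e
  swap
  · exact calc23 (by omega) (by rw [hn]; exact hk) (by rw [hn]; exact h4)
  obtain rfl : n = 5 := by omega
  have f : ∀ k ≤ 5, M ![k, 0, 0, 0, 5 - k] = 1 := fun k hk' => by
    have := hk k hk'
    have := NN_sub_pos (Γ := Γ) (F := F) (V := V) (k := k) (by omega)
    rw [← h1 k hk']; omega
  have f1 : NN Γ (Fl F V 1 3 3 3) = M ![1, 2, 0, 0, 2] := h2 1 3 (by omega) (by omega)
  have f2 := kill311 hn (hk 1 (by omega)) (hk 2 (by omega))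
    (f1.trans_le (five_le hM (f 2 (by omega)) (f 0 (by omega))))
  have f3 : NN Γ (Fl F V 1 2 2 2) = M ![1, 1, 0, 0, 3] := h2 1 2 (by omega) (by omega)
  have f4 : 0 < NN Γ (Fl F V 1 2 2 2) := by
    obtain ⟨A, -, a⟩ := exists_above (⊥ : Submodule F V) (k := 1) (by rw [dm_bot]; omega) (by omega)
    obtain ⟨B, b, c⟩ := exists_above A (k := 2) (by omega) (by omega)
    exact NN_pos ⟨(A, B, B, B), b, le_rfl, le_rfl, a, c, c, c⟩
  by_contra hc
  obtain ⟨g1, g2, g3, g4, -, -, g7, g8⟩ := five_eq hM (f 2 (by omega)) (f 1 (by omega)) (by omega)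
    (by omega)
  have f5 : NN Γ (Fl F V 3 4 4 4) ≤ 1 := by
    rw [h2 3 4 (by omega) (by omega), s04 _ _ _ rfl]; exact f3.ge.trans f2
  exact kill221 hn ((h4 3 (by omega)).trans_le f5) f5 f2 ((h2 2 3 (by omega) (by omega)).trans g1)
    (f1.trans g2) ((h2 2 4 (by omega) (by omega)).trans g3)
    ((hN 1 2 3 3 (by omega) (by omega) (by omega) (by omega)).trans g4)
    ((hN 2 3 4 4 (by omega) (by omega) (by omega) (by omega)).trans g7)
    ((hN 1 2 3 4 (by omega) (by omega) (by omega) (by omega)).trans g8)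

end Cfsg.Agent.R3
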