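import Cfsg.Agent.R3.Tv

/-! The plane elation argument. -/

set_option autoImplicit false

namespace Cfsg.Agent.R3

open Module Polynomial

variable {F V H : Type*} [Field F] [AddCommGroup V] [Module F V] [Group H]
  {ρ : Representation F H V}

theorem flag_tv [FiniteDimensional F V] (h3 : Tr3 ρ 1 2 3) {π₀ : Submodule F V} {x₀ : V}
    {φ₀ : V →ₗ[F] F} (h0 : finrank F π₀ = 3) (hx₀ : x₀ ≠ 0) (hφ₀ : ∃ v ∈ π₀, φ₀ v ≠ 0)
    (h : LocTv ρ π₀ x₀ φ₀) {x : V} {l π : Submodule F V} (hx : x ≠ 0) (hxl : x ∈ l) (hl : l ≤ π)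
    (hl2 : finrank F l = 2) (hπ : finrank F π = 3) :
    ∃ φ, LocTv ρ π x φ ∧ (∃ v ∈ π, φ v ≠ 0) ∧ ∀ v ∈ l, φ v = 0 := by
  obtain ⟨hx1, hx2, u, hu⟩ := h
  obtain ⟨v₀, hv₀, hv₀'⟩ := hφ₀
  let l₀ := (LinearMap.ker (φ₀.comp π₀.subtype)).map π₀.subtype
  have hl₀ : finrank F l₀ = 2 := by
    have := Module.Dual.finrank_ker_add_one_of_ne_zero (f := φ₀.comp π₀.subtype)
      (fun h => hv₀' (LinearMap.congr_fun h ⟨v₀, hv₀⟩))
    rw [Submodule.finrank_map_subtype_eq]; omega
  obtain ⟨h, e1, e2, e3⟩ := h3 (Submodule.span F {x₀}) l₀ π₀ (Submodule.span F {x}) l π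
    (finrank_span_singleton hx₀) hl₀ h0
    ((Submodule.span_singleton_le_iff_mem _ _).mpr ⟨⟨x₀, hx1⟩, hx2, rfl⟩)
    (Submodule.map_subtype_le _ _) (finrank_span_singleton hx) hl2 hπ
    ((Submodule.span_singleton_le_iff_mem _ _).mpr hxl) hl
  obtain ⟨a, ha⟩ := Submodule.mem_span_singleton.mp
    (show ρ h x₀ ∈ Submodule.span F {x} from e1 ▸ ⟨x₀, Submodule.mem_span_singleton_self _, rfl⟩)
  have ha0 : a ≠ 0 := by
    rintro rfl
    exact hx₀ (rho_inj (ρ := ρ) h (by rw [← ha]; simp))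
  refine ⟨a • φ₀.comp (ρ h⁻¹), ⟨hl hxl, ?_, h * u * h⁻¹, ?_⟩, ⟨ρ h v₀, e3 ▸ ⟨v₀, hv₀, rfl⟩, ?_⟩, ?_⟩
  · have : a • x = ρ h x₀ := ha
    have e : (a • φ₀.comp (ρ h⁻¹)) x = φ₀ (ρ h⁻¹ (a • x)) := by simp
    rw [e, this, rho_inv, hx2]
  · rw [← e3]
    rintro _ ⟨w, hw, rfl⟩
    rw [rho_mul, rho_inv, rho_mul, hu w hw, map_add, map_smul, ← ha]
    simp only [LinearMap.smul_apply, LinearMap.comp_apply, rho_inv, smul_eq_mul, smul_smul,
      mul_comm]
  · simp only [LinearMap.smul_apply, LinearMap.comp_apply, rho_inv, smul_eq_mul]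
    exact mul_ne_zero ha0 hv₀'
  · rw [← e2]
    rintro _ ⟨_, ⟨w, hw, rfl⟩, rfl⟩
    simp only [LinearMap.smul_apply, LinearMap.comp_apply, rho_inv, smul_eq_mul]
    rw [show φ₀ (π₀.subtype w) = 0 from hw, mul_zero]

theorem LocTv.mono {L π : Submodule F V} {x : V} {φ : V →ₗ[F] F} (h : LocTv ρ π x φ) (hL : L ≤ π)
    (hx : x ∈ L) : LocTv ρ L x φ := by
  obtain ⟨-, h2, u, hu⟩ := h
  exact ⟨hx, h2, u, fun v hv => hu v (hL hv)⟩

theorem cyc_val [Fintype F] [Finite V] [Finite H] (hinj : Function.Injective ρ) {p : ℕ}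
    (hp : p.Prime) [CharP F p] {r m : ℕ} (hr : r.Prime)
    (hm : orderOf (Fintype.card F : ZMod r) = m) (hm0 : 0 < m) {g : H} (hg : orderOf g = r)
    {L : Submodule F V} (hL : ∀ v ∈ L, ρ g v = v) (hrk : finrank F V = finrank F L + m)
    (hno : ¬ HasTv ρ) {x : V} (hx0 : x ≠ 0) (hx : x ∈ L) {v : V} (hv : v ∈ L) :
    ∃ a : F, ∀ φ, LocTv ρ L x φ → ∃ k : ℕ, φ v = k * a := by
  obtain ⟨W, P⟩ := exists_PP (ρ := ρ) hr hm hm0 (orderOf_dvd_iff_pow_eq_one.mp (by rw [hg])) (by
    intro h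
    have : g = 1 := hinj (by rw [h, map_one])
    rw [this, orderOf_one] at hg; exact hr.ne_one hg.symm) hL hrk
  let N1 : Subgroup (Subgroup.normalizer (Subgroup.zpowers g : Set H)) :=
    { carrier := {n | ∃ φ : V →ₗ[F] F, φ x = 0 ∧ ∀ w ∈ L, ρ n w = w + φ w • x}
      mul_mem' := by
        rintro a b ⟨φ, h1, h2⟩ ⟨ψ, h3, h4⟩
        refine ⟨φ + ψ, by simp [h1, h3], fun w hw => ?_⟩
        rw [Subgroup.coe_mul, rho_mul, h4 w hw, map_add, map_smul, h2 w hw, h2 x hx, h1]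
        simp only [LinearMap.add_apply]; module
      one_mem' := ⟨0, rfl, by simp⟩
      inv_mem' := by
        rintro a ⟨φ, h1, h2⟩
        refine ⟨-φ, by simp [h1], fun w hw => rho_inj (ρ := ρ) a ?_⟩
        rw [Subgroup.coe_inv, rho_inv', map_add, map_smul, h2 w hw, h2 x hx, h1]
        simp }
  let f := (Subgroup.zpowers g).normalizerMonoidHom.comp N1.subtype
  have : IsCyclic (ZMod (Nat.card (Subgroup.zpowers g)))ˣ := by
    rw [Nat.card_zpowers, hg]; exact ZMod.isCyclic_units_prime hr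
  have : IsCyclic (MulAut (Subgroup.zpowers g)) :=
    isCyclic_of_injective (IsCyclic.mulAutMulEquiv (Subgroup.zpowers g)).toMonoidHom
      (IsCyclic.mulAutMulEquiv _).injective
  obtain ⟨⟨_, n0, rfl⟩, h0⟩ := IsCyclic.exists_monoid_generator (α := f.range)
  obtain ⟨φ0, a1, a2⟩ := n0.2
  refine ⟨φ0 v, ?_⟩
  rintro φ ⟨-, b1, u, hu⟩
  obtain ⟨n, hn, hn'⟩ := frattini hinj hr hm hm0 hg hL hrk (loc_mem hx hu)
  let n1 : N1 := ⟨⟨n, hn⟩, φ, b1, fun w hw => by rw [← hu w hw]; exact hn' w hw⟩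
  obtain ⟨k, hk⟩ := h0 ⟨f n1, n1, rfl⟩
  have hk' : f (n0 ^ k) = f n1 := by rw [map_pow]; exact congrArg Subtype.val hk
  have hc : f ((n0 ^ k)⁻¹ * n1) = 1 := by rw [map_mul, map_inv, hk', inv_mul_cancel]
  have hc2 : Commute ((((n0 ^ k)⁻¹ * n1 : N1) : Subgroup.normalizer (Subgroup.zpowers g : Set H)) : H)
      g := by
    have : (((n0 ^ k)⁻¹ * n1 : N1) : Subgroup.normalizer (Subgroup.zpowers g : Set H)) ∈
      (Subgroup.zpowers g).normalizerMonoidHom.ker := hc
    rw [Subgroup.normalizerMonoidHom_ker, Subgroup.mem_subgroupOf] at this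
    exact (this g (Subgroup.mem_zpowers g)).symm
  obtain ⟨ψ, c1, c2⟩ := ((n0 ^ k)⁻¹ * n1).2
  obtain ⟨a, d1, d2⟩ := P.cut hp hm0 hc2 (fun w hw => by rw [loc_pow hx c1 c2 p w hw]; simp)
    (loc_mem hx c2)
  have hψ : ψ v = 0 := by
    by_contra hne
    exact hno (hasTv_of_compl P.compl hx hx0 c1 ⟨v, hv, hne⟩
      (fun w hw => by rw [d1 w hw, c2 w hw]) d2)
  have e1 := c2 v hv
  rw [hψ, zero_smul, add_zero] at e1
  have e2 : ρ n v = ρ ((n0 : Subgroup.normalizer (Subgroup.zpowers g : Set H)) ^ k : H) v := by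
    conv_rhs => rw [← e1]
    rw [← rho_mul]
    simp [n1]
  rw [hn' v hv, hu v hv, loc_pow hx a1 a2 k v hv] at e2
  exact ⟨k, smul_left_injective F hx0 (add_left_cancel e2)⟩

theorem prime_field {p : ℕ} (hp : p.Prime) [CharP F p] {a b : F}
    (h : ∀ β : F, ∃ k l : ℕ, (k : F) * a ≠ 0 ∧ (l : F) * b = β * (k * a)) (β : F) :
    ∃ k : ℕ, β = k := by
  have : Fact p.Prime := ⟨hp⟩
  let f := ZMod.castHom (dvd_refl p) F
  obtain ⟨k, l, h1, h2⟩ := h β
  obtain ⟨k', l', h3, h4⟩ := h 1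
  have hk : (k : F) ≠ 0 := left_ne_zero_of_mul h1
  have ha : a ≠ 0 := right_ne_zero_of_mul h1
  have hl : (l' : F) ≠ 0 := by
    intro h; rw [h, zero_mul, one_mul] at h4; exact h3 h4.symm
  have e : β = f ((l * k' : ZMod p) / (k * l')) := by
    simp only [map_div₀, map_mul, map_natCast]
    field_simp
    apply mul_right_cancel₀ ha
    linear_combination (-(l' : F)) * h2 + (l : F) * h4
  refine ⟨((l * k' : ZMod p) / (k * l')).val, ?_⟩
  rw [e, ← map_natCast f, ZMod.natCast_zmod_val]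

/-- the matrix of `h` on the span of `x, y` -/
def Mat (ρ : Representation F H V) (x y : V) (h : H) (a b c d : F) : Prop :=
  ρ h x = a • x + c • y ∧ ρ h y = b • x + d • y

namespace Mat

variable {x y : V}

theorem mul {h k : H} {a b c d a' b' c' d' : F} (h1 : Mat ρ x y h a b c d)
    (h2 : Mat ρ x y k a' b' c' d') :
    Mat ρ x y (h * k) (a * a' + b * c') (a * b' + b * d') (c * a' + d * c') (c * b' + d * d') := by
  constructor
  · rw [rho_mul, h2.1, map_add, map_smul, map_smul, h1.1, h1.2]; module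
  · rw [rho_mul, h2.2, map_add, map_smul, map_smul, h1.1, h1.2]; module

theorem congr {h : H} {a b c d a' b' c' d' : F} (h1 : Mat ρ x y h a b c d) (e1 : a = a')
    (e2 : b = b') (e3 : c = c') (e4 : d = d') : Mat ρ x y h a' b' c' d' := by
  subst e1 e2 e3 e4; exact h1

theorem inv {h : H} {a b c d : F} (h1 : Mat ρ x y h a b c d) (e : a * d - b * c = 1) :
    Mat ρ x y h⁻¹ d (-b) (-c) a := by
  constructor
  · apply rho_inj (ρ := ρ) h
    rw [rho_inv', map_add, map_smul, map_smul, h1.1, h1.2]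
    linear_combination (norm := module) (-e) • x
  · apply rho_inj (ρ := ρ) h
    rw [rho_inv', map_add, map_smul, map_smul, h1.1, h1.2]
    linear_combination (norm := module) (-e) • y

theorem mem {h : H} {a b c d : F} (h1 : Mat ρ x y h a b c d) :
    ∀ v ∈ Submodule.span F {x, y}, ρ h v ∈ Submodule.span F {x, y} := by
  intro v hv
  obtain ⟨s, t, rfl⟩ := Submodule.mem_span_pair.mp hv
  rw [map_add, map_smul, map_smul, h1.1, h1.2]
  exact Submodule.mem_span_pair.mpr ⟨s * a + t * b, s * c + t * d, by module⟩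

theorem all (hU : ∀ t, ∃ h, Mat ρ x y h 1 t 0 1) (hL : ∀ t, ∃ h, Mat ρ x y h 1 0 t 1)
    {a b c d : F} (e : a * d - b * c = 1) : ∃ h, Mat ρ x y h a b c d := by
  have key : ∀ a b c d : F, a * d - b * c = 1 → c ≠ 0 → ∃ h, Mat ρ x y h a b c d := by
    intro a b c d e hc
    obtain ⟨h1, m1⟩ := hU ((a - 1) / c)
    obtain ⟨h2, m2⟩ := hL c
    obtain ⟨h3, m3⟩ := hU ((d - 1) / c)
    refine ⟨_, ((m1.mul m2).mul m3).congr ?_ ?_ ?_ ?_⟩
    · field_simp; ring
    · field_simp; linear_combination e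
    · ring
    · field_simp; ring
  by_cases hc : c = 0
  · subst hc
    have ha : a ≠ 0 := by
      rintro rfl
      simp at e
    obtain ⟨h1, m1⟩ := key a b a (b + d) (by linear_combination e) ha
    obtain ⟨h2, m2⟩ := hL (-1)
    exact ⟨_, (m2.mul m1).congr (by ring) (by ring) (by ring) (by ring)⟩
  · exact key a b c d e hc

end Mat

/-- elements trivial on `L` and on `V / L` -/
def ELg (ρ : Representation F H V) (L : Submodule F V) : AddSubgroup (End F V) where
  carrier := {ε | (∀ v, ε v ∈ L) ∧ (∀ v ∈ L, ε v = 0) ∧ ∃ h : H, ∀ v, ρ h v = v + ε v}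
  zero_mem' := ⟨by simp, by simp, 1, by simp⟩
  add_mem' := by
    rintro a b ⟨a1, a2, g, a3⟩ ⟨b1, b2, h, b3⟩
    refine ⟨fun v => L.add_mem (a1 v) (b1 v), fun v hv => by simp [a2 v hv, b2 v hv], g * h,
      fun v => ?_⟩
    rw [rho_mul, b3, a3, map_add, a2 _ (b1 v)]
    simp only [LinearMap.add_apply]; abel
  neg_mem' := by
    rintro a ⟨a1, a2, g, a3⟩
    refine ⟨fun v => L.neg_mem (a1 v), fun v hv => by simp [a2 v hv], g⁻¹,
      fun v => rho_inj (ρ := ρ) g ?_⟩
    rw [rho_inv', a3, map_add, LinearMap.neg_apply, map_neg, a2 _ (a1 v)]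
    simp

theorem ELg_conj [Finite H] {L : Submodule F V} {ε : End F V} (h : ε ∈ ELg ρ L) {n : H}
    (hn : ∀ v ∈ L, ρ n v ∈ L) : ρ n * ε * ρ n⁻¹ ∈ ELg ρ L := by
  obtain ⟨a1, a2, g, a3⟩ := h
  refine ⟨fun v => hn _ (a1 _), fun v hv => ?_, n * g * n⁻¹, fun v => ?_⟩
  · simp only [End.mul_apply]
    rw [a2 _ (rho_inv_mem hn v hv), map_zero]
  · rw [rho_mul, rho_mul, a3, map_add, rho_inv']; rfl

theorem ELg_left [Finite H] {g : H} {L W : Submodule F V} {m : ℕ} (P : PP ρ g L W m)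
    (hF : ∀ β : F, ∃ k : ℕ, β = k) {c : H} (hc : Commute c g) (hcL : ∀ v ∈ L, ρ c v ∈ L)
    {ε : End F V} (h : ε ∈ ELg ρ L) : ρ c * ε ∈ ELg ρ L := by
  have h1 : ∀ ε ∈ ELg ρ L, ε * ρ g ∈ ELg ρ L := by
    intro ε hε
    have := ELg_conj hε (n := g⁻¹) (fun v hv => by rw [rho_inv_fix (P.fix v hv)]; exact hv)
    rw [inv_inv] at this
    convert this using 2
    ext v
    exact (rho_inv_fix (P.fix _ (hε.1 v))).symm
  have h2 : ∀ k : ℕ, ∀ ε ∈ ELg ρ L, ε * ρ g ^ k ∈ ELg ρ L := by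
    intro k
    induction k with
    | zero => intro ε hε; simpa using hε
    | succ k ih => intro ε hε; rw [pow_succ, ← mul_assoc]; exact h1 _ (ih ε hε)
  have h3 : ∀ Q : F[X], ∀ ε ∈ ELg ρ L, ε * aeval (ρ g) Q ∈ ELg ρ L := by
    intro Q ε hε
    induction Q using Polynomial.induction_on' with
    | add p q hp hq => rw [map_add, mul_add]; exact (ELg ρ L).add_mem hp hq
    | monomial n a =>
      obtain ⟨k, rfl⟩ := hF a
      rw [aeval_monomial, map_natCast, ← nsmul_eq_mul, mul_smul_comm]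
      exact (ELg ρ L).nsmul_mem (h2 n ε hε) k
  obtain ⟨Q, hQ⟩ := P.C3 hc
  have h4 := h3 Q _ (ELg_conj h hcL)
  convert h4 using 1
  apply P.ext
  · intro v hv
    rw [h4.2.1 v hv, End.mul_apply, h.2.1 v hv, map_zero]
  · intro w hw
    simp only [End.mul_apply]
    rw [← hQ w hw, rho_inv]

theorem finrank_pair [FiniteDimensional F V] {x y : V} (hx : x ≠ 0)
    (hy : y ∉ Submodule.span F {x}) : finrank F (Submodule.span F {x, y}) = 2 := by
  rw [Submodule.span_insert, Submodule.finrank_sup_span_singleton hy, finrank_span_singleton hx]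

theorem exists_notMem [FiniteDimensional F V] (S : Submodule F V) (h : finrank F S < finrank F V) :
    ∃ v, v ∉ S := by
  by_contra hn
  push Not at hn
  rw [show S = ⊤ from eq_top_iff.mpr (fun v _ => hn v), finrank_top] at h
  exact lt_irrefl _ h

/-- every flag `x ∈ l ≤ π` carries an elation of `π` -/
def FlagTv (ρ : Representation F H V) : Prop :=
  ∀ (x : V) (l π : Submodule F V), x ≠ 0 → x ∈ l → l ≤ π → finrank F l = 2 → finrank F π = 3 →
    ∃ φ, LocTv ρ π x φ ∧ (∃ v ∈ π, φ v ≠ 0) ∧ ∀ v ∈ l, φ v = 0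

/-- the elation argument -/
theorem elation [Fintype F] [Finite V] [Finite H] (hinj : Function.Injective ρ) {p : ℕ}
    (hp : p.Prime) [CharP F p] (hn : 5 ≤ finrank F V) (h2 : Tr1 ρ 2)
    (h3 : FlagTv ρ) {r : ℕ} (hr : r.Prime)
    (hm : orderOf (Fintype.card F : ZMod r) = finrank F V - 2) (hrH : r ∣ Nat.card H)
    (hq : Fintype.card F ≠ 2) : HasTv ρ := by
  by_contra hno
  have : Fact r.Prime := ⟨hr⟩
  have : Fact p.Prime := ⟨hp⟩
  obtain ⟨g, hg⟩ := exists_prime_orderOf_dvd_card' r hrH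
  have hne : ∀ {a : H} {s : ℕ}, s.Prime → orderOf a = s → ρ a ≠ 1 := by
    intro a s hs ha h
    have : a = 1 := hinj (by rw [h, map_one])
    rw [this, orderOf_one] at ha; exact hs.ne_one ha.symm
  obtain ⟨L0, hL0, hL0'⟩ := exists_fix (ρ := ρ) hr hm (by omega)
    (orderOf_dvd_iff_pow_eq_one.mp (by rw [hg]) : g ^ r = 1) (hne hr hg) (by omega)
  have hall : ∀ L : Submodule F V, finrank F L = 2 → ∃ g : H, orderOf g = r ∧ ∀ v ∈ L, ρ g v = v := by
    intro L hL
    obtain ⟨h, hh⟩ := h2 L0 L (by omega) hL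
    exact ⟨h * g * h⁻¹, by rw [← hg]; exact (MulAut.conj h).orderOf_eq g, move_fix hL0 hh⟩
  have : Nontrivial V := Module.nontrivial_of_finrank_pos (R := F) (by omega)
  -- the basic configuration
  have conf : ∀ x y z : V, x ≠ 0 → y ∉ Submodule.span F {x} → z ∉ Submodule.span F {x, y} →
      ∀ β : F, ∃ φ, LocTv ρ (Submodule.span F {x, y} ⊔ Submodule.span F {z}) x φ ∧ φ z ≠ 0 ∧
        φ y = β * φ z := by
    intro x y z hx hy hz β
    have hxm : x ∈ Submodule.span F {x, y} := Submodule.subset_span (by simp)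
    have hym : y ∈ Submodule.span F {x, y} := Submodule.subset_span (by simp)
    have hy' : y - β • z ∉ Submodule.span F {x} := by
      intro h
      by_cases hβ : β = 0
      · exact hy (by simpa [hβ] using h)
      · apply hz
        have h4 : y - β • z ∈ Submodule.span F {x, y} :=
          Submodule.span_mono (by simp) h
        have : z = β⁻¹ • (y - (y - β • z)) := by simp [smul_smul, hβ]
        rw [this]
        exact Submodule.smul_mem _ _ (Submodule.sub_mem _ hym h4)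
    obtain ⟨φ, b1, ⟨v, hv, b2⟩, b3⟩ := h3 x
      (Submodule.span F {x, y - β • z}) (Submodule.span F {x, y} ⊔ Submodule.span F {z}) hx
      (Submodule.subset_span (by simp)) (by
        rw [Submodule.span_le]
        rintro _ (rfl | rfl)
        · exact Submodule.mem_sup_left hxm
        · exact Submodule.sub_mem _ (Submodule.mem_sup_left hym)
            (Submodule.mem_sup_right (Submodule.smul_mem _ _ (Submodule.mem_span_singleton_self z))))
      (finrank_pair hx hy')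
      (by rw [Submodule.finrank_sup_span_singleton hz, finrank_pair hx hy])
    have b4 : φ y = β * φ z := by
      have := b3 (y - β • z) (Submodule.subset_span (by simp))
      simpa [sub_eq_zero] using this
    refine ⟨φ, b1, fun h => b2 ?_, b4⟩
    obtain ⟨a, ha, b, hb, rfl⟩ := Submodule.mem_sup.mp hv
    obtain ⟨s, t, rfl⟩ := Submodule.mem_span_pair.mp ha
    obtain ⟨c, rfl⟩ := Submodule.mem_span_singleton.mp hb
    simp [b1.2.1, b4, h]
  obtain ⟨x, hx⟩ := exists_ne (0 : V)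
  obtain ⟨y, hy⟩ := exists_notMem (Submodule.span F {x}) (by rw [finrank_span_singleton hx]; omega)
  obtain ⟨z, hz⟩ := exists_notMem (Submodule.span F {x, y}) (by rw [finrank_pair hx hy]; omega)
  have hxm : x ∈ Submodule.span F {x, y} := Submodule.subset_span (by simp)
  have hym : y ∈ Submodule.span F {x, y} := Submodule.subset_span (by simp)
  have hzx : z ∉ Submodule.span F {x} := fun h => hz (Submodule.span_mono (by simp) h)
  obtain ⟨g1, o1, f1⟩ := hall _ (finrank_pair hx hy)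
  have hF : ∀ β : F, ∃ k : ℕ, β = k := by
    obtain ⟨g2, o2, f2⟩ := hall _ (finrank_pair hx hzx)
    obtain ⟨b, hb⟩ := cyc_val hinj hp hr hm (by omega) o1 f1 (by rw [finrank_pair hx hy]; omega) hno
      hx hxm hym
    obtain ⟨a, ha⟩ := cyc_val hinj hp hr hm (by omega) o2 f2 (by rw [finrank_pair hx hzx]; omega) hno
      hx (Submodule.subset_span (by simp)) (v := z) (Submodule.subset_span (by simp))
    refine prime_field hp (a := a) (b := b) fun β => ?_
    obtain ⟨φ, b1, b2, b3⟩ := conf x y z hx hy hz β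
    obtain ⟨l, hl⟩ := hb φ (b1.mono le_sup_left hxm)
    obtain ⟨k, hk⟩ := ha φ (b1.mono (by
      rw [Submodule.span_le]
      rintro _ (rfl | rfl)
      · exact Submodule.mem_sup_left hxm
      · exact Submodule.mem_sup_right (Submodule.mem_span_singleton_self _))
      (Submodule.subset_span (by simp)))
    exact ⟨k, l, hk ▸ b2, by rw [← hl, ← hk, b3]⟩
  have hU : ∀ x y : V, x ≠ 0 → y ∉ Submodule.span F {x} → z ∉ Submodule.span F {x, y} →
      ∀ t, ∃ h, Mat ρ x y h 1 t 0 1 := by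
    intro x y hx hy hz t
    obtain ⟨φ, ⟨b0, b1, u, hu⟩, b2, b3⟩ := conf x y z hx hy hz 1
    rw [one_mul] at b3
    obtain ⟨k, hk⟩ := hF (t / φ y)
    have hy0 : φ y ≠ 0 := b3 ▸ b2
    refine ⟨u ^ k, ?_, ?_⟩
    · rw [loc_pow b0 b1 hu k x b0, b1]; simp
    · rw [loc_pow b0 b1 hu k y (Submodule.mem_sup_left (Submodule.subset_span (by simp))), ← hk,
        div_mul_cancel₀ _ hy0, add_comm, one_smul]
  have hy0 : y ≠ 0 := by rintro rfl; exact hy (Submodule.zero_mem _)
  have hxy : x ∉ Submodule.span F {y} := by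
    intro h
    obtain ⟨c, rfl⟩ := Submodule.mem_span_singleton.mp h
    apply hy
    exact Submodule.mem_span_singleton.mpr ⟨c⁻¹, by
      rw [smul_smul, inv_mul_cancel₀ (left_ne_zero_of_smul hx), one_smul]⟩
  have hSL : ∀ a b c d : F, a * d - b * c = 1 →
      ∃ n ∈ Subgroup.normalizer (Subgroup.zpowers g1 : Set H), Mat ρ x y n a b c d := by
    intro a b c d e
    obtain ⟨h, m⟩ := Mat.all (hU x y hx hy hz) (fun t => by
      obtain ⟨h, m1, m2⟩ := hU y x hy0 hxy (by rwa [Set.pair_comm]) t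
      exact ⟨h, by rw [m2, add_comm], by rw [m1, add_comm]⟩) e
    obtain ⟨n, hn, hn'⟩ := frattini hinj hr hm (by omega) o1 f1
      (by rw [finrank_pair hx hy]; omega) m.mem
    exact ⟨n, hn, by rw [hn' x hxm, m.1], by rw [hn' y hym, m.2]⟩
  obtain ⟨W, P⟩ := exists_PP (ρ := ρ) hr hm (by omega)
    (orderOf_dvd_iff_pow_eq_one.mp (by rw [o1]) : g1 ^ r = 1) (hne hr o1) f1
    (by rw [finrank_pair hx hy]; omega)
  obtain ⟨η, η1, η2⟩ := exists_fun hy
  have η3 : η x = 0 := η2 x (Submodule.mem_span_singleton_self x)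
  have h20 : (2 : F) ≠ 0 := by
    intro h
    apply hq
    have : ∀ β : F, β = 0 ∨ β = 1 := by
      intro β
      obtain ⟨k, rfl⟩ := hF β
      rcases Nat.even_or_odd' k with ⟨j, rfl | rfl⟩ <;> simp [h]
    classical
    rw [← Finset.card_univ, show (Finset.univ : Finset F) = {0, 1} by ext β; simpa using this β]
    simp
  by_cases h30 : (3 : F) = 0
  · obtain ⟨n1, m1, M1⟩ := hSL 1 1 0 1 (by ring)
    obtain ⟨n2, m2, M2⟩ := hSL 1 0 1 1 (by ring)
    obtain ⟨n3, m3, M3⟩ := hSL 1 0 (-1) 1 (by ring)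
    have Mi : Mat ρ x y (n1 * n2 * n1⁻¹ * n2⁻¹) 0 (-1) 1 0 :=
      (((M1.mul M2).mul (M1.inv (by ring))).mul (M2.inv (by ring))).congr
        (by linear_combination h30) (by ring) (by ring) (by ring)
    have Mj : Mat ρ x y (n1 * n3 * n1⁻¹ * n3⁻¹) 1 1 1 (-1) :=
      (((M1.mul M3).mul (M1.inv (by ring))).mul (M3.inv (by ring))).congr
        (by ring) (by ring) (by ring) (by linear_combination h30)
    have ci := comm_of_norm m1 m2
    have cj := comm_of_norm m1 m3
    generalize n1 * n2 * n1⁻¹ * n2⁻¹ = i at Mi ci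
    generalize n1 * n3 * n1⁻¹ * n3⁻¹ = j at Mj cj
    have Mt : Mat ρ x y (i * j * i⁻¹ * j⁻¹) (-1) 0 0 (-1) :=
      (((Mi.mul Mj).mul (Mi.inv (by ring))).mul (Mj.inv (by linear_combination -h30))).congr
        (by linear_combination h30) (by ring) (by ring) (by linear_combination h30)
    have tW : ∀ w ∈ W, ρ (i * j * i⁻¹ * j⁻¹) w = w := by
      intro w hw
      rw [rho_mul, rho_mul, rho_mul, P.C1 ci cj (P.memW ci.inv_left _ (P.memW cj.inv_left w hw)),
        rho_inv', rho_inv']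
    generalize i * j * i⁻¹ * j⁻¹ = t at Mt tW
    have tL : ∀ v ∈ Submodule.span F {x, y}, ρ t v = -v := by
      intro v hv
      obtain ⟨a, b, rfl⟩ := Submodule.mem_span_pair.mp hv
      rw [map_add, map_smul, map_smul, Mt.1, Mt.2]; module
    have tL' : ∀ v ∈ Submodule.span F {x, y}, ρ t⁻¹ v = -v := fun v hv =>
      rho_inj (ρ := ρ) t (by rw [rho_inv', map_neg, tL v hv, neg_neg])
    have tV : ∀ v, ρ t v - v ∈ Submodule.span F {x, y} := by
      intro v
      obtain ⟨l, hl, w, hw, rfl⟩ := Submodule.mem_sup.mp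
        (show v ∈ Submodule.span F {x, y} ⊔ W by rw [P.compl.sup_eq_top]; trivial)
      rw [map_add, tL l hl, tW w hw, show -l + w - (l + w) = -l - l by abel]
      exact Submodule.sub_mem _ (Submodule.neg_mem _ hl) hl
    obtain ⟨φ, ⟨b0, b1, h, hh⟩, b2, b3⟩ := conf x y z hx hy hz 0
    rw [zero_mul] at b3
    have φL : ∀ v ∈ Submodule.span F {x, y}, φ v = 0 := by
      intro v hv
      obtain ⟨a, b, rfl⟩ := Submodule.mem_span_pair.mp hv
      simp [b1, b3]
    have hL : ∀ v ∈ Submodule.span F {x, y}, ρ h v = v := fun v hv => by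
      rw [hh v (Submodule.mem_sup_left hv), φL v hv]; simp
    have hε : ρ (h * t * h⁻¹ * t⁻¹) - 1 ∈ ELg ρ (Submodule.span F {x, y}) := by
      refine ⟨fun v => ?_, fun v hv => ?_, h * t * h⁻¹ * t⁻¹, fun v => by simp⟩
      · have e1 := tV (ρ h⁻¹ (ρ t⁻¹ v))
        have e2 := tV (ρ t⁻¹ v)
        rw [rho_inv'] at e2
        have e3 : (ρ (h * t * h⁻¹ * t⁻¹) - 1) v =
            ρ h (ρ t (ρ h⁻¹ (ρ t⁻¹ v)) - ρ h⁻¹ (ρ t⁻¹ v)) - (v - ρ t⁻¹ v) := by
          rw [map_sub, rho_inv', LinearMap.sub_apply, rho_mul, rho_mul, rho_mul]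
          simp only [End.one_apply]; abel
        rw [e3, hL _ e1]
        exact Submodule.sub_mem _ e1 e2
      · rw [LinearMap.sub_apply, rho_mul, rho_mul, rho_mul, tL' v hv,
          rho_inv_fix (hL _ (Submodule.neg_mem _ hv)), tL _ (Submodule.neg_mem _ hv), neg_neg,
          hL v hv]
        simp
    have hε0 : ∃ w, (ρ (h * t * h⁻¹ * t⁻¹) - 1) w ≠ 0 := by
      obtain ⟨l, hl, w, hw, e⟩ := Submodule.mem_sup.mp
        (show z ∈ Submodule.span F {x, y} ⊔ W by rw [P.compl.sup_eq_top]; trivial)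
      have hwπ : w ∈ Submodule.span F {x, y} ⊔ Submodule.span F {z} := by
        rw [show w = z - l by rw [← e]; abel]
        exact Submodule.sub_mem _ (Submodule.mem_sup_right (Submodule.mem_span_singleton_self z))
          (Submodule.mem_sup_left hl)
      have hw0 : φ w ≠ 0 := by rwa [← e, map_add, φL l hl, zero_add] at b2
      refine ⟨w, ?_⟩
      have e1 : ρ h⁻¹ w = w - φ w • x := rho_inj (ρ := ρ) h (by
        rw [rho_inv', map_sub, map_smul, hh w hwπ, hL x hxm]; abel)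
      rw [LinearMap.sub_apply, rho_mul, rho_mul, rho_mul, rho_inv_fix (tW w hw), e1, map_sub,
        map_smul, tW w hw, tL x hxm, map_sub, map_smul, map_neg, hL x hxm, hh w hwπ]
      have : w + φ w • x - φ w • -x - (1 : End F V) w = (2 * φ w) • x := by
        simp only [End.one_apply]; module
      rw [this]
      exact smul_ne_zero (mul_ne_zero h20 hw0) hx
    generalize ρ (h * t * h⁻¹ * t⁻¹) - 1 = ε at hε hε0
    obtain ⟨ξ, ξ1, ξ2⟩ := exists_fun hxy
    have ξ3 : ξ y = 0 := ξ2 y (Submodule.mem_span_singleton_self y)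
    have fin : ∀ ε ∈ ELg ρ (Submodule.span F {x, y}), ξ.comp ε = 0 := by
      intro ε hε
      by_contra hne
      obtain ⟨-, -, k, hk⟩ := (ELg ρ _).add_mem ((ELg ρ _).add_mem hε (ELg_left P hF ci Mi.mem hε))
        (ELg_left P hF cj Mj.mem hε)
      refine hno ⟨x + y, (2 : F) • ξ.comp ε, fun h => hxy ?_, smul_ne_zero h20 hne, ?_, k, fun v => ?_⟩
      · exact Submodule.mem_span_singleton.mpr ⟨-1, by rw [eq_neg_of_add_eq_zero_left h]; simp⟩
      · simp only [LinearMap.smul_apply, LinearMap.comp_apply]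
        rw [hε.2.1 _ (Submodule.add_mem _ hxm hym)]; simp
      · rw [hk]
        obtain ⟨a, b, e⟩ := Submodule.mem_span_pair.mp (hε.1 v)
        simp only [LinearMap.add_apply, End.mul_apply, LinearMap.smul_apply, LinearMap.comp_apply]
        rw [← e]
        simp only [map_add, map_smul, Mi.1, Mi.2, Mj.1, Mj.2, ξ1, ξ3, smul_eq_mul]
        module
    obtain ⟨w, hw⟩ := hε0
    obtain ⟨a, b, e⟩ := Submodule.mem_span_pair.mp (hε.1 w)
    have e1 := LinearMap.congr_fun (fin ε hε) w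
    have e2 := LinearMap.congr_fun (fin _ (ELg_left P hF ci Mi.mem hε)) w
    simp only [LinearMap.comp_apply, End.mul_apply, ← e, map_add, map_smul, Mi.1, Mi.2, ξ1, ξ3,
      smul_eq_mul, LinearMap.zero_apply] at e1 e2
    apply hw
    rw [← e]
    have ha : a = 0 := by linear_combination e1
    have hb : b = 0 := by linear_combination -e2
    simp [ha, hb]
  · obtain ⟨n1, m1, M1⟩ := hSL 2 0 0 2⁻¹ (by field_simp; ring)
    obtain ⟨n2, m2, M2⟩ := hSL 1 1 0 1 (by ring)
    have Mc : Mat ρ x y (n1 * n2 * n1⁻¹ * n2⁻¹) 1 3 0 1 :=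
      (((M1.mul M2).mul (M1.inv (by field_simp; ring))).mul (M2.inv (by ring))).congr
        (by field_simp; ring) (by field_simp; ring) (by ring) (by field_simp; ring)
    have cc := comm_of_norm m1 m2
    generalize n1 * n2 * n1⁻¹ * n2⁻¹ = c at Mc cc
    have hc : ∀ v ∈ Submodule.span F {x, y}, ρ c v = v + ((3 : F) • η) v • x := by
      intro v hv
      obtain ⟨a, b, rfl⟩ := Submodule.mem_span_pair.mp hv
      simp only [map_add, map_smul, Mc.1, Mc.2, LinearMap.smul_apply, η1, η3, smul_eq_mul]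
      module
    have h3x : ((3 : F) • η) x = 0 := by simp [η3]
    obtain ⟨a, d1, d2⟩ := P.cut hp (by omega) cc
      (fun w hw => by rw [loc_pow hxm h3x hc p w hw]; simp) Mc.mem
    exact hno (hasTv_of_compl P.compl hxm hx h3x ⟨y, hym, by simp [η1, h30]⟩
      (fun w hw => by rw [d1 w hw, hc w hw]) d2)

end Cfsg.Agent.R3
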