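import Cfsg.Agent.R3.Calc

/-! An abstract self-dual incidence argument for flags in dimension five. -/

set_option autoImplicit false

namespace Cfsg.Agent.R3.Five

/-- incidence data -/
structure Dt (α : Type*) where
  r : α → α → Prop
  P1 : α → Prop
  P2 : α → Prop
  P3 : α → Prop
  P4 : α → Prop
  g : α → α → Prop

variable {α : Type*}

/-- dual data -/
@[reducible] def Dt.du (D : Dt α) : Dt α :=
  ⟨fun a b => D.r b a, D.P4, D.P3, D.P2, D.P1, fun a b => D.g b a⟩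
/-- complementary data -/
@[reducible] def Dt.neg (D : Dt α) : Dt α := ⟨D.r, D.P1, D.P2, D.P3, D.P4, fun a b => ¬ D.g a b⟩
/-- exterior pairs -/
def Dt.ext (D : Dt α) (L T : α) : Prop := ∀ E, D.P3 E → D.r L E → D.r E T → ¬ D.g L E
/-- full flags -/
def Dt.Fg (D : Dt α) (x L E T : α) : Prop :=
  D.P1 x ∧ D.P2 L ∧ D.P3 E ∧ D.P4 T ∧ D.r x L ∧ D.r L E ∧ D.r E T
/-- number of exterior lines -/
noncomputable def Dt.lam (D : Dt α) (x E T : α) : ℕ :=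
  {L | (D.P2 L ∧ D.r L E ∧ D.r x L) ∧ D.ext L T}.ncard
/-- existence of an exterior line -/
def Dt.C (D : Dt α) (x E T : α) : Prop := ∃ L, (D.P2 L ∧ D.r L E ∧ D.r x L) ∧ D.ext L T

theorem Dt.Fg.du {D : Dt α} {x L E T : α} (h : D.Fg x L E T) : D.du.Fg T E L x :=
  ⟨h.2.2.2.1, h.2.2.1, h.2.1, h.1, h.2.2.2.2.2.2, h.2.2.2.2.2.1, h.2.2.2.2.1⟩

/-- one half of the hypotheses -/
structure Hf (Γ : Type*) [Group Γ] [MulAction Γ α] (q : ℕ) (D : Dt α) : Prop where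
  q2 : 2 ≤ q
  tr : ∀ {a b c}, D.r a b → D.r b c → D.r a c
  rs : ∀ (γ : Γ) a b, D.r (γ • a) (γ • b) ↔ D.r a b
  s3 : ∀ (γ : Γ) a, D.P3 (γ • a) ↔ D.P3 a
  s4 : ∀ (γ : Γ) a, D.P4 (γ • a) ↔ D.P4 a
  gs : ∀ (γ : Γ) a b, D.g (γ • a) (γ • b) ↔ D.g a b
  c3 : ∀ L T, D.P2 L → D.P4 T → D.r L T → {E | D.P3 E ∧ D.r L E ∧ D.r E T}.ncard = q + 1
  c4 : ∀ E, D.P3 E → {T | D.P4 T ∧ D.r E T}.ncard = q + 1
  c23 : ∀ L, D.P2 L → {E | D.P3 E ∧ D.r L E}.ncard = q ^ 2 + q + 1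
  j : ∀ L E E', D.P2 L → D.P3 E → D.P3 E' → D.r L E → D.r L E' → E ≠ E' →
    {T | D.P4 T ∧ D.r E T ∧ D.r E' T}.ncard = 1
  t34 : ∀ E T E' T', D.P3 E → D.P4 T → D.r E T → D.P3 E' → D.P4 T' → D.r E' T' →
    ∃ γ : Γ, γ • E = E' ∧ γ • T = T'
  p24 : ∀ Q : α → α → Prop, (∀ (γ : Γ) a b, Q (γ • a) (γ • b) ↔ Q a b) →
    (∃ L T, D.P2 L ∧ D.P4 T ∧ D.r L T ∧ Q L T) → ∀ L T L' T', D.P2 L → D.P4 T → D.r L T →
    D.P2 L' → D.P4 T' → D.r L' T' → ¬ Q L T → ¬ Q L' T' → ∃ γ : Γ, γ • L = L' ∧ γ • T = T'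
  pure : ∃ L T, D.P2 L ∧ D.P4 T ∧ D.r L T ∧ (D.ext L T ∨ D.neg.ext L T)
  full : ∀ f : α → α → α → α → ℕ,
    (∀ (γ : Γ) a b c d, f (γ • a) (γ • b) (γ • c) (γ • d) = f a b c d) →
    (∀ i < 6, ∃ x L E T, D.Fg x L E T ∧ f x L E T = i) → ∀ x L E T x' L' E' T', D.Fg x L E T →
    D.Fg x' L' E' T' → f x L E T = f x' L' E' T' →
    ∃ γ : Γ, γ • x = x' ∧ γ • L = L' ∧ γ • E = E' ∧ γ • T = T'
  eg : ∃ L E, D.P2 L ∧ D.P3 E ∧ D.r L E ∧ D.g L E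
  eb : ∃ L E, D.P2 L ∧ D.P3 E ∧ D.r L E ∧ ¬ D.g L E

variable {Γ : Type*} [Group Γ] [MulAction Γ α] {q : ℕ} {D : Dt α}

theorem Hf.neg (h : Hf Γ q D) : Hf Γ q D.neg :=
  { h with
    gs := fun γ a b => not_congr (h.gs γ a b)
    pure := by
      obtain ⟨L, T, h1, h2, h3, h4⟩ := h.pure
      exact ⟨L, T, h1, h2, h3, h4.symm.imp id fun h E a b c => not_not.2 (h E a b c)⟩
    eg := h.eb
    eb := by
      obtain ⟨L, E, h1, h2, h3, h4⟩ := h.eg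
      exact ⟨L, E, h1, h2, h3, not_not.2 h4⟩ }

variable (Γ q D) in
/-- both halves -/
def Gm : Prop := Hf Γ q D ∧ Hf Γ q D.du

theorem Gm.du (G : Gm Γ q D) : Gm Γ q D.du := ⟨G.2, G.1⟩
theorem Gm.neg (G : Gm Γ q D) : Gm Γ q D.neg := ⟨G.1.neg, G.2.neg⟩

theorem ex_of {S : Set α} {k : ℕ} (h : S.ncard = k + 1) : ∃ x, x ∈ S :=
  Set.nonempty_of_ncard_ne_zero (by omega)

theorem Gm.exts (G : Gm Γ q D) (γ : Γ) (L T : α) : D.ext (γ • L) (γ • T) ↔ D.ext L T := by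
  constructor
  · intro h E a b c
    rw [← G.1.gs γ]
    exact h _ ((G.1.s3 γ _).2 a) ((G.1.rs γ _ _).2 b) ((G.1.rs γ _ _).2 c)
  · intro h E a b c
    obtain ⟨E, rfl⟩ := MulAction.surjective γ E
    rw [G.1.gs]
    exact h _ ((G.1.s3 γ _).1 a) ((G.1.rs γ _ _).1 b) ((G.1.rs γ _ _).1 c)

theorem Gm.s2 (G : Gm Γ q D) (γ : Γ) (a : α) : D.P2 (γ • a) ↔ D.P2 a := G.2.s3 γ a
theorem Gm.s1 (G : Gm Γ q D) (γ : Γ) (a : α) : D.P1 (γ • a) ↔ D.P1 a := G.2.s4 γ a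

theorem Gm.lams (G : Gm Γ q D) (γ : Γ) (x E T : α) :
    D.lam (γ • x) (γ • E) (γ • T) = D.lam x E T :=
  ncard_eq_of_smul γ fun L => by simp [G.s2, G.1.rs, G.exts]

theorem Gm.Cs (G : Gm Γ q D) (γ : Γ) (x E T : α) : D.C (γ • x) (γ • E) (γ • T) ↔ D.C x E T := by
  constructor
  · rintro ⟨L, h⟩
    obtain ⟨L, rfl⟩ := MulAction.surjective γ L
    exact ⟨L, by simpa [G.s2, G.1.rs, G.exts] using h⟩
  · rintro ⟨L, h⟩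
    exact ⟨γ • L, by simpa [G.s2, G.1.rs, G.exts] using h⟩

theorem Gm.t3 (G : Gm Γ q D) {E E' : α} (h : D.P3 E) (h' : D.P3 E') : ∃ γ : Γ, γ • E = E' := by
  obtain ⟨T, a, b⟩ := ex_of (G.1.c4 E h)
  obtain ⟨T', a', b'⟩ := ex_of (G.1.c4 E' h')
  exact (G.1.t34 E T E' T' h a b h' a' b').imp fun _ h => h.1

variable [Finite α]

theorem Gm.cnt (G : Gm Γ q D) {L E : α} (hL : D.P2 L) (hE : D.P3 E) :
    {E' | (D.P3 E' ∧ D.r L E') ∧ D.g L E'}.ncard = {L' | (D.P2 L' ∧ D.r L' E) ∧ D.g L' E}.ncard := by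
  have d1 := dc {L | D.P2 L} {E | D.P3 E} (fun L E => D.r L E ∧ D.g L E)
    (a := {E' | (D.P3 E' ∧ D.r L E') ∧ D.g L E'}.ncard)
    (b := {L' | (D.P2 L' ∧ D.r L' E) ∧ D.g L' E}.ncard) (fun L' h => by
      obtain ⟨γ, rfl⟩ := G.du.t3 hL h
      exact ncard_eq_of_smul γ fun E => by simp [G.1.s3, G.1.rs, G.1.gs, and_assoc])
    (fun E' h => by
      obtain ⟨γ, rfl⟩ := G.t3 hE h
      exact ncard_eq_of_smul γ fun E => by simp [G.s2, G.1.rs, G.1.gs, and_assoc])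
  have d2 := dc {L | D.P2 L} {E | D.P3 E} D.r G.1.c23 G.2.c23
  rw [Nat.eq_of_mul_eq_mul_right (by omega) d2] at d1
  exact Nat.eq_of_mul_eq_mul_left ((Set.ncard_pos (Set.toFinite _)).2 ⟨E, hE⟩) d1

/-- secant pairs -/
def A (D : Dt α) (d : ℕ) : Prop := ∀ L T, D.P2 L → D.P4 T → D.r L T → ¬ D.ext L T →
  {E | (D.P3 E ∧ D.r L E ∧ D.r E T) ∧ D.g L E}.ncard = d
/-- size of the arc -/
def B (D : Dt α) (q d : ℕ) : Prop := ∀ L, D.P2 L →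
  {E | (D.P3 E ∧ D.r L E) ∧ D.g L E}.ncard + q = d * (q + 1)
/-- exterior count -/
def M (D : Dt α) (m : ℕ) : Prop := ∀ L E, D.P2 L → D.P3 E → D.r L E → ¬ D.g L E →
  {T | (D.P4 T ∧ D.r E T) ∧ D.ext L T}.ncard = m

theorem Gm.arc (G : Gm Γ q D) (he : ∃ L T, D.P2 L ∧ D.P4 T ∧ D.r L T ∧ D.ext L T) :
    ∃ d, A D d ∧ B D q d := by
  obtain ⟨L0, E0, a1, a2, a3, a4⟩ := G.1.eg
  obtain ⟨T0, b1, b2⟩ := ex_of (G.1.c4 E0 a2)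
  have hA : A D {E | (D.P3 E ∧ D.r L0 E ∧ D.r E T0) ∧ D.g L0 E}.ncard := by
    intro L T h1 h2 h3 h4
    obtain ⟨γ, rfl, rfl⟩ := G.1.p24 D.ext G.exts he L0 T0 L T a1 b1 (G.1.tr a3 b2) h1 h2 h3
      (fun h => h E0 a2 a3 b2 a4) h4
    exact ncard_eq_of_smul γ fun E => by simp [G.1.s3, G.1.rs, G.1.gs]
  refine ⟨_, hA, fun L hL => ?_⟩
  generalize {E | (D.P3 E ∧ D.r L0 E ∧ D.r E T0) ∧ D.g L0 E}.ncard = d at hA ⊢
  obtain ⟨E, c1, c2, c3⟩ : ∃ E, D.P3 E ∧ D.r L E ∧ D.g L E := by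
    obtain ⟨γ, rfl⟩ := G.du.t3 a1 hL
    exact ⟨γ • E0, by simp [G.1.s3, G.1.rs, G.1.gs, a2, a3, a4]⟩
  have key : ∀ S : Set α, E ∈ S → (S \ {E}).ncard + 1 = S.ncard := fun S h =>
    Set.ncard_diff_singleton_add_one h
  have d0 : ∀ T ∈ {T | D.P4 T ∧ D.r E T},
      {E' | E' ∈ {E | (D.P3 E ∧ D.r L E) ∧ D.g L E} \ {E} ∧ D.r E' T}.ncard + 1 = d := by
    intro T hT
    rw [← hA L T hL hT.1 (G.1.tr c2 hT.2) (fun h => h E c1 c2 hT.2 c3),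
      ← key {E | (D.P3 E ∧ D.r L E ∧ D.r E T) ∧ D.g L E} ⟨⟨c1, c2, hT.2⟩, c3⟩]
    congr 2; ext E'; simp only [Set.mem_setOf_eq, Set.mem_diff]; tauto
  have d1 := dc ({E | (D.P3 E ∧ D.r L E) ∧ D.g L E} \ {E}) {T | D.P4 T ∧ D.r E T} D.r (a := 1)
    (b := d - 1) (fun E' h => by
      rw [← G.1.j L E E' hL c1 h.1.1.1 c2 h.1.1.2 (Ne.symm h.2)]
      congr 1; ext T; simp [and_assoc]) (fun T hT => by have := d0 T hT; omega)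
  obtain ⟨T, hT⟩ := ex_of (G.1.c4 E c1)
  have d2 := d0 T hT
  obtain ⟨d, rfl⟩ : ∃ d', d = d' + 1 := ⟨d - 1, by omega⟩
  rw [G.1.c4 E c1, add_tsub_cancel_right] at d1
  rw [← key {E | (D.P3 E ∧ D.r L E) ∧ D.g L E} ⟨⟨c1, c2⟩, c3⟩]
  linarith

theorem Gm.mm (G : Gm Γ q D) {d : ℕ} (hA : A D d) (hB : B D q d) {L E : α} (h1 : D.P2 L)
    (h2 : D.P3 E) (h3 : D.r L E) (h4 : ¬ D.g L E) :
    d * {T | (D.P4 T ∧ D.r E T) ∧ D.ext L T}.ncard = q := by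
  have d1 := dc {E | (D.P3 E ∧ D.r L E) ∧ D.g L E} {T | (D.P4 T ∧ D.r E T) ∧ ¬ D.ext L T} D.r
    (a := 1) (b := d) (fun E' h => by
      rw [← G.1.j L E E' h1 h2 h.1.1 h3 h.1.2 (by rintro rfl; exact h4 h.2)]
      congr 1; ext T
      exact ⟨fun a => ⟨a.1.1.1, a.1.1.2, a.2⟩,
        fun a => ⟨⟨⟨a.1, a.2.1⟩, fun b => b E' h.1.1 h.1.2 a.2.2 h.2⟩, a.2.2⟩⟩)
    (fun T hT => by
      rw [← hA L T h1 hT.1.1 (G.1.tr h3 hT.1.2) hT.2]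
      congr 1; ext E'; simp only [Set.mem_setOf_eq]; tauto)
  have d2 := ncard_split {T | D.P4 T ∧ D.r E T} (D.ext L)
  rw [G.1.c4 E h2] at d2
  have d3 := hB L h1
  simp only [Set.mem_setOf_eq] at d2
  rw [← d2] at d3
  linarith

variable (Γ q D) in
/-- the numerical data -/
structure Hy (d m : ℕ) : Prop where
  G : Gm Γ q D
  dm : d * m = q
  a2 : A D d
  a1 : A D.du d
  b2 : B D q d
  b1 : B D.du q d
  m2 : M D m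
  m1 : M D.du m

theorem Gm.hy (G : Gm Γ q D) (he : ∃ L T, D.P2 L ∧ D.P4 T ∧ D.r L T ∧ D.ext L T) :
    ∃ d m, Hy Γ q D d m := by
  obtain ⟨d, hA, hB⟩ := G.arc he
  obtain ⟨L, E, a1, a2, a3, a4⟩ := G.1.eb
  have hc := G.cnt a1 a2
  have h2 := G.1.q2
  obtain ⟨E0, x, b1, b2, b3, b4 | b4⟩ := G.2.pure
  swap
  · obtain ⟨d', -, hB'⟩ := G.du.neg.arc ⟨E0, x, b1, b2, b3, b4⟩
    have e1 := hB L a1
    have e2 : {L | (D.P2 L ∧ D.r L E) ∧ ¬ D.g L E}.ncard + q = d' * (q + 1) := hB' E a2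
    have e3 := ncard_split {L | D.P2 L ∧ D.r L E} (fun L => D.g L E)
    have e4 : {L | D.P2 L ∧ D.r L E}.ncard = q ^ 2 + q + 1 := G.2.c23 E a2
    simp only [Set.mem_setOf_eq] at e3
    have e5 : (d + d') * (q + 1) + 1 = (q + 2) * (q + 1) := by linarith
    have e6 : q + 1 ∣ 1 := (Nat.dvd_add_right (Dvd.intro_left _ rfl)).1 (e5 ▸ Dvd.intro_left _ rfl)
    have := Nat.le_of_dvd one_pos e6
    omega
  obtain ⟨d', hA', hB'⟩ := G.du.arc ⟨E0, x, b1, b2, b3, b4⟩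
  obtain rfl : d = d' := by
    have e1 := hB L a1
    have e2 : {L | (D.P2 L ∧ D.r L E) ∧ D.g L E}.ncard + q = d' * (q + 1) := hB' E a2
    exact Nat.eq_of_mul_eq_mul_right (Nat.succ_pos q) (by rw [← e1, ← e2, hc])
  have hm := G.mm hA hB a1 a2 a3 a4
  have hd : 0 < d := Nat.pos_of_ne_zero (by rintro rfl; omega)
  exact ⟨d, _, G, hm, hA, hA', hB, hB',
    fun L E c1 c2 c3 c4 => Nat.eq_of_mul_eq_mul_left hd ((G.mm hA hB c1 c2 c3 c4).trans hm.symm),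
    fun L E c1 c2 c3 c4 => Nat.eq_of_mul_eq_mul_left hd
      ((G.du.mm hA' hB' c1 c2 c3 c4).trans hm.symm)⟩

variable {d m : ℕ}

omit [Finite α] in
theorem Hy.du (H : Hy Γ q D d m) : Hy Γ q D.du d m :=
  ⟨H.G.du, H.dm, H.a1, H.a2, H.b1, H.b2, H.m1, H.m2⟩

omit [Finite α] in
theorem Hy.bds (H : Hy Γ q D d m) : 0 < d ∧ d ≤ q ∧ 0 < m ∧ m ≤ q := by
  have h1 := H.dm
  have h2 := H.G.1.q2
  have h3 : 0 < d := Nat.pos_of_ne_zero (by rintro rfl; omega)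
  have h4 : 0 < m := Nat.pos_of_ne_zero (by rintro rfl; omega)
  exact ⟨h3, by nlinarith, h4, by nlinarith⟩

theorem Hy.e4 (H : Hy Γ q D d m) {E T : α} (h1 : D.P3 E) (h2 : D.P4 T) (h3 : D.r E T) :
    {L | (D.P2 L ∧ D.r L E) ∧ D.ext L T}.ncard + q = (q + 1) * m := by
  have G := H.G
  have d1 := dc {L | (D.P2 L ∧ D.r L E) ∧ ¬ D.g L E} {T | D.P4 T ∧ D.r E T} D.ext (a := m)
    (b := {L | (D.P2 L ∧ D.r L E) ∧ D.ext L T}.ncard)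
    (fun L h => H.m2 L E h.1.1 h1 h.1.2 h.2) (fun T' h => by
      obtain ⟨γ, e, rfl⟩ := G.1.t34 E T E T' h1 h2 h3 h1 h.1 h.2
      refine ncard_eq_of_smul γ fun L => ?_
      have e' : D.r (γ • L) E ↔ D.r L E := by rw [← G.1.rs γ L E, e]
      simp only [Set.mem_setOf_eq, G.s2, e', G.exts]
      refine ⟨fun a => ⟨a.1.1, a.2⟩, fun a => ⟨⟨a.1, ?_⟩, a.2⟩⟩
      rw [← e, G.1.gs]
      exact a.2 E h1 a.1.2 h3)
  have e2 : {L | (D.P2 L ∧ D.r L E) ∧ D.g L E}.ncard + q = d * (q + 1) := H.b1 E h1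
  have e3 := ncard_split {L | D.P2 L ∧ D.r L E} (fun L => D.g L E)
  have e4 : {L | D.P2 L ∧ D.r L E}.ncard = q ^ 2 + q + 1 := G.2.c23 E h1
  have e5 := H.dm
  simp only [Set.mem_setOf_eq] at e3
  rw [G.1.c4 E h1] at d1
  rw [e4] at e3
  refine Nat.eq_of_mul_eq_mul_left (Nat.succ_pos q) ?_
  zify at *
  linear_combination (-1) * d1 + m * e3 - m * e2 - (q + 1) * e5

theorem Hy.lsum (H : Hy Γ q D d m) {L E T : α} (h0 : D.P2 L) (h1 : D.P3 E) (h2 : D.P4 T)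
    (h3 : D.r L E) (h4 : D.r E T) (h5 : D.g L E) (S : Set α) (hS : ∀ x ∈ S, D.P1 x ∧ D.r x L)
    (hC : ∀ x, D.P1 x → D.r x L → D.C x E T → x ∈ S) {k : ℕ} (hk : ∀ x ∈ S, D.lam x E T = k) :
    S.ncard * k + q = (q + 1) * m := by
  have d1 := dc S {L | (D.P2 L ∧ D.r L E) ∧ D.ext L T} D.r (a := k) (b := 1) (fun x hx => by
      rw [← hk x hx, Dt.lam]
      congr 1; ext L; simp only [Set.mem_setOf_eq]; tauto) (fun L' h => by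
      rw [← H.G.2.j E L L' h1 h0 h.1.1 h3 h.1.2 (by rintro rfl; exact h.2 E h1 h3 h4 h5)]
      congr 1; ext x
      exact ⟨fun a => ⟨(hS x a.1).1, (hS x a.1).2, a.2⟩,
        fun a => ⟨hC x a.1 a.2.1 ⟨L', ⟨h.1.1, h.1.2, a.2.2⟩, h.2⟩, a.2.2⟩⟩)
  rw [d1, mul_one, H.e4 h1 h2 h4]

theorem Hy.two (H : Hy Γ q D d m) : ∃ x x' L E T, D.Fg x L E T ∧ D.Fg x' L E T ∧ D.g L E ∧
    D.lam x E T ≠ D.lam x' E T := by
  obtain ⟨L, E, a1, a2, a3, a4⟩ := H.G.1.eg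
  obtain ⟨T, b1, b2⟩ := ex_of (H.G.1.c4 E a2)
  have hc : {x | D.P1 x ∧ D.r x L}.ncard = q + 1 := H.G.2.c4 L a1
  obtain ⟨x, c1, c2⟩ := ex_of hc
  by_contra hn
  push Not at hn
  have := H.lsum a1 a2 b1 a3 b2 a4 {x | D.P1 x ∧ D.r x L} (fun _ h => h) (fun _ a b _ => ⟨a, b⟩)
    (k := D.lam x E T) fun x' h =>
      hn x' x L E T ⟨h.1, a1, a2, b1, h.2, a3, b2⟩ ⟨c1, a1, a2, b1, c2, a3, b2⟩ a4
  rw [hc] at this
  have e6 : q + 1 ∣ q := (Nat.dvd_add_right (Dvd.intro _ rfl)).1 (this ▸ Dvd.intro _ rfl)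
  have := Nat.le_of_dvd (by have := H.G.1.q2; omega) e6
  omega

theorem Hy.exT (H : Hy Γ q D d m) {L E : α} (a1 : D.P2 L) (a2 : D.P3 E) (a3 : D.r L E)
    (a4 : ¬ D.g L E) : (∃ T, (D.P4 T ∧ D.r E T) ∧ D.ext L T) ∧
      ∃ T, (D.P4 T ∧ D.r E T) ∧ ¬ D.ext L T := by
  have h1 := H.m2 L E a1 a2 a3 a4
  have h2 := ncard_split {T | D.P4 T ∧ D.r E T} (D.ext L)
  have h3 := H.bds
  rw [H.G.1.c4 E a2] at h2
  simp only [Set.mem_setOf_eq] at h2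
  exact ⟨Set.nonempty_of_ncard_ne_zero (s := {T | (D.P4 T ∧ D.r E T) ∧ D.ext L T}) (by omega),
    Set.nonempty_of_ncard_ne_zero (s := {T | (D.P4 T ∧ D.r E T) ∧ ¬ D.ext L T}) (by omega)⟩

theorem Hy.cpl (H : Hy Γ q D d m) {x L E T x' L' E' T' : α} (f : D.Fg x L E T)
    (f' : D.Fg x' L' E' T') (h : (D.g L E ∧ D.g L' E' ∧ D.lam x E T = D.lam x' E' T') ∨
      (¬ D.g L E ∧ ¬ D.g L' E' ∧ (D.du.ext E x ↔ D.du.ext E' x') ∧ (D.ext L T ↔ D.ext L' T'))) :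
    ∃ γ : Γ, γ • x = x' ∧ γ • L = L' ∧ γ • E = E' ∧ γ • T = T' := by
  classical
  obtain ⟨x0, x1, L0, E0, T0, f0, f1, g0, hne⟩ := H.two
  refine H.G.1.full (fun x L E T => if D.g L E then (if D.lam x E T = D.lam x0 E0 T0 then 0 else 1)
    else 2 + (if D.du.ext E x then 1 else 0) + (if D.ext L T then 2 else 0))
    (fun γ a b c d => by simp only [H.G.1.gs, H.G.lams, H.G.exts, H.G.du.exts]) ?_
    x L E T x' L' E' T' f f' ?_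
  · obtain ⟨L, E, a1, a2, a3, a4⟩ := H.G.1.eb
    obtain ⟨⟨T1, b1, b2⟩, T2, b3, b4⟩ := H.exT a1 a2 a3 a4
    obtain ⟨⟨y1, c1, c2⟩, y2, c3, c4⟩ := H.du.exT a2 a1 a3 a4
    intro i hi
    interval_cases i
    · exact ⟨x0, L0, E0, T0, f0, by simp [g0]⟩
    · exact ⟨x1, L0, E0, T0, f1, by simp [g0, hne.symm]⟩
    · exact ⟨y2, L, E, T2, ⟨c3.1, a1, a2, b3.1, c3.2, a3, b3.2⟩, by simp [a4, b4, c4]⟩
    · exact ⟨y1, L, E, T2, ⟨c1.1, a1, a2, b3.1, c1.2, a3, b3.2⟩, by simp [a4, b4, c2]⟩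
    · exact ⟨y2, L, E, T1, ⟨c3.1, a1, a2, b1.1, c3.2, a3, b1.2⟩, by simp [a4, b2, c4]⟩
    · exact ⟨y1, L, E, T1, ⟨c1.1, a1, a2, b1.1, c1.2, a3, b1.2⟩, by simp [a4, b2, c2]⟩
  · rcases h with ⟨h1, h2, h3⟩ | ⟨h1, h2, h3, h4⟩
    · simp only [h1, h2, h3, if_true]
    · simp only [h1, h2, h3, h4, if_false]

theorem Hy.badc (H : Hy Γ q D d m) {x E : α} (h1 : D.P1 x) (h2 : D.P3 E) (h3 : D.r x E)
    (h4 : ¬ D.du.ext E x) : d + {L | (D.P2 L ∧ D.r L E ∧ D.r x L) ∧ ¬ D.g L E}.ncard = q + 1 := by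
  have e1 : {L | (D.P2 L ∧ D.r L E ∧ D.r x L) ∧ D.g L E}.ncard = d := H.a1 E x h2 h1 h3 h4
  have e2 : {L | D.P2 L ∧ D.r L E ∧ D.r x L}.ncard = q + 1 := H.G.2.c3 E x h2 h1 h3
  rw [← e1, ← e2]
  exact ncard_split {L | D.P2 L ∧ D.r L E ∧ D.r x L} (fun L => D.g L E)

theorem Hy.seven (H : Hy Γ q D d m) {x L E T : α} (f : D.Fg x L E T) (h4 : ¬ D.du.ext E x)
    (h5 : D.C x E T) (h6 : ¬ D.g L E) : D.ext L T := by
  by_contra h7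
  obtain ⟨L1, ⟨a1, a2, a3⟩, a4⟩ := h5
  obtain ⟨b1, b2, b3, b4, b5, b6, b7⟩ := id f
  have f1 : D.Fg x L1 E T := ⟨b1, a1, b3, b4, a3, a2, b7⟩
  have key : ∀ y L0 E0 T0, D.Fg y L0 E0 T0 → D.g L0 E0 → D.lam y E0 T0 = D.lam x E T := by
    intro y L0 E0 T0 ⟨c1, c2, c3, c4, c5, c6, c7⟩ c8
    have c9 : ¬ D.du.ext E0 y := fun h => h L0 c2 c6 c5 c8
    have := H.badc c1 c3 (H.G.1.tr c5 c6) c9
    have hb := H.bds
    obtain ⟨N, ⟨n1, n2, n3⟩, n4⟩ := Set.nonempty_of_ncard_ne_zero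
      (s := {L | (D.P2 L ∧ D.r L E0 ∧ D.r y L) ∧ ¬ D.g L E0}) (by omega)
    have f2 : D.Fg y N E0 T0 := ⟨c1, n1, c3, c4, n3, n2, c7⟩
    by_cases n5 : D.ext N T0
    · obtain ⟨γ, rfl, -, rfl, rfl⟩ := H.cpl f1 f2 (Or.inr ⟨a4 E b3 a2 b7, n4, iff_of_false h4 c9,
        iff_of_true a4 n5⟩)
      exact H.G.lams γ _ _ _
    · obtain ⟨γ, rfl, -, rfl, rfl⟩ := H.cpl f f2 (Or.inr ⟨h6, n4, iff_of_false h4 c9,
        iff_of_false h7 n5⟩)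
      exact H.G.lams γ _ _ _
  obtain ⟨x0, x1, L0, E0, T0, f0, f1, g0, hne⟩ := H.two
  exact hne ((key _ _ _ _ f0 g0).trans (key _ _ _ _ f1 g0).symm)

theorem Hy.eight (H : Hy Γ q D d m) {x L E T : α} (f : D.Fg x L E T) (h : D.g L E)
    (h5 : D.C x E T) : D.lam x E T = q + 1 - d := by
  obtain ⟨b1, b2, b3, b4, b5, b6, b7⟩ := f
  have c9 : ¬ D.du.ext E x := fun a => a L b2 b6 b5 h
  rw [← H.badc b1 b3 (H.G.1.tr b5 b6) c9, add_tsub_cancel_left, Dt.lam]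
  congr 1; ext N
  exact ⟨fun a => ⟨a.1, a.2 E b3 a.1.2.1 b7⟩,
    fun a => ⟨a.1, H.seven ⟨b1, a.1.1, b3, b4, a.1.2.2, a.1.2.1, b7⟩ c9 h5 a.2⟩⟩

theorem Hy.nine (H : Hy Γ q D d m) {L E T : α} (h0 : D.P2 L) (h1 : D.P3 E) (h2 : D.P4 T)
    (h3 : D.r L E) (h4 : D.r E T) (h5 : D.g L E) :
    {x | (D.P1 x ∧ D.r x L) ∧ D.C x E T}.ncard = m := by
  have := H.lsum h0 h1 h2 h3 h4 h5 {x | (D.P1 x ∧ D.r x L) ∧ D.C x E T} (fun _ h => h.1)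
    (fun _ a b c => ⟨⟨a, b⟩, c⟩) (k := q + 1 - d) fun x h =>
      H.eight ⟨h.1.1, h0, h1, h2, h.1.2, h3, h4⟩ h5 h.2
  have hb := H.bds
  have hd := H.dm
  obtain ⟨k, hk⟩ : ∃ k, q + 1 = d + (k + 1) := ⟨q - d, by omega⟩
  rw [hk, add_tsub_cancel_left] at this
  exact Nat.eq_of_mul_eq_mul_right (Nat.succ_pos k) (by simp only [Nat.succ_eq_add_one]; linarith)

theorem Hy.ten (H : Hy Γ q D d m) {x L E T x' L' E' T' : α} (f : D.Fg x L E T)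
    (f' : D.Fg x' L' E' T') (h : D.g L E) (h' : D.g L' E') (hc : D.C x E T ↔ D.C x' E' T') :
    D.du.C T L x ↔ D.du.C T' L' x' := by
  obtain ⟨γ, rfl, rfl, -, rfl⟩ := H.cpl f f' (Or.inl ⟨h, h', by
    by_cases a : D.C x E T
    · rw [H.eight f h a, H.eight f' h' (hc.1 a)]
    · exact (ncard_eq_zero_of fun L b => a ⟨L, b⟩).trans
        (ncard_eq_zero_of fun L b => a (hc.2 ⟨L, b⟩)).symm⟩)
  exact (H.G.du.Cs γ _ _ _).symm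

theorem Hy.false (H : Hy Γ q D d m)
    (t14 : ∀ x T x' T', D.P1 x → D.P4 T → D.r x T → D.P1 x' → D.P4 T' → D.r x' T' →
      ∃ γ : Γ, γ • x = x' ∧ γ • T = T')
    (jn : ∀ x L L' T, D.P1 x → D.P2 L → D.P2 L' → D.P4 T → D.r x L → D.r x L' → D.r L T →
      D.r L' T → L ≠ L' → ∃ E, D.P3 E ∧ D.r L E ∧ D.r L' E ∧ D.r E T) : False := by
  have G := H.G
  obtain ⟨x0, -, L, E, T0, f0, -, g0, -⟩ := H.two
  obtain ⟨b1, b2, b3, b4, b5, b6, b7⟩ := id f0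
  have hb := H.bds
  have key : ∀ x' L' E' T', D.Fg x' L' E' T' → D.g L' E' →
      ((D.C x0 E T0 ↔ D.C x' E' T') ↔ (D.du.C T0 L x0 ↔ D.du.C T' L' x')) :=
    fun x' L' E' T' f g => ⟨H.ten f0 f g0 g, H.du.ten f0.du f.du g0 g⟩
  have cnt : ∀ x, D.P1 x → D.r x L → m + {T | (D.P4 T ∧ D.r E T) ∧ ¬ D.du.C T L x}.ncard = q + 1 := by
    intro x a1 a2
    have e1 : {T | (D.P4 T ∧ D.r E T) ∧ D.du.C T L x}.ncard = m := H.du.nine b3 b2 a1 b6 a2 g0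
    rw [← e1, ← G.1.c4 E b3]
    exact ncard_split {T | D.P4 T ∧ D.r E T} fun T => D.du.C T L x
  by_cases hc : D.C x0 E T0 ↔ D.du.C T0 L x0
  · have := cnt x0 b1 b5
    obtain ⟨T, ⟨a1, a2⟩, a3⟩ := Set.nonempty_of_ncard_ne_zero
      (s := {T | (D.P4 T ∧ D.r E T) ∧ ¬ D.du.C T L x0}) (by omega)
    obtain ⟨L', c1, c2, c3, c4⟩ : ∃ L', D.P2 L' ∧ D.r x0 L' ∧ D.r L' T ∧ D.ext L' T := by
      obtain ⟨L1, E1, d1, d2, d3, d4⟩ := G.1.eb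
      obtain ⟨⟨T1, ⟨d5, d6⟩, d7⟩, -⟩ := H.exT d1 d2 d3 d4
      obtain ⟨y, d8, d9⟩ := ex_of (G.2.c4 L1 d1)
      obtain ⟨γ, rfl, rfl⟩ := t14 y T1 x0 T d8 d5 (G.1.tr d9 (G.1.tr d3 d6)) b1 a1
        (G.1.tr b5 (G.1.tr b6 a2))
      exact ⟨γ • L1, (G.s2 _ _).2 d1, (G.1.rs _ _ _).2 d9, (G.1.rs _ _ _).2 (G.1.tr d3 d6),
        (G.exts _ _ _).2 d7⟩
    have ne : ¬ D.ext L T := fun h => h E b3 b6 a2 g0
    obtain ⟨E', e1, e2, e3, e4⟩ := jn x0 L L' T b1 b2 c1 a1 b5 c2 (G.1.tr b6 a2) c3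
      (by rintro rfl; exact ne c4)
    have f : D.Fg x0 L E' T := ⟨b1, b2, e1, a1, b5, e2, e4⟩
    have hC : D.C x0 E' T := ⟨L', ⟨c1, e3, c2⟩, c4⟩
    by_cases hg : D.g L E'
    · have := key _ _ _ _ f hg
      tauto
    · exact ne (H.seven f (fun h => a3 ⟨E', ⟨e1, e2, e4⟩, h⟩) hC hg)
  · have d1 := dc {x | D.P1 x ∧ D.r x L} {T | D.P4 T ∧ D.r E T} (fun x T => D.C x E T)
      (a := q + 1 - m) (b := m) (fun x h => by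
        rw [← cnt x h.1 h.2, add_tsub_cancel_left]
        congr 1; ext T
        refine and_congr_right fun a => ?_
        have := key x L E T ⟨h.1, b2, b3, a.1, h.2, b6, a.2⟩ g0
        tauto) (fun T h => H.nine b2 b3 h.1 b6 h.2 g0)
    have hc : {x | D.P1 x ∧ D.r x L}.ncard = q + 1 := G.2.c4 L b2
    rw [hc, G.1.c4 E b3] at d1
    have d2 := Nat.eq_of_mul_eq_mul_left (Nat.succ_pos q) d1
    have d3 : m ∣ q + 1 := ⟨2, by omega⟩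
    have d4 := Nat.le_of_dvd one_pos ((Nat.dvd_add_right (Dvd.intro_left _ H.dm)).1 d3)
    have := G.1.q2
    omega

theorem Gm.false (G : Gm Γ q D)
    (t14 : ∀ x T x' T', D.P1 x → D.P4 T → D.r x T → D.P1 x' → D.P4 T' → D.r x' T' →
      ∃ γ : Γ, γ • x = x' ∧ γ • T = T')
    (jn : ∀ x L L' T, D.P1 x → D.P2 L → D.P2 L' → D.P4 T → D.r x L → D.r x L' → D.r L T →
      D.r L' T → L ≠ L' → ∃ E, D.P3 E ∧ D.r L E ∧ D.r L' E ∧ D.r E T) : False := by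
  obtain ⟨L, T, h1, h2, h3, h4 | h4⟩ := G.1.pure
  · obtain ⟨d, m, H⟩ := G.hy ⟨L, T, h1, h2, h3, h4⟩
    exact H.false t14 jn
  · obtain ⟨d, m, H⟩ := G.neg.hy ⟨L, T, h1, h2, h3, h4⟩
    exact H.false t14 jn

end Cfsg.Agent.R3.Five
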