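import Cfsg.Agent.R3.Base

/-! Point sets meeting every line in `0`, `b` or `q+1` points. -/

set_option autoImplicit false

namespace Cfsg.Agent.R3

open Module

variable {F V : Type*} [Field F] [Fintype F] [AddCommGroup V] [Module F V] [Finite V]

local notation "q" => Fintype.card F

/-- number of points of `S` over `D` in `Y` -/
noncomputable def cn (D : Submodule F V) (S : Submodule F V → Prop) (Y : Submodule F V) : ℕ :=
  {P | P ∈ {P | D ≤ P ∧ P ≤ Y ∧ dm P = dm D + 1} ∧ S P}.ncard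

/-- the points of `S` over `D` are those of `U` -/
def Is (S : Submodule F V → Prop) (D U : Submodule F V) : Prop :=
  D ≤ U ∧ ∀ P, D ≤ P → dm P = dm D + 1 → (S P ↔ P ≤ U)

variable {D Y : Submodule F V} {S : Submodule F V → Prop}

omit [Fintype F] in
theorem cn_pos {P : Submodule F V} (h1 : D ≤ P) (h2 : P ≤ Y) (h3 : dm P = dm D + 1) (h4 : S P) :
    0 < cn D S Y := (Set.ncard_pos (Set.toFinite _)).2 ⟨P, ⟨h1, h2, h3⟩, h4⟩

omit [Fintype F] [Finite V] in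
theorem exists_of_cn (h : cn D S Y ≠ 0) : ∃ P, D ≤ P ∧ P ≤ Y ∧ dm P = dm D + 1 ∧ S P := by
  obtain ⟨P, ⟨h1, h2, h3⟩, h4⟩ := Set.nonempty_of_ncard_ne_zero h
  exact ⟨P, h1, h2, h3, h4⟩

theorem cn_add (h1 : D ≤ Y) (h2 : dm Y = dm D + 2) : cn D S Y + cn D (fun P => ¬ S P) Y = q + 1 := by
  rw [cn, cn, ncard_split, card_up' h1 rfl h2, θ_two]

theorem cnA {s : Submodule F V} {m c : ℕ} (h1 : D ≤ s) (h2 : s ≤ Y) (h3 : dm s = dm D + 1) (h4 : S s)
    (hm : dm Y = dm D + 1 + m)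
    (h : ∀ l, s ≤ l → l ≤ Y → dm l = dm D + 2 → cn D S l = c + 1) : cn D S Y = 1 + θ q m * c := by
  have key : ∀ Z, s ≤ Z → cn D S Z =
      {P | P ∈ {P | D ≤ P ∧ P ≤ Z ∧ dm P = dm D + 1} ∧ S P ∧ P ≠ s}.ncard + 1 := by
    intro Z hZ
    rw [cn, ← Set.ncard_sdiff_singleton_add_one (a := s)
      (s := {P | P ∈ {P | D ≤ P ∧ P ≤ Z ∧ dm P = dm D + 1} ∧ S P}) ⟨⟨h1, hZ, h3⟩, h4⟩ (Set.toFinite _)]
    congr 2; ext P; simp [and_assoc]
  have := dc {P | P ∈ {P | D ≤ P ∧ P ≤ Y ∧ dm P = dm D + 1} ∧ S P ∧ P ≠ s}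
    {l | s ≤ l ∧ l ≤ Y ∧ dm l = dm D + 2} (fun P l => P ≤ l) (a := 1) (b := c) ?_ ?_
  · rw [card_up' h2 (by omega) (show dm Y = dm s + m by omega), mul_one] at this
    rw [key Y h2, this, add_comm]
  · rintro P ⟨⟨a1, a2, a3⟩, -, a5⟩
    have a6 := pt_sup a1 a3 h1 (not_le_of_ne (by omega) a5)
    refine ncard_eq_one_of (P ⊔ s) ⟨⟨le_sup_right, sup_le a2 h2, by omega⟩, le_sup_left⟩ ?_
    rintro l ⟨⟨b1, -, b3⟩, b4⟩
    exact (eq_of_dm (sup_le b4 b1) (by omega)).symm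
  · rintro l ⟨b1, b2, b3⟩
    have := (key l b1).symm.trans (h l b1 b2 b3)
    rw [← Nat.add_right_cancel this]
    congr 1; ext P
    exact ⟨fun h => ⟨⟨h.1.1.1, h.2, h.1.1.2.2⟩, h.1.2⟩,
      fun h => ⟨⟨⟨h.1.1, h.1.2.1.trans b2, h.1.2.2⟩, h.2⟩, h.1.2.1⟩⟩

omit [Fintype F] in
theorem cnB {Z : Submodule F V} {m : ℕ} (h1 : D ≤ Z) (h2 : Z ≤ Y) (h3 : cn D S Z = 0)
    (h : ∀ l, Z ≤ l → l ≤ Y → dm l = dm Z + 1 → cn D S l = 0 ∨ cn D S l = m) : m ∣ cn D S Y := by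
  have := dc {P | P ∈ {P | D ≤ P ∧ P ≤ Y ∧ dm P = dm D + 1} ∧ S P}
    {l | Z ≤ l ∧ l ≤ Y ∧ dm l = dm Z + 1 ∧ cn D S l ≠ 0} (fun P l => P ≤ l) (a := 1) (b := m) ?_ ?_
  · rw [mul_one] at this
    exact Dvd.intro_left _ this.symm
  · rintro P ⟨⟨a1, a2, a3⟩, a4⟩
    have a6 := pt_sup a1 a3 h1 fun h => (cn_pos a1 h a3 a4).ne' h3
    refine ncard_eq_one_of (P ⊔ Z) ⟨⟨le_sup_right, sup_le a2 h2, a6,
      (cn_pos a1 le_sup_left a3 a4).ne'⟩, le_sup_left⟩ ?_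
    rintro l ⟨⟨b1, -, b3, -⟩, b4⟩
    exact (eq_of_dm (sup_le b4 b1) (by omega)).symm
  · rintro l ⟨b1, b2, b3, b4⟩
    rw [← (h l b1 b2 b3).resolve_left b4, cn]
    congr 1; ext P
    exact ⟨fun h => ⟨⟨h.1.1.1, h.2, h.1.1.2.2⟩, h.1.2⟩,
      fun h => ⟨⟨⟨h.1.1, h.1.2.1.trans b2, h.1.2.2⟩, h.2⟩, h.1.2.1⟩⟩

theorem is_of_closed (h : ∀ l, D ≤ l → dm l = dm D + 2 → cn D S l ≤ 1 ∨ cn D S l = q + 1) :
    ∃ U, Is S D U := by
  have hm : ∀ v : V, v ∈ D ⊔ F ∙ v := fun v =>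
    Submodule.mem_sup_right (Submodule.mem_span_singleton_self v)
  have heq : ∀ (P : Submodule F V) (v : V), D ≤ P → dm P = dm D + 1 → v ∈ P → v ∉ D →
      D ⊔ F ∙ v = P := fun P v h1 h2 h3 h4 =>
    eq_of_dm (sup_le h1 ((Submodule.span_singleton_le_iff_mem _ _).2 h3)) (by rw [dm_sup_span h4, h2])
  let U : Submodule F V :=
    { carrier := {v | v ∉ D → S (D ⊔ F ∙ v)}
      zero_mem' := fun h => absurd D.zero_mem h
      smul_mem' := fun c v hv h0 => by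
        have h1 : v ∉ D := fun h => h0 (D.smul_mem c h)
        rw [heq _ _ le_sup_left (dm_sup_span h1) (Submodule.smul_mem _ c (hm v)) h0]
        exact hv h1
      add_mem' := fun {v w} hv hw h0 => by
        by_cases h1 : v ∈ D
        · have h2 : w ∉ D := fun h => h0 (D.add_mem h1 h)
          rw [heq _ _ le_sup_left (dm_sup_span h2) (add_mem (Submodule.mem_sup_left h1) (hm w)) h0]
          exact hw h2
        by_cases h2 : w ∈ D ⊔ F ∙ v
        · rw [heq _ _ le_sup_left (dm_sup_span h1) (add_mem (hm v) h2) h0]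
          exact hv h1
        have h3 : w ∉ D := fun h => h2 (Submodule.mem_sup_left h)
        have h4 : D ≤ (D ⊔ F ∙ v) ⊔ F ∙ w := le_sup_left.trans le_sup_left
        have h5 : dm ((D ⊔ F ∙ v) ⊔ F ∙ w) = dm D + 2 := by rw [dm_sup_span h2, dm_sup_span h1]
        have h6 : D ⊔ F ∙ w ≤ (D ⊔ F ∙ v) ⊔ F ∙ w := sup_le h4 le_sup_right
        have h7 : 1 < cn D S ((D ⊔ F ∙ v) ⊔ F ∙ w) := (Set.one_lt_ncard (Set.toFinite _)).2
          ⟨_, ⟨⟨le_sup_left, le_sup_left, dm_sup_span h1⟩, hv h1⟩, _,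
            ⟨⟨le_sup_left, h6, dm_sup_span h3⟩, hw h3⟩, fun e => h2 (e ▸ hm w)⟩
        have h8 := cn_add (S := S) h4 h5
        by_contra hc
        have h9 := cn_pos (S := fun P => ¬ S P) (Y := (D ⊔ F ∙ v) ⊔ F ∙ w) le_sup_left
          (sup_le h4 ((Submodule.span_singleton_le_iff_mem _ _).2
            (add_mem (Submodule.mem_sup_left (hm v)) (h6 (hm w))))) (dm_sup_span h0) hc
        have := h _ h4 h5
        omega }
  refine ⟨U, fun v hv h => absurd hv h, fun P h1 h2 => ⟨fun hP v hv h0 => ?_, fun hP => ?_⟩⟩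
  · rwa [heq P v h1 h2 hv h0]
  · obtain ⟨v, hv, h0⟩ := Set.not_subset.1 fun h : P ≤ D => by have := dm_mono h; omega
    rw [← heq P v h1 h2 hv h0]
    exact hP hv h0

section Arc
variable {c : ℕ} (hn : dm D + 4 ≤ finrank F V)
  (h : ∀ l, D ≤ l → dm l = dm D + 2 → cn D S l = 0 ∨ cn D S l = c + 1 ∨ cn D S l = Fintype.card F + 1)
  {s y : Submodule F V} (s1 : D ≤ s) (s2 : dm s = dm D + 1) (s3 : S s)
include h s1 s2 s3

theorem arc_dvd (y1 : D ≤ y) (y2 : dm y = dm D + 1) (y3 : ¬ S y) {E : Submodule F V} (e1 : s ≤ E)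
    (e2 : y ≤ E) (e3 : dm E = dm D + 3)
    (hf : ∀ l, s ≤ l → l ≤ E → dm l = dm D + 2 → cn D S l ≠ q + 1) : c + 1 ∣ q := by
  have h1 := cnA (m := 2) (c := c) s1 e1 s2 s3 (by omega) fun l a b d => by
    have := h l (s1.trans a) d
    have := hf l a b d
    have := cn_pos s1 a s2 s3
    omega
  have h2 := cnB (m := c + 1) (S := S) y1 e2 (by
    by_contra hc
    obtain ⟨P, -, a, b, d⟩ := exists_of_cn hc
    exact y3 (eq_of_dm a (by omega) ▸ d)) fun l a _ d => by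
      have := h l (y1.trans a) (by omega)
      have := cn_add (S := S) (y1.trans a) (by omega)
      have := cn_pos (S := fun P => ¬ S P) y1 a y2 y3
      omega
  rw [h1, θ_two] at h2
  exact (Nat.dvd_add_right h2).1 ⟨q + 1, by ring⟩

theorem arc_dvd0 {l0 : Submodule F V} (a1 : D ≤ l0) (a2 : dm l0 = dm D + 2) (a3 : cn D S l0 = 0) :
    c + 1 ∣ q := by
  obtain ⟨y, y1, y4, y2⟩ := exists_btw a1 (k := dm D + 1) (by omega) (by omega)
  have a4 := pt_sup s1 s2 a1 fun h => (cn_pos s1 h s2 s3).ne' a3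
  refine arc_dvd h s1 s2 s3 y1 y2 (fun h => (cn_pos y1 y4 y2 h).ne' a3) (E := s ⊔ l0) le_sup_left
    (y4.trans le_sup_right) (by omega) fun l b1 b2 b3 => ?_
  have b4 := dm_sup_inf l l0
  have b5 := dm_mono (sup_le b2 le_sup_right : l ⊔ l0 ≤ s ⊔ l0)
  obtain ⟨z, z1, z2, z3⟩ := exists_btw (le_inf (s1.trans b1) a1) (k := dm D + 1) (by omega) (by omega)
  have := cn_add (S := S) (s1.trans b1) b3
  have := cn_pos (S := fun P => ¬ S P) z1 (z2.trans inf_le_left) z3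
    fun h => (cn_pos z1 (z2.trans inf_le_right) z3 h).ne' a3
  omega

include hn in
theorem arc_solid {l0 : Submodule F V} (a1 : D ≤ l0) (a2 : dm l0 = dm D + 2) (a3 : cn D S l0 = 0)
    (hf : ∀ l, D ≤ l → dm l = dm D + 2 → cn D S l ≠ q + 1) (c1 : 1 ≤ c) (c2 : c + 2 ≤ q) : False := by
  have a4 := pt_sup s1 s2 a1 fun h => (cn_pos s1 h s2 s3).ne' a3
  obtain ⟨T, t1, t2⟩ := exists_above (s ⊔ l0) (k := dm D + 4) (by omega) hn
  have key : ∀ {s Y : Submodule F V} {m : ℕ}, D ≤ s → s ≤ Y → dm s = dm D + 1 → S s →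
      dm Y = dm D + 1 + m → cn D S Y = 1 + θ q m * c := fun s1 e1 s2 s3 e =>
    cnA s1 e1 s2 s3 e fun l a b d => by
      have := h l (s1.trans a) d
      have := hf l (s1.trans a) d
      have := cn_pos s1 a s2 s3
      omega
  have h1 := key (m := 3) s1 (le_sup_left.trans t1) s2 s3 (by omega)
  have h2 := cnB (m := 1 + θ q 2 * c) (S := S) a1 (le_sup_right.trans t1) a3 fun l _ _ d => by
    by_cases e : cn D S l = 0
    · exact Or.inl e
    · obtain ⟨P, p1, p2, p3, p4⟩ := exists_of_cn e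
      exact Or.inr (key p1 p2 p3 p4 (by omega))
  rw [h1, θ_two, θ_three] at h2
  obtain ⟨r, hr⟩ := Nat.exists_eq_add_of_le c2
  have h3 : 1 + (q + 1) * c ∣ r + 1 :=
    (Nat.dvd_add_right h2).1 ⟨q, by rw [hr]; ring⟩
  have := Nat.le_of_dvd (by omega) h3
  nlinarith

end Arc

theorem lemmaG {b : ℕ} (hn : dm D + 4 ≤ finrank F V)
    (h : ∀ l, D ≤ l → dm l = dm D + 2 → cn D S l = 0 ∨ cn D S l = b ∨ cn D S l = q + 1) :
    (∃ U, Is S D U) ∨ ∃ U, Is (fun P => ¬ S P) D U := by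
  by_contra hc
  rw [not_or] at hc
  have h1 := mt is_of_closed hc.1
  have h2 := mt is_of_closed hc.2
  push Not at h1 h2
  obtain ⟨l, l1, l2, l3, l4⟩ := h1
  obtain ⟨l', l1', l2', l3', l4'⟩ := h2
  have e1 := cn_add (S := S) l1 l2
  have e2 := cn_add (S := S) l1' l2'
  have e3 := h l l1 l2
  have e4 := h l' l1' l2'
  obtain ⟨c, rfl⟩ : ∃ c, b = c + 1 := ⟨b - 1, by omega⟩
  obtain ⟨c', hc'⟩ : ∃ c', q = c + c' + 1 := ⟨q - c - 1, by omega⟩
  have h' : ∀ l, D ≤ l → dm l = dm D + 2 → cn D (fun P => ¬ S P) l = 0 ∨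
      cn D (fun P => ¬ S P) l = c' + 1 ∨ cn D (fun P => ¬ S P) l = q + 1 := fun l a b => by
    have := h l a b
    have := cn_add (S := S) a b
    omega
  obtain ⟨s, s1, s4, s2, s3⟩ := exists_of_cn (D := D) (S := S) (Y := l) (by omega)
  obtain ⟨y, y1, y4, y2, y3⟩ := exists_of_cn (D := D) (S := fun P => ¬ S P) (Y := l) (by omega)
  obtain ⟨E, f1, f2⟩ := exists_above l (k := dm D + 3) (by omega) (by omega)
  have k1 : 1 ≤ c := by omega
  have k2 : 1 ≤ c' := by omega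
  have k3 : c + 2 ≤ q := by omega
  have k4 : c' + 2 ≤ q := by omega
  have fin : c + 1 ∣ q → c' + 1 ∣ q → False := by
    rintro ⟨a, ha⟩ ⟨b, hb⟩
    have : 2 ≤ a := by
      by_contra
      have : a = 0 ∨ a = 1 := by omega
      rcases this with rfl | rfl <;> omega
    have : 2 ≤ b := by
      by_contra
      have : b = 0 ∨ b = 1 := by omega
      rcases this with rfl | rfl <;> omega
    nlinarith
  by_cases z0 : ∃ l, D ≤ l ∧ dm l = dm D + 2 ∧ cn D S l = 0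
  · obtain ⟨l0, a1, a2, a3⟩ := z0
    by_cases z1 : ∃ l, D ≤ l ∧ dm l = dm D + 2 ∧ cn D (fun P => ¬ S P) l = 0
    · obtain ⟨l0', b1, b2, b3⟩ := z1
      exact fin (arc_dvd0 h s1 s2 s3 a1 a2 a3) (arc_dvd0 h' y1 y2 y3 b1 b2 b3)
    · push Not at z1
      exact arc_solid hn h s1 s2 s3 a1 a2 a3 (fun l a b => by
        have := z1 l a b
        have := cn_add (S := S) a b
        omega) k1 k3
  · push Not at z0
    have z0' : ∀ l, D ≤ l → dm l = dm D + 2 → cn D (fun P => ¬ S P) l ≠ q + 1 := fun l a b => by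
      have := z0 l a b
      have := cn_add (S := S) a b
      omega
    by_cases z1 : ∃ l, D ≤ l ∧ dm l = dm D + 2 ∧ cn D (fun P => ¬ S P) l = 0
    · obtain ⟨l0', b1, b2, b3⟩ := z1
      exact arc_solid hn h' y1 y2 y3 b1 b2 b3 z0' k2 k4
    · push Not at z1
      refine fin (arc_dvd h s1 s2 s3 y1 y2 y3 (s4.trans f1) (y4.trans f1) f2 fun l a _ b => ?_)
        (arc_dvd h' y1 y2 y3 s1 s2 (not_not.2 s3) (y4.trans f1) (s4.trans f1) f2
          fun l a _ b => z0' l (y1.trans a) b)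
      have := z1 l (s1.trans a) b
      have := cn_add (S := S) (s1.trans a) b
      omega

open scoped Pointwise

variable {Γ : Type*} [Group Γ] [DistribMulAction Γ V] [SMulCommClass Γ F V]

omit [Fintype F] [Finite V] in
theorem cn_smul (hS : ∀ (g : Γ) W, S (g • W) ↔ S W) (g : Γ) (D Y : Submodule F V) :
    cn (g • D) S (g • Y) = cn D S Y :=
  ncard_eq_of_smul g fun P => by simp [hS]

omit [Fintype F] [Finite V] in
theorem Is.smul (hS : ∀ (g : Γ) W, S (g • W) ↔ S W) {U : Submodule F V} (h : Is S D U) (g : Γ) :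
    Is S (g • D) (g • U) := by
  refine ⟨(smul_le_smul g _ _).2 h.1, fun P h1 h2 => ?_⟩
  obtain ⟨P, rfl⟩ := MulAction.surjective g P
  simp only [smul_le_smul, dm_smul, hS] at h1 h2 ⊢
  exact h.2 P h1 h2

omit [Fintype F] in
theorem Is.unique {U U' : Submodule F V} (h : Is S D U) (h' : Is S D U') : U = U' :=
  le_antisymm (le_of_pts h.1 h'.1 fun P a b c => (h'.2 P a c).1 ((h.2 P a c).2 b))
    (le_of_pts h'.1 h.1 fun P a b c => (h.2 P a c).1 ((h'.2 P a c).2 b))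

/-- an invariant set of points with few orbits on flags -/
theorem is_of_NN (hS : ∀ (g : Γ) W, S (g • W) ↔ S W) {O : Submodule F V} (hO : O ≤ D)
    (hn : dm D + 4 ≤ finrank F V)
    (h : NN Γ (Fl F V (dm O) (dm D) (dm D + 1) (dm D + 2)) ≤
      NN Γ (Fl F V (dm O) (dm D) (dm D + 2) (dm D + 2)) + 1) :
    (∃ U, Is S D U) ∨ ∃ U, Is (fun P => ¬ S P) D U := by
  by_cases hx : ∃ l, D ≤ l ∧ dm l = dm D + 2 ∧ cn D S l ≠ 0 ∧ cn D S l ≠ q + 1
  swap
  · push Not at hx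
    exact lemmaG (b := 0) hn fun l a b => by have := hx l a b; omega
  obtain ⟨l, l1, l2, l3, l4⟩ := hx
  refine lemmaG (b := cn D S l) hn fun l' l1' l2' => ?_
  by_contra hc
  have e1 := cn_add (S := S) l1 l2
  have e2 := cn_add (S := S) l1' l2'
  obtain ⟨s, s1, s4, s2, s3⟩ := exists_of_cn l3
  obtain ⟨y, y1, y4, y2, y3⟩ := exists_of_cn (D := D) (S := fun P => ¬ S P) (Y := l) (by omega)
  obtain ⟨s', s1', s4', s2', s3'⟩ := exists_of_cn (D := D) (S := S) (Y := l') (by omega)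
  obtain ⟨y', y1', y4', y2', y3'⟩ :=
    exists_of_cn (D := D) (S := fun P => ¬ S P) (Y := l') (by omega)
  have := split2 (Γ := Γ) (S := Fl F V (dm O) (dm D) (dm D + 1) (dm D + 2))
    (T := Fl F V (dm O) (dm D) (dm D + 2) (dm D + 2)) (fun x => (x.1, x.2.1, x.2.2.2, x.2.2.2))
    (fun _ _ => rfl) ?_ (a := (O, D, s, l)) (a' := (O, D, y, l)) (b := (O, D, s', l'))
    (b' := (O, D, y', l')) ⟨hO, s1, s4, rfl, rfl, s2, l2⟩ ⟨hO, y1, y4, rfl, rfl, y2, l2⟩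
    ⟨hO, s1', s4', rfl, rfl, s2', l2'⟩ ⟨hO, y1', y4', rfl, rfl, y2', l2'⟩ rfl rfl ?_ ?_ ?_
  · omega
  · rintro ⟨A, B, C, E⟩ ⟨a1, a2, a3, a4, a5, a6, a7⟩
    simp only at a1 a2 a3 a4 a5 a6 a7
    obtain ⟨P, p1, p2, p3⟩ := exists_btw a2 (k := dm D + 1) (by omega) (by omega)
    exact ⟨(A, B, P, E), ⟨a1, p1, p2.trans a3, a4, a5, p3, a7⟩, by
      rw [eq_of_dm a3 (by omega)]⟩
  · rw [eqv_iff]; rintro ⟨g, -, -, rfl, -⟩; exact y3 ((hS _ _).2 s3)
  · rw [eqv_iff]; rintro ⟨g, -, -, rfl, -⟩; exact y3' ((hS _ _).2 s3')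
  · rw [eqv_iff]; rintro ⟨g, -, e, rfl, -⟩
    refine hc (Or.inr (Or.inl ?_))
    rw [← cn_smul hS g D l, e]

end Cfsg.Agent.R3
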