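import Cfsg.Agent.R3.Tv

/-! The action of `SL_n` on subspaces. -/

set_option autoImplicit false

namespace Cfsg.Agent.R3

variable {F : Type*} [Field F] {n : ℕ}

/-- the action of `SL_n(F)` on subspaces of `F^n` -/
def act (g : Matrix.SpecialLinearGroup (Fin n) F) (W : Submodule F (Fin n → F)) :
    Submodule F (Fin n → F) := W.map (Matrix.toLin' (g : Matrix (Fin n) (Fin n) F))

/-- the natural representation of `SL_n(F)` -/
def natSL (F : Type*) [Field F] (n : ℕ) :
    Representation F (Matrix.SpecialLinearGroup (Fin n) F) (Fin n → F) where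
  toFun g := Matrix.toLin' (g : Matrix (Fin n) (Fin n) F)
  map_one' := by simp [Module.End.one_eq_id]
  map_mul' a b := by simp [Matrix.toLin'_mul, Module.End.mul_eq_comp]

theorem natSL_apply (g : Matrix.SpecialLinearGroup (Fin n) F) (v : Fin n → F) :
    natSL F n g v = (g : Matrix (Fin n) (Fin n) F).mulVec v := rfl

theorem natSL_inj : Function.Injective (natSL F n) := fun _ _ h =>
  Subtype.ext (Matrix.toLin'.injective h)

theorem act_eq (g : Matrix.SpecialLinearGroup (Fin n) F) (W : Submodule F (Fin n → F)) :
    act g W = W.map (natSL F n g) := rfl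

theorem act_one (W : Submodule F (Fin n → F)) : act 1 W = W := by
  rw [act_eq, map_one, Module.End.one_eq_id, Submodule.map_id]

theorem act_mul (g h : Matrix.SpecialLinearGroup (Fin n) F) (W : Submodule F (Fin n → F)) :
    act (g * h) W = act g (act h W) := by
  rw [act_eq, act_eq, act_eq, map_mul, Module.End.mul_eq_comp, Submodule.map_comp]

theorem act_mono (g : Matrix.SpecialLinearGroup (Fin n) F) {W W' : Submodule F (Fin n → F)}
    (h : W ≤ W') : act g W ≤ act g W' := Submodule.map_mono h

theorem finrank_act (g : Matrix.SpecialLinearGroup (Fin n) F) (W : Submodule F (Fin n → F)) :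
    Module.finrank F (act g W) = Module.finrank F W :=
  (Submodule.equivMapOfInjective _ (rho_inj (ρ := natSL F n) g) W).finrank_eq.symm

/-- the natural representation of a subgroup of `SL_n(F)` -/
def natH (H : Subgroup (Matrix.SpecialLinearGroup (Fin n) F)) : Representation F H (Fin n → F) :=
  (natSL F n).comp H.subtype

theorem natH_inj (H : Subgroup (Matrix.SpecialLinearGroup (Fin n) F)) :
    Function.Injective (natH H) := natSL_inj.comp Subtype.val_injective

end Cfsg.Agent.R3
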