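import Mathlib

/-! Zsigmondy's theorem for `q ^ m - 1`. -/

set_option autoImplicit false

namespace Cfsg.Agent.R3

open Polynomial

theorem two_pow_ge (r : ℕ) (h : 5 ≤ r) : 3 * r + 1 ≤ 2 ^ r := by
  induction r, h using Nat.le_induction with
  | base => norm_num
  | succ k hk ih => rw [pow_succ]; omega

theorem zsig {q m : ℕ} (hq : 2 ≤ q) (hm : 3 ≤ m) (hex : ¬ (q = 2 ∧ m = 6)) :
    ∃ r : ℕ, r.Prime ∧ orderOf (q : ZMod r) = m := by
  by_contra hno
  push Not at hno
  set Φ : ℕ := ((cyclotomic m ℤ).eval (q : ℤ)).natAbs with hΦ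
  have hlow : (q - 1) ^ Nat.totient m < Φ :=
    sub_one_pow_totient_lt_natAbs_cyclotomic_eval (by omega) (by omega)
  have hΦ1 : 1 < Φ := lt_of_le_of_lt (Nat.one_le_pow _ _ (by omega)) hlow
  -- every prime divisor
  have key : ∀ r : ℕ, r.Prime → r ∣ Φ → ∃ k d, 0 < k ∧ m = r ^ k * d ∧ d < r ∧ d ∣ r - 1 ∧
      orderOf (q : ZMod r) = d := by
    intro r hr hd
    have : Fact r.Prime := ⟨hr⟩
    have hroot : (cyclotomic m (ZMod r)).IsRoot (q : ZMod r) := by
      have h1 : ((eval (q : ℤ) (cyclotomic m ℤ) : ℤ) : ZMod r) = 0 := by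
        rw [ZMod.intCast_zmod_eq_zero_iff_dvd, Int.natCast_dvd]; exact hd
      rw [IsRoot.def, ← map_cyclotomic_int, ← h1]
      have := eval_intCast_map (Int.castRingHom (ZMod r)) (cyclotomic m ℤ) (q : ℤ)
      simpa using this
    obtain ⟨k, d, hd', hmk⟩ := Nat.exists_eq_pow_mul_and_not_dvd (n := m) (by omega) r hr.ne_one
    have : NeZero (d : ZMod r) := ⟨by rwa [Ne, ZMod.natCast_eq_zero_iff]⟩
    rw [hmk, isRoot_cyclotomic_prime_pow_mul_iff_of_charP] at hroot
    have ho : orderOf (q : ZMod r) = d := hroot.eq_orderOf.symm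
    have hd0 : 0 < d := Nat.pos_of_ne_zero (by rintro rfl; simp at hd')
    have hq0 : (q : ZMod r) ≠ 0 := hroot.ne_zero hd0.ne'
    have hdr : d ∣ r - 1 := ho ▸ ZMod.orderOf_dvd_card_sub_one hq0
    refine ⟨k, d, ?_, hmk, ?_, hdr, ho⟩
    · rcases Nat.eq_zero_or_pos k with rfl | h
      · exact absurd (ho.trans (by simpa using hmk.symm)) (hno r hr)
      · exact h
    · have := Nat.le_of_dvd (by have := hr.two_le; omega) hdr
      have := hr.two_le
      omega
  obtain ⟨r, hr, hrΦ⟩ := Nat.exists_prime_and_dvd hΦ1.ne'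
  obtain ⟨k, d, hk, hmk, hdr, hdr', ho⟩ := key r hr hrΦ
  have hrm : r ∣ m := hmk ▸ Dvd.dvd.mul_right (dvd_pow_self r hk.ne') d
  have huniq : ∀ s : ℕ, s.Prime → s ∣ Φ → s = r := by
    intro s hs hsΦ
    obtain ⟨k', d', hk', hmk', hdr2, -, -⟩ := key s hs hsΦ
    have hsm : s ∣ m := hmk' ▸ Dvd.dvd.mul_right (dvd_pow_self s hk'.ne') d'
    have hd0 : 0 < d := Nat.pos_of_ne_zero (by rintro rfl; omega)
    have hd0' : 0 < d' := Nat.pos_of_ne_zero (by rintro rfl; omega)
    by_contra hne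
    have h1 : s ∣ d := by
      rw [hmk] at hsm
      exact ((Nat.Prime.dvd_mul hs).mp hsm).resolve_left fun h =>
        hne ((Nat.prime_dvd_prime_iff_eq hs hr).mp (hs.dvd_of_dvd_pow h))
    have h2 : r ∣ d' := by
      rw [hmk'] at hrm
      exact ((Nat.Prime.dvd_mul hr).mp hrm).resolve_left fun h =>
        hne ((Nat.prime_dvd_prime_iff_eq hr hs).mp (hr.dvd_of_dvd_pow h)).symm
    have := Nat.le_of_dvd hd0 h1
    have := Nat.le_of_dvd hd0' h2
    omega
  -- `r ^ 2` does not divide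
  obtain ⟨m', hm'⟩ := hrm
  have hm'0 : 0 < m' := Nat.pos_of_ne_zero (by rintro rfl; omega)
  have hgeom : (Φ : ℤ) ∣ ∑ i ∈ Finset.range r, ((q : ℤ) ^ m') ^ i := by
    have h1 := X_pow_sub_one_mul_cyclotomic_dvd_X_pow_sub_one_of_dvd ℤ (d := m') (n := m)
      (Nat.mem_properDivisors.mpr ⟨⟨r, by rw [hm', mul_comm]⟩, by
        have := hr.two_le; rw [hm']; nlinarith⟩)
    have h2 := eval_dvd (x := (q : ℤ)) h1
    simp only [eval_mul, eval_sub, eval_pow, eval_X, eval_one] at h2
    have h3 : (q : ℤ) ^ m - 1 = ((q : ℤ) ^ m' - 1) * ∑ i ∈ Finset.range r, ((q : ℤ) ^ m') ^ i := by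
      rw [mul_comm, geom_sum_mul, ← pow_mul, mul_comm m' r, ← hm']
    rw [h3] at h2
    have h4 : (q : ℤ) ^ m' - 1 ≠ 0 := by
      have : (1 : ℤ) < (q : ℤ) ^ m' := one_lt_pow₀ (by exact_mod_cast hq) hm'0.ne'
      omega
    rw [hΦ, Int.natAbs_dvd]
    exact (mul_dvd_mul_iff_left h4).mp h2
  have hdm' : d ∣ m' := by
    obtain ⟨k, rfl⟩ : ∃ j, k = j + 1 := ⟨k - 1, by omega⟩
    have : r * m' = r * (r ^ k * d) := by rw [← hm', hmk]; ring
    rw [Nat.eq_of_mul_eq_mul_left hr.pos this]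
    exact Dvd.intro_left _ rfl
  have hy : (r : ℤ) ∣ (q : ℤ) ^ m' - 1 := by
    rw [← ZMod.intCast_zmod_eq_zero_iff_dvd]
    push_cast
    rw [orderOf_dvd_iff_pow_eq_one.mp (ho ▸ hdm'), sub_self]
  have hsq : ¬ r ^ 2 ∣ Φ := by
    intro h
    have h1 : ((r : ℤ)) ^ 2 ∣ ∑ i ∈ Finset.range r, ((q : ℤ) ^ m') ^ i :=
      (by exact_mod_cast h : ((r : ℤ)) ^ 2 ∣ (Φ : ℤ)).trans hgeom
    rcases hr.eq_two_or_odd' with h2 | h2
    · subst h2
      have hd1 : d = 1 := by simpa using hdr'
      obtain ⟨k, rfl⟩ : ∃ j, k = j + 2 := by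
        refine ⟨k - 2, ?_⟩
        rcases Nat.lt_or_ge k 2 with h | h
        · have : k = 1 := by omega
          subst this; omega
        · omega
      have : m' = 2 ^ k * 2 := by
        have : 2 * m' = 2 * (2 ^ k * 2) := by rw [← hm', hmk, hd1]; ring
        omega
      rw [this, pow_mul] at h1
      simp only [Finset.sum_range_succ, Finset.range_zero, Finset.sum_empty, pow_zero, pow_one,
        zero_add] at h1
      generalize (q : ℤ) ^ 2 ^ k = z at h1
      have h3 : z % 4 = 0 ∨ z % 4 = 1 ∨ z % 4 = 2 ∨ z % 4 = 3 := by omega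
      have h4 : (1 + z ^ 2) % 4 = 0 := Int.emod_eq_zero_of_dvd (by simpa using h1)
      rcases h3 with h3 | h3 | h3 | h3 <;> simp [Int.add_emod, pow_two, Int.mul_emod, h3] at h4
    · have h3 := emultiplicity_geom_sum₂_eq_one (R := ℤ) (x := (q : ℤ) ^ m') (y := 1)
        (Nat.prime_iff_prime_int.mp hr) h2 hy (by
          intro h
          have := dvd_sub h hy
          simp only [sub_sub_cancel] at this
          exact hr.ne_one (by exact_mod_cast Int.eq_one_of_dvd_one (by positivity) this))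
      simp only [one_pow, mul_one] at h3
      have := le_emultiplicity_of_pow_dvd h1
      rw [h3] at this
      exact absurd this (by decide)
  have hΦr : Φ = r := by
    obtain ⟨t, ht⟩ := hrΦ
    by_cases h1 : t = 1
    · rw [ht, h1, mul_one]
    · obtain ⟨s, hs, hst⟩ := Nat.exists_prime_and_dvd h1
      have := huniq s hs (ht ▸ Dvd.dvd.mul_left hst r)
      subst this
      exact absurd (ht ▸ (pow_two s ▸ Nat.mul_dvd_mul_left s hst)) hsq
  have htot : r - 1 ≤ Nat.totient m := by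
    rw [← Nat.totient_prime hr]
    exact Nat.le_of_dvd (Nat.totient_pos.mpr (by omega)) (Nat.totient_dvd_of_dvd ⟨m', hm'⟩)
  rcases Nat.lt_or_ge q 3 with hq3 | hq3
  · have hq2 : q = 2 := by omega
    subst hq2
    have hd2 : 2 ≤ d := by
      have : Fact r.Prime := ⟨hr⟩
      have hd0 : 0 < d := Nat.pos_of_ne_zero (by rintro rfl; omega)
      by_contra h
      have hd1 : d = 1 := by omega
      rw [hd1, orderOf_eq_one_iff] at ho
      have : ((1 : ℕ) : ZMod r) = 0 := by
        have h2 : ((2 : ℕ) : ZMod r) = 1 + 1 := by norm_num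
        rw [h2] at ho
        simpa using ho
      rw [ZMod.natCast_eq_zero_iff] at this
      exact hr.ne_one (Nat.dvd_one.mp this)
    by_cases hrm' : r ∣ m'
    · have h1 := cyclotomic_expand_eq_cyclotomic hr hrm' ℤ
      rw [mul_comm, ← hm'] at h1
      have h2 : Φ = ((cyclotomic m' ℤ).eval ((2 ^ r : ℕ) : ℤ)).natAbs := by
        rw [hΦ, ← h1, expand_eval]; simp
      have h3 := sub_one_pow_totient_lt_natAbs_cyclotomic_eval (n := m') (q := 2 ^ r)
        (lt_of_lt_of_le hr.one_lt (Nat.le_of_dvd hm'0 hrm'))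
        (Nat.one_lt_two_pow hr.ne_zero).ne'
      rw [← h2, hΦr] at h3
      have h4 : r < 2 ^ r := Nat.lt_two_pow_self
      have h5 : 2 ^ r - 1 ≤ (2 ^ r - 1) ^ Nat.totient m' :=
        Nat.le_self_pow (Nat.totient_pos.mpr hm'0).ne' _
      omega
    · have hk1 : k = 1 := by
        by_contra h
        apply hrm'
        obtain ⟨k, rfl⟩ : ∃ j, k = j + 2 := ⟨k - 2, by omega⟩
        have : r * m' = r * (r * (r ^ k * d)) := by rw [← hm', hmk]; ring
        rw [Nat.eq_of_mul_eq_mul_left hr.pos this]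
        exact Dvd.intro _ rfl
      have hmd : m' = d := by
        have : r * m' = r * d := by rw [← hm', hmk, hk1, pow_one]
        exact Nat.eq_of_mul_eq_mul_left hr.pos this
      subst hmd
      have hr5 : 5 ≤ r := by
        by_contra h
        have h3 : r = 3 := by
          have : r ≠ 4 := by rintro rfl; exact absurd hr (by decide)
          omega
        subst h3
        have : m' = 2 := by omega
        exact hex ⟨rfl, by omega⟩
      have h1 := cyclotomic_expand_eq_cyclotomic_mul hr hrm' ℝ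
      rw [mul_comm m' r, ← hm'] at h1
      have h2 := congrArg (eval (2 : ℝ)) h1
      rw [expand_eval, eval_mul] at h2
      have h3 := sub_one_pow_totient_lt_cyclotomic_eval (n := m') (q := (2 : ℝ) ^ r) hd2
        (one_lt_pow₀ one_lt_two hr.ne_zero)
      have h4 := cyclotomic_eval_le_add_one_pow_totient (q := (2 : ℝ)) one_lt_two m'
      have h5 : eval (2 : ℝ) (cyclotomic m ℝ) = r := by
        rw [← hΦr, hΦ, ← map_cyclotomic_int m ℝ]
        have := eval_intCast_map (Int.castRingHom ℝ) (cyclotomic m ℤ) (2 : ℤ)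
        have hpos := cyclotomic_pos (n := m) (by omega) (R := ℤ) 2
        simp only [Int.cast_ofNat, eq_intCast] at this
        rw [this]
        simp only [Nat.cast_ofNat]
        rw [← Int.cast_natCast, Int.natAbs_of_nonneg hpos.le]
      rw [h2, h5] at h3
      have h6 : (3 * r : ℝ) ≤ 2 ^ r - 1 := by
        have := two_pow_ge r hr5
        have : ((3 * r + 1 : ℕ) : ℝ) ≤ ((2 ^ r : ℕ) : ℝ) := by exact_mod_cast this
        push_cast at this
        linarith
      have h7 : (3 * r : ℝ) ^ Nat.totient m' ≤ (2 ^ r - 1) ^ Nat.totient m' :=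
        pow_le_pow_left₀ (by positivity) h6 _
      have h8 : (r : ℝ) ≤ (r : ℝ) ^ Nat.totient m' :=
        le_self_pow₀ (by exact_mod_cast hr.one_le) (Nat.totient_pos.mpr hm'0).ne'
      rw [mul_pow] at h7
      have h9 : (0 : ℝ) < 3 ^ Nat.totient m' := by positivity
      have h10 : (r : ℝ) * eval 2 (cyclotomic m' ℝ) ≤ r * (2 + 1) ^ Nat.totient m' :=
        mul_le_mul_of_nonneg_left h4 (by positivity)
      norm_num at h10
      nlinarith
  · have h1 : 2 ^ (r - 1) ≤ (q - 1) ^ Nat.totient m :=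
      (Nat.pow_le_pow_right (by norm_num) htot).trans (Nat.pow_le_pow_left (by omega) _)
    have h2 : r - 1 < 2 ^ (r - 1) := Nat.lt_two_pow_self
    omega

end Cfsg.Agent.R3
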