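import Cfsg.Agent.R3.Tv2
import Cfsg.Agent.R3.Top0
import Cfsg.Agent.R3.Zsig
import Cfsg.Agent.GLn.Transv
import Cfsg.Agent.GLn.Eigen

/-! Subgroups of `SL_n(q)`, `n ≥ 5`, transitive on (point, plane) and (line, plane) flags. -/

set_option autoImplicit false

namespace Cfsg.Agent.R3

open Module

section Abs

variable {F V H : Type*} [Field F] [AddCommGroup V] [Module F V] [Group H]
  {ρ : Representation F H V}

theorem PP.inv_sub {g : H} {L W : Submodule F V} {m : ℕ} (P : PP ρ g L W m) {A : Submodule F V}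
    (hA : ∀ v ∈ A, ρ g v ∈ A) : A ≤ L ∨ W ≤ A := by
  rcases P.irr (A ⊓ W) inf_le_right (fun w hw => ⟨hA w hw.1, P.memW (Commute.refl g) w hw.2⟩) with
    h | h
  · left
    intro v hv
    apply P.ker
    have : ρ g v - v ∈ A ⊓ W := ⟨A.sub_mem (hA v hv) hv, P.rng v⟩
    rw [h, Submodule.mem_bot, sub_eq_zero] at this
    exact this
  · right
    rw [← h]; exact inf_le_left

theorem dvd_card_of_cover {G : Type*} [Group G] [Finite G] (K P : Subgroup G)
    (h : ∀ g : G, ∃ k ∈ K, k⁻¹ * g ∈ P) {r : ℕ} (hr : r.Prime) (h1 : r ∣ Nat.card G)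
    (h2 : ∀ g ∈ P, orderOf g ≠ r) : r ∣ Nat.card K := by
  have : Fact r.Prime := ⟨hr⟩
  have : MulAction.IsPretransitive K (G ⧸ P) := by
    refine ⟨fun a b => ?_⟩
    obtain ⟨a, rfl⟩ := QuotientGroup.mk_surjective a
    obtain ⟨b, rfl⟩ := QuotientGroup.mk_surjective b
    obtain ⟨k, hk, e⟩ := h a
    obtain ⟨l, hl, e'⟩ := h b
    refine ⟨⟨l * k⁻¹, K.mul_mem hl (K.inv_mem hk)⟩, ?_⟩
    change ((l * k⁻¹ * a : G) : G ⧸ P) = (b : G)
    rw [QuotientGroup.eq]
    have := P.mul_mem (P.inv_mem e) e'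
    convert this using 1; group
  have h3 : P.index ∣ Nat.card K := by
    rw [Subgroup.index, ← MulAction.index_stabilizer_of_transitive K ((1 : G) : G ⧸ P)]
    exact Subgroup.index_dvd_card _
  rw [← P.card_mul_index] at h1
  rcases (Nat.Prime.dvd_mul hr).mp h1 with h4 | h4
  · obtain ⟨g, hg⟩ := exists_prime_orderOf_dvd_card' (G := P) r h4
    exact absurd (by rw [Subgroup.orderOf_coe, hg]) (h2 g g.2)
  · exact h4.trans h3

theorem triple_trans [FiniteDimensional F V] (hF : ∀ c : F, c ≠ 0 → c = 1) (h3 : Tr1 ρ 3)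
    (h : ∀ (E : Submodule F V), finrank F E = 3 → ∀ x ∈ E, ∀ φ : V →ₗ[F] F, φ x = 0 →
      LocTv ρ E x φ) {s t : Fin 3 → V} (hs : LinearIndependent F s) (ht : LinearIndependent F t) :
    ∃ g : H, ∀ i, ρ g (s i) = t i := by
  classical
  have hE : finrank F (Submodule.span F (Set.range t)) = 3 := by
    rw [finrank_span_eq_card ht]; simp
  obtain ⟨g, hg⟩ := h3 _ _ (by rw [finrank_span_eq_card hs]; simp) hE
  have hm : ∀ i, ρ g (s i) ∈ Submodule.span F (Set.range t) := fun i =>
    hg ▸ ⟨s i, Submodule.subset_span ⟨i, rfl⟩, rfl⟩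
  let K : Subgroup (Matrix.SpecialLinearGroup (Fin 3) F) :=
    { carrier := {A | ∃ k : H, ∀ j, ρ k (t j) = ∑ i, A.1 i j • t i}
      one_mem' := ⟨1, fun j => by simp [Matrix.one_apply]⟩
      mul_mem' := by
        rintro A B ⟨a, ha⟩ ⟨b, hb⟩
        refine ⟨a * b, fun j => ?_⟩
        rw [rho_mul, hb]
        simp only [map_sum, map_smul, ha, Finset.smul_sum, smul_smul,
          Matrix.SpecialLinearGroup.coe_mul, Matrix.mul_apply, Finset.sum_smul]
        rw [Finset.sum_comm]
        simp only [mul_comm]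
      inv_mem' := by
        rintro A ⟨a, ha⟩
        refine ⟨a⁻¹, fun j => rho_inj (ρ := ρ) a ?_⟩
        rw [rho_inv']
        simp only [map_sum, map_smul, ha, Finset.smul_sum, smul_smul]
        rw [Finset.sum_comm]
        have e : ∀ i, ∑ k, (A⁻¹.1 k j * A.1 i k) • t i = (A * A⁻¹).1 i j • t i := by
          intro i
          rw [← Finset.sum_smul, Matrix.SpecialLinearGroup.coe_mul, Matrix.mul_apply]
          simp only [mul_comm]
        simp only [e, mul_inv_cancel]
        simp [Matrix.one_apply] }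
  have hK : K = ⊤ := by
    apply GLn.eq_top_of_tv_mem
    intro i j hij a
    obtain ⟨φ, b1, b2⟩ := exists_fun (ht.notMem_span_image (s := {j}ᶜ) (x := j) (by simp))
    have b3 : ∀ k, k ≠ j → φ (t k) = 0 := fun k hk => b2 _ (Submodule.subset_span ⟨k, hk, rfl⟩)
    obtain ⟨-, -, k, hk⟩ := h _ hE (t i) (Submodule.subset_span ⟨i, rfl⟩) (a • φ)
      (by simp [b3 i hij])
    refine ⟨k, fun l => ?_⟩
    rw [hk _ (Submodule.subset_span ⟨l, rfl⟩), GLn.tv_coe]
    simp only [Matrix.add_apply, add_smul, Finset.sum_add_distrib, Matrix.one_apply,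
      Matrix.single_apply, ite_smul, one_smul, zero_smul, Finset.sum_ite_eq', Finset.mem_univ,
      if_true, LinearMap.smul_apply, smul_eq_mul]
    congr 1
    by_cases hl : l = j
    · subst hl; simp [b1]
    · simp [b3 l hl, Ne.symm hl]
  choose c hc using fun j => (Submodule.mem_span_range_iff_exists_fun F).mp (hm j)
  let A : Matrix (Fin 3) (Fin 3) F := fun i j => c j i
  have hA : A.det ≠ 0 := by
    intro h0
    obtain ⟨v, hv, e⟩ := Matrix.exists_mulVec_eq_zero_iff.mpr h0
    apply hv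
    have : ∑ j, v j • s j = 0 := by
      apply rho_inj (ρ := ρ) g
      simp only [map_sum, map_smul, ← hc, Finset.smul_sum, smul_smul, map_zero]
      rw [Finset.sum_comm]
      refine Finset.sum_eq_zero fun i _ => ?_
      rw [← Finset.sum_smul]
      have := congrFun e i
      simp only [Matrix.mulVec, dotProduct, A, Pi.zero_apply] at this
      simp only [mul_comm (v _), this, zero_smul]
    funext j
    exact Fintype.linearIndependent_iff.mp hs v this j
  obtain ⟨k, hk⟩ : (⟨A, hF _ hA⟩ : Matrix.SpecialLinearGroup (Fin 3) F) ∈ K := by rw [hK]; trivial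
  refine ⟨k⁻¹ * g, fun i => ?_⟩
  rw [rho_mul, ← hc i, ← show ρ k (t i) = ∑ j, c i j • t j from hk i, rho_inv]

theorem triple_dvd [Fintype F] [Finite V] [Finite H] (hn : 3 ≤ finrank F V)
    (h : ∀ s t : Fin 3 → V, LinearIndependent F s → LinearIndependent F t →
      ∃ g : H, ∀ i, ρ g (s i) = t i) :
    ∏ i : Fin 3, (Fintype.card F ^ finrank F V - Fintype.card F ^ i.val) ∣ Nat.card H := by
  rw [← card_linearIndependent hn]
  letI : MulAction H {s : Fin 3 → V // LinearIndependent F s} :=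
    { smul := fun g s => ⟨fun i => ρ g (s.1 i),
        s.2.map' (ρ g) (LinearMap.ker_eq_bot.mpr (rho_inj g))⟩
      one_smul := fun s => Subtype.ext (funext fun i => by change ρ 1 (s.1 i) = _; simp)
      mul_smul := fun a b s => Subtype.ext (funext fun i => rho_mul a b _) }
  have : MulAction.IsPretransitive H {s : Fin 3 → V // LinearIndependent F s} :=
    ⟨fun s t => by
      obtain ⟨g, hg⟩ := h s.1 t.1 s.2 t.2
      exact ⟨g, Subtype.ext (funext hg)⟩⟩
  obtain ⟨s, hs⟩ := exists_linearIndependent_of_le_finrank hn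
  rw [← MulAction.index_stabilizer_of_transitive H
    (⟨s, hs⟩ : {s : Fin 3 → V // LinearIndependent F s})]
  exact Subgroup.index_dvd_card _

theorem exists_seven [Fintype F] [Finite V] [Finite H] (hq : Fintype.card F = 2)
    (hn : finrank F V = 6) (h : 7 ^ 2 ∣ Nat.card H) :
    ∃ g : H, orderOf g = 7 ∧ ∃ v : V, v ≠ 0 ∧ ρ g v = v := by
  have : Fact (Nat.Prime 7) := ⟨by norm_num⟩
  obtain ⟨S, hS⟩ := Sylow.exists_subgroup_card_pow_prime 7 h
  by_contra hno
  push Not at hno
  letI : MulAction S {v : V // v ≠ 0} :=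
    { smul := fun g v => ⟨ρ g v, fun e => v.2 (rho_inj (ρ := ρ) g (by simpa using e))⟩
      one_smul := fun s => Subtype.ext (by change ρ 1 s.1 = _; simp)
      mul_smul := fun a b s => Subtype.ext (rho_mul (a : H) b _) }
  have hfree : ∀ v : {v : V // v ≠ 0}, MulAction.stabilizer S v = ⊥ := by
    intro v
    rw [eq_bot_iff]
    intro g hg
    by_contra hg1
    have e : ρ g v = v := congrArg Subtype.val hg
    have h7 : 7 ∣ orderOf g := by
      obtain ⟨k, -, hk⟩ := (Nat.dvd_prime_pow (by norm_num)).mp (hS ▸ orderOf_dvd_natCard g)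
      rcases k with _ | k
      · exact absurd (orderOf_eq_one_iff.mp hk) hg1
      · rw [hk]; exact dvd_pow_self _ (by omega)
    refine hno ((g : H) ^ (orderOf g / 7)) ?_ v v.2 (rho_pow_fix e _)
    rw [← Subgroup.orderOf_coe] at h7 ⊢
    exact orderOf_pow_orderOf_div (orderOf_pos _).ne' h7
  have h1 := Nat.card_congr (MulAction.selfEquivOrbitsQuotientProd hfree)
  rw [Nat.card_prod, hS] at h1
  classical
  have := Fintype.ofFinite V
  have h2 : Nat.card {v : V // v ≠ 0} = 63 := by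
    rw [Nat.card_eq_fintype_card, Fintype.card_subtype_compl, Module.card_eq_pow_finrank (K := F),
      hq, hn]; simp
  omega

theorem ord31 : orderOf ((2 : ℕ) : ZMod 31) = 5 := by
  have : Fact (Nat.Prime 5) := ⟨by norm_num⟩
  exact orderOf_eq_prime (by decide +revert) (by decide +revert)

theorem six [Fintype F] [Finite V] [Finite H] (hinj : Function.Injective ρ)
    (hq : Fintype.card F = 2) (hn : finrank F V = 6)
    (h1 : Nat.card H ∣ 2 ^ 15 * 3 ^ 4 * 5 * 7 ^ 2 * 31) (h2 : 27 * 5 * 7 * 31 ∣ Nat.card H)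
    (h3 : ¬ 7 ^ 2 ∣ Nat.card H) : False := by
  have hr : Nat.Prime 31 := by norm_num
  have : Fact (Nat.Prime 31) := ⟨hr⟩
  obtain ⟨t, ht⟩ := h2
  have ht1 : t ∣ 2 ^ 15 * 3 := by
    have h4 : t ∣ 2 ^ 15 * 3 * 7 := by
      rw [ht, show 2 ^ 15 * 3 ^ 4 * 5 * 7 ^ 2 * 31 = 27 * 5 * 7 * 31 * (2 ^ 15 * 3 * 7) by norm_num]
        at h1
      exact Nat.dvd_of_mul_dvd_mul_left (by norm_num) h1
    refine Nat.Coprime.dvd_of_dvd_mul_right ?_ h4
    rw [Nat.coprime_comm, Nat.Prime.coprime_iff_not_dvd (by norm_num)]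
    rintro ⟨u, rfl⟩
    exact h3 ⟨27 * 5 * 31 * u, by rw [ht]; ring⟩
  obtain ⟨g, hg⟩ := exists_prime_orderOf_dvd_card' (G := H) 31 ⟨27 * 5 * 7 * t, by rw [ht]; ring⟩
  have hm : orderOf (Fintype.card F : ZMod 31) = 5 := by
    rw [hq]; exact ord31
  have hg1 : ρ g ≠ 1 := by
    intro h
    have : g = 1 := hinj (by rw [h, map_one])
    rw [this, orderOf_one] at hg; omega
  have hgr : g ^ 31 = 1 := orderOf_dvd_iff_pow_eq_one.mp (by rw [hg])
  obtain ⟨L, hL, hL'⟩ := exists_fix (ρ := ρ) hr hm (by norm_num) hgr hg1 (by omega)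
  obtain ⟨W, P⟩ := exists_PP (ρ := ρ) hr hm (by norm_num) hgr hg1 hL hL'
  have hF : ∀ c : F, c ≠ 0 → c = 1 := fun c hc => by
    have := FiniteField.pow_card_sub_one_eq_one c hc
    rwa [hq, pow_one] at this
  have hN : ∀ a ∈ Subgroup.normalizer (Subgroup.zpowers g : Set H), a ^ 155 = 1 := by
    intro a ha
    apply hinj
    apply P.ext
    · intro v hv
      by_cases hv0 : v = 0
      · simp [hv0]
      have : Submodule.span F {v} = L := Submodule.eq_of_le_of_finrank_eq
        ((Submodule.span_singleton_le_iff_mem _ _).mpr hv)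
        (by rw [finrank_span_singleton hv0]; omega)
      obtain ⟨c, hc⟩ := Submodule.mem_span_singleton.mp (this ▸ P.normL ha v hv)
      have hc1 : c = 1 := hF c (by
        rintro rfl
        exact hv0 (rho_inj (ρ := ρ) a (by rw [← hc]; simp)))
      rw [hc1, one_smul] at hc
      rw [rho_pow_fix hc.symm]; simp
    · intro w hw
      have := P.C2 (P.C4 hinj ha) hw
      rw [hq, ← pow_mul] at this
      simpa using this
  let S : Sylow 31 H := Sylow.ofCard (Subgroup.zpowers g) (by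
    rw [Nat.card_zpowers, hg]
    have h5 : (Nat.card H).factorization 31 = 1 := by
      apply le_antisymm
      · by_contra hn
        have : 31 ^ 2 ∣ Nat.card H := (hr.pow_dvd_iff_le_factorization Nat.card_pos.ne').mpr (by omega)
        exact absurd (this.trans h1) (by norm_num)
      · exact (hr.dvd_iff_one_le_factorization Nat.card_pos.ne').mp ⟨27 * 5 * 7 * t, by rw [ht]; ring⟩
    rw [h5, pow_one])
  have hS := card_sylow_modEq_one 31 H
  rw [S.card_eq_index_normalizer] at hS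
  have hidx := (Subgroup.normalizer (Subgroup.zpowers g : Set H)).card_mul_index
  change (Subgroup.normalizer (Subgroup.zpowers g : Set H)).index ≡ 1 [MOD 31] at hS
  have hN1 : Nat.card (Subgroup.normalizer (Subgroup.zpowers g : Set H)) ∣ 155 := by
    have h4 := (Subgroup.card_subgroup_dvd_card
      (Subgroup.normalizer (Subgroup.zpowers g : Set H))).trans h1
    rw [show 2 ^ 15 * 3 ^ 4 * 5 * 7 ^ 2 * 31 = 155 * (2 ^ 15 * 3 ^ 4 * 7 ^ 2) by norm_num] at h4
    refine Nat.Coprime.dvd_of_dvd_mul_right ?_ h4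
    apply Nat.coprime_of_dvd
    intro s hs h5 h6
    have : Fact s.Prime := ⟨hs⟩
    obtain ⟨a, ha⟩ := exists_prime_orderOf_dvd_card' s h5
    have h7 : s ∣ 155 := by
      rw [← ha, ← Subgroup.orderOf_coe]; exact orderOf_dvd_of_pow_eq_one (hN a a.2)
    have := Nat.dvd_gcd h6 h7
    norm_num at this
    exact hs.ne_one this
  have hN2 : 31 ∣ Nat.card (Subgroup.normalizer (Subgroup.zpowers g : Set H)) := by
    rw [← hg, ← Nat.card_zpowers]
    exact Subgroup.card_dvd_of_le Subgroup.le_normalizer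
  obtain ⟨u, hu⟩ := hN2
  rw [hu] at hN1 hidx
  have hu5 : u ∣ 5 := Nat.dvd_of_mul_dvd_mul_left (by norm_num : 0 < 31) hN1
  obtain ⟨t1, t2, a1, a2, rfl⟩ := (Nat.dvd_mul).mp ht1
  obtain ⟨a, ha, rfl⟩ := (Nat.dvd_prime_pow Nat.prime_two).mp a1
  rw [ht] at hidx
  unfold Nat.ModEq at hS
  generalize (Subgroup.normalizer (Subgroup.zpowers g : Set H)).index = i at hS hidx
  rcases (Nat.dvd_prime (by norm_num)).mp hu5 with rfl | rfl <;>
    rcases (Nat.dvd_prime (by norm_num)).mp a2 with rfl | rfl <;>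
    interval_cases a <;> omega

end Abs

variable {F : Type*} [Field F] [Fintype F] {n : ℕ}

theorem ppd_dvd_SL {r m : ℕ} (hm : orderOf (Fintype.card F : ZMod r) = m) (h2 : 2 ≤ m)
    (hn : m ≤ n) : r ∣ Nat.card (Matrix.SpecialLinearGroup (Fin n) F) :=
  ((GLn.dvd_pow_sub_one_iff _ r m Fintype.card_pos).mpr (hm ▸ dvd_rfl)).trans
    (GLn.pow_sub_one_dvd_card_SL h2 hn)

theorem top_of_tv (hn : 2 ≤ n) (H : Subgroup (Matrix.SpecialLinearGroup (Fin n) F))
    (h : ∀ x φ, φ x = 0 → Tv (natH H) x φ) : H = ⊤ := by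
  have : Nontrivial (Fin n) := Fin.nontrivial_iff_two_le.mpr hn
  apply GLn.eq_top_of_tv_mem
  intro i j hij a
  obtain ⟨-, g, hg⟩ := h (Pi.single i 1) (a • LinearMap.proj j) (by simp [hij.symm])
  have : (g : Matrix.SpecialLinearGroup (Fin n) F) =
      Matrix.SpecialLinearGroup.transvection hij a := by
    apply natSL_inj
    refine LinearMap.ext fun v => (hg v).trans ?_
    rw [natSL_apply, GLn.tv_coe, Matrix.add_mulVec, Matrix.one_mulVec, Matrix.single_mulVec]
    congr 1
    ext k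
    by_cases hk : k = i
    · subst hk; simp
    · simp [hk]
  rw [← this]; exact g.2

theorem top (hn : 5 ≤ n) (H : Subgroup (Matrix.SpecialLinearGroup (Fin n) F))
    (t13 : ∀ x E x' E' : Submodule F (Fin n → F), x ≤ E → x' ≤ E' → finrank F x = 1 →
      finrank F x' = 1 → finrank F E = 3 → finrank F E' = 3 → ∃ h ∈ H, act h x = x' ∧ act h E = E')
    (t23 : ∀ x E x' E' : Submodule F (Fin n → F), x ≤ E → x' ≤ E' → finrank F x = 2 →
      finrank F x' = 2 → finrank F E = 3 → finrank F E' = 3 → ∃ h ∈ H, act h x = x' ∧ act h E = E')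
    (tH : ∀ x x' : Submodule F (Fin n → F), finrank F x = n - 1 → finrank F x' = n - 1 →
      ∃ h ∈ H, act h x = x')
    (t4 : Fintype.card F = 2 → Even n → 8 ≤ n → ∀ x x' : Submodule F (Fin n → F),
      finrank F x = 4 → finrank F x' = 4 → ∃ h ∈ H, act h x = x')
    (h2 : Even (Fintype.card F) → Even (Nat.card H)) : H = ⊤ := by
  have hrk : finrank F (Fin n → F) = n := by simp
  have T13 : Tr2 (natH H) 1 3 := fun A A' B B' a1 a2 a3 b1 b2 b3 => by
    obtain ⟨h, hh, e⟩ := t13 A A' B B' a3 b3 a1 b1 a2 b2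
    exact ⟨⟨h, hh⟩, e⟩
  have T23 : Tr2 (natH H) 2 3 := fun A A' B B' a1 a2 a3 b1 b2 b3 => by
    obtain ⟨h, hh, e⟩ := t23 A A' B B' a3 b3 a1 b1 a2 b2
    exact ⟨⟨h, hh⟩, e⟩
  have TH : Tr1 (natH H) (finrank F (Fin n → F) - 1) := fun A B a b => by
    obtain ⟨h, hh, e⟩ := tH A B (by omega) (by omega)
    exact ⟨⟨h, hh⟩, e⟩
  have T1 := (tr1_of_tr2 T13 (by norm_num) (by omega)).1
  obtain ⟨T2, T3⟩ := tr1_of_tr2 T23 (by norm_num) (by omega)
  have hinj := natH_inj H
  refine top_of_tv (by omega) H (all_tv' T1 T2 TH (by omega) ?_)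
  obtain ⟨p, hp'⟩ := CharP.exists F
  obtain ⟨e, hp, he⟩ := FiniteField.card F p
  have hq2 : 2 ≤ Fintype.card F := Fintype.one_lt_card
  have hp2 : Fintype.card F = 2 → p = 2 := fun h =>
    (Nat.prime_dvd_prime_iff_eq hp Nat.prime_two).mp (by rw [← h, he]; exact dvd_pow_self p e.ne_zero)
  have hne : ∀ {a : Matrix.SpecialLinearGroup (Fin n) F} {s : ℕ}, s.Prime → orderOf a = s →
      natSL F n a ≠ 1 := by
    intro a s hs ha h
    have : a = 1 := natSL_inj (by rw [h, map_one])
    rw [this, orderOf_one] at ha; exact hs.ne_one ha.symm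
  have hr2 : ∀ r : ℕ, r.Prime → orderOf (Fintype.card F : ZMod r) = n - 2 → r ∣ Nat.card H := by
    intro r hr hm
    obtain ⟨E, -, -, hE⟩ := exists_between (S := (⊥ : Submodule F (Fin n → F))) (T := ⊤) bot_le
      (k := 3) (by simp) (by simp; omega)
    obtain ⟨A, -, hAE, hA⟩ := exists_between (S := ⊥) (T := E) bot_le (k := 2) (by simp) (by omega)
    refine dvd_card_of_cover H (stb (natSL F n) A ⊓ stb (natSL F n) E) (fun g => ?_) hr
      (ppd_dvd_SL hm (by omega) (by omega)) ?_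
    · obtain ⟨h, hh, e1, e2⟩ := t23 (act g A) (act g E) A E (act_mono g hAE) hAE
        (by rw [finrank_act, hA]) hA (by rw [finrank_act, hE]) hE
      rw [← act_mul] at e1 e2
      refine ⟨h⁻¹, H.inv_mem hh, ?_⟩
      rw [inv_inv]
      exact ⟨fun v hv => e1 ▸ ⟨v, hv, rfl⟩, fun v hv => e2 ▸ ⟨v, hv, rfl⟩⟩
    · rintro g ⟨g1, g2⟩ hg
      have hgr : g ^ r = 1 := orderOf_dvd_iff_pow_eq_one.mp (by rw [hg])
      obtain ⟨L, hL, hL'⟩ := exists_fix (ρ := natSL F n) hr hm (by omega) hgr (hne hr hg) (by omega)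
      obtain ⟨W, P⟩ := exists_PP (ρ := natSL F n) hr hm (by omega) hgr (hne hr hg) hL hL'
      have hW := P.rk
      rcases P.inv_sub g2 with h | h
      · have := Submodule.finrank_mono h; omega
      rcases P.inv_sub g1 with h' | h'
      · have h3 : A ⊓ W = ⊥ := by
          rw [eq_bot_iff, ← P.compl.inf_eq_bot]; exact inf_le_inf_right W h'
        have h4 := Submodule.finrank_sup_add_finrank_inf_eq A W
        have h5 := Submodule.finrank_mono (sup_le hAE h)
        rw [h3, finrank_bot] at h4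
        omega
      · have := Submodule.finrank_mono h'; omega
  by_cases hpH : p ∣ Nat.card H
  swap
  · exfalso
    have hq : Fintype.card F ≠ 2 := fun h => hpH (hp2 h ▸ (h2 (h ▸ even_two)).two_dvd)
    obtain ⟨r, hr, hm⟩ := zsig hq2 (m := n - 2) (by omega) (fun h => hq h.1)
    exact pprime hinj (by rwa [Ne, CharP.cast_eq_zero_iff F p]) (by omega) T1 T2 TH hr
      (by rw [hrk, hm]) (hr2 r hr hm)
  have hkey : ∀ r m l : ℕ, r.Prime → orderOf (Fintype.card F : ZMod r) = m → n = l + 1 + m →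
      n < 2 * m → ¬ p ∣ m → r ∣ Nat.card H → (l = 1 ∨ (l = 2 ∧ p < n)) → Tr1 (natH H) (l + 1) →
      HasTv (natH H) := by
    intro r m l hr hm h1 h2 h3 h4 h5 h6
    have : Fact r.Prime := ⟨hr⟩
    obtain ⟨g, hg⟩ := exists_prime_orderOf_dvd_card' r h4
    obtain ⟨L, hL, hL'⟩ := exists_fix (ρ := natH H) hr hm (by omega)
      (orderOf_dvd_iff_pow_eq_one.mp (by rw [hg]) : g ^ r = 1)
      (hne (a := (g : _)) hr ((Subgroup.orderOf_coe g).trans hg)) (by omega)
    exact key' hinj hp hr hm (by omega) h3 hg hL hL' (by rwa [hrk]) (by omega) h6 hpH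
  by_cases hpn : p ∣ n - 2
  swap
  · obtain ⟨r, hr, hm⟩ := zsig hq2 (m := n - 2) (by omega)
      (fun h => hpn (by rw [hp2 h.1, h.2]; norm_num))
    exact hkey r _ 1 hr hm (by omega) (by omega) hpn (hr2 r hr hm) (Or.inl rfl) T2
  have hpn' : p < n := by have := Nat.le_of_dvd (by omega) hpn; omega
  have hplane := fun E hE x hx φ hφ => plane_tv hinj hp (by omega) (by omega) T13 T23 hpH
    (E := E) hE (x := x) hx (φ := φ) hφ
  by_cases hq : Fintype.card F = 2
  swap
  · obtain ⟨r, hr, hm⟩ := zsig hq2 (m := n - 2) (by omega) (fun h => hq h.1)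
    exact elation hinj hp (by omega) T2 (flagTv_of_plane hplane) hr (by rw [hrk, hm])
      (hr2 r hr hm) hq
  have := hp2 hq
  subst this
  by_cases hn8 : 8 ≤ n
  · obtain ⟨r, hr, hm⟩ := zsig hq2 (m := n - 3) (by omega) (fun h => by omega)
    refine hkey r _ 2 hr hm (by omega) (by omega) (by omega) ?_ (Or.inr ⟨rfl, hpn'⟩) T3
    obtain ⟨E, -, -, hE⟩ := exists_between (S := (⊥ : Submodule F (Fin n → F))) (T := ⊤) bot_le
      (k := 4) (by simp) (by simp; omega)
    refine dvd_card_of_cover H (stb (natSL F n) E) (fun g => ?_) hr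
      (ppd_dvd_SL hm (by omega) (by omega)) ?_
    · obtain ⟨h, hh, e2⟩ := t4 hq (by rw [Nat.even_iff]; omega) hn8 (act g E) E
        (by rw [finrank_act, hE]) hE
      rw [← act_mul] at e2
      refine ⟨h⁻¹, H.inv_mem hh, ?_⟩
      rw [inv_inv]
      exact fun v hv => e2 ▸ ⟨v, hv, rfl⟩
    · intro g g2 hg
      have hgr : g ^ r = 1 := orderOf_dvd_iff_pow_eq_one.mp (by rw [hg])
      obtain ⟨L, hL, hL'⟩ := exists_fix (ρ := natSL F n) hr hm (by omega) hgr (hne hr hg) (by omega)
      obtain ⟨W, P⟩ := exists_PP (ρ := natSL F n) hr hm (by omega) hgr (hne hr hg) hL hL'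
      have hW := P.rk
      rcases P.inv_sub g2 with h | h <;> (have := Submodule.finrank_mono h; omega)
  have hn6 : n = 6 := by omega
  subst hn6
  have hF : ∀ c : F, c ≠ 0 → c = 1 := fun c hc => by
    have := FiniteField.pow_card_sub_one_eq_one c hc
    rwa [hq, pow_one] at this
  by_cases h49 : 7 ^ 2 ∣ Nat.card H
  · obtain ⟨g, hg, v, hv, hv'⟩ := exists_seven (ρ := natH H) hq hrk h49
    have hr : Nat.Prime 7 := by norm_num
    have hm : orderOf (Fintype.card F : ZMod 7) = 3 := by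
      rw [hq]
      have : Fact (Nat.Prime 3) := ⟨by norm_num⟩
      exact orderOf_eq_prime (by decide) (by decide)
    have hgr : g ^ 7 = 1 := orderOf_dvd_iff_pow_eq_one.mp (by rw [hg])
    have h1 := dvd_range hr (cast_ne_zero hr hm (by norm_num)) hgr _ le_rfl
      (range_inv (ρ := natH H) g)
    rw [hm] at h1
    have h3 : 0 < finrank F (LinearMap.range (natH H g - 1)) := by
      rw [Nat.pos_iff_ne_zero, Ne, Submodule.finrank_eq_zero, LinearMap.range_eq_bot, sub_eq_zero]
      exact hne (a := (g : _)) hr ((Subgroup.orderOf_coe g).trans hg)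
    have h4 : 0 < finrank F (LinearMap.ker (natH H g - 1)) := by
      rw [Nat.pos_iff_ne_zero, Ne, Submodule.finrank_eq_zero]
      intro h
      exact hv ((Submodule.mem_bot F).mp (h ▸ (by simp [hv'] : v ∈ LinearMap.ker (natH H g - 1))))
    have h5 := LinearMap.finrank_range_add_finrank_ker (natH H g - 1)
    exact key' hinj hp hr hm (by norm_num) (by norm_num) hg (L := LinearMap.ker (natH H g - 1))
      (fun v hv => by simpa [sub_eq_zero] using hv) (by omega) (l := 2) (Or.inr ⟨rfl, by omega⟩)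
      (by omega) T3 hpH
  · exfalso
    have h1 := triple_dvd (ρ := natH H) (by omega) (fun s t hs ht => triple_trans hF T3 hplane hs ht)
    rw [hq, hrk] at h1
    refine six hinj hq hrk ?_ (Dvd.dvd.trans (by decide) h1) h49
    have := Subgroup.card_subgroup_dvd_card H
    rw [GLn.card_SL_eq, hq] at this
    exact this.trans (by decide)

end Cfsg.Agent.R3
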