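import Cfsg.Agent.R3.Cls
import Cfsg.Agent.R3.Top
import Cfsg.Agent.GLn.RegUni

/-! The parabolic case and the rank three theorem for `SL_n`. -/

set_option autoImplicit false

namespace Cfsg.Agent.R3

open Cfsg Cfsg.Agent.GLn MulAction Module
open scoped Pointwise

theorem rank_eq {G X : Type*} [Group G] [MulAction G X] [IsPretransitive G X] (x0 : X) :
    Nat.card (orbitRel.Quotient G (X × X)) = Nat.card (orbitRel.Quotient (stabilizer G x0) X) := by
  rw [card_orb_prod x0 id (fun _ _ => rfl) Function.injective_id, NN, Set.range_id,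
    Set.image_univ, Set.range_eq_univ.2 Quotient.mk_surjective, Set.ncard_univ]

theorem odd_card_of_three {H X : Type*} [Group H] [Finite H] [Finite X] [MulAction H X]
    (h3 : Nat.card (orbitRel.Quotient H X) = 3) (h : Odd (Nat.card H)) : Odd (Nat.card X) := by
  classical
  have := Fintype.ofFinite (orbitRel.Quotient H X)
  rw [Nat.card_congr (selfEquivSigmaOrbits H X), Nat.card_sigma, Finset.odd_sum_iff_odd_card_odd,
    Finset.filter_true_of_mem fun ω _ => ?_, Finset.card_univ, ← Nat.card_eq_fintype_card, h3]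
  · decide
  · refine Odd.of_dvd_nat h ?_
    rw [Nat.card_coe_set_eq, ← index_stabilizer]
    exact Subgroup.index_dvd_card _

section Cnt
variable {F V : Type*} [Field F] [Fintype F] [AddCommGroup V] [Module F V] [Finite V]

theorem card_two {m : ℕ} (hm : finrank F V = m + 1) :
    {D : Submodule F V | dm D = 2}.ncard * θ (Fintype.card F) 2 =
      θ (Fintype.card F) (m + 1) * θ (Fintype.card F) m := by
  have hB : dm (⊥ : Submodule F V) = 0 := dm_bot
  rw [← card_top (E := (⊥ : Submodule F V)) (k := 1) (m := m + 1) (by omega) (by omega)]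
  refine dc _ _ (fun D P => P ≤ D) ?_ ?_
  · intro D (a : dm D = 2)
    rw [← card_up' (bot_le : ⊥ ≤ D) (k := 1) (m := 2) (by omega) (by omega)]
    congr 1; ext P
    exact ⟨fun h => ⟨h.1.1, h.2, h.1.2⟩, fun h => ⟨⟨h.1, h.2.2⟩, h.2.1⟩⟩
  · rintro P ⟨-, a⟩
    rw [← card_top (E := P) (k := 2) (m := m) (by omega) (by omega)]
    congr 1; ext D
    exact and_comm

omit [Fintype F] in
theorem ncard_Fl (k : ℕ) : (Fl F V k k k k).ncard = {D : Submodule F V | dm D = k}.ncard := by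
  rw [← Set.ncard_image_of_injective {D : Submodule F V | dm D = k}
    (f := fun D => (D, D, D, D)) fun _ _ h => congrArg Prod.fst h]
  congr 1; ext ⟨A, B, C, D⟩
  constructor
  · rintro ⟨x1, x2, x3, x4, x5, x6, x7⟩
    simp only at x1 x2 x3 x4 x5 x6 x7
    obtain rfl := eq_of_dm x1 (x5.trans x4.symm).le
    obtain rfl := eq_of_dm x2 (x6.trans x4.symm).le
    obtain rfl := eq_of_dm x3 (x7.trans x4.symm).le
    exact ⟨_, x4, rfl⟩
  · rintro ⟨W, h, e⟩
    rw [← e]
    exact ⟨le_rfl, le_rfl, le_rfl, h, h, h, h⟩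

end Cnt

section Lin
variable {F : Type*} [Field F] [Fintype F] {n : ℕ}

local notation "SL" => Matrix.SpecialLinearGroup (Fin n) F
local notation "V" => Fin n → F
local notation "q" => Fintype.card F

theorem par (hn : 5 ≤ n) (X : Type*) [Finite X] [MulAction SL X] [IsPretransitive SL X]
    (h3 : Nat.card (orbitRel.Quotient SL (X × X)) = 3) (x0 : X) (hc : IsCoatom (stabilizer SL x0))
    (W : Submodule F V) (h0 : W ≠ ⊥) (h1 : W ≠ ⊤) (hW : ∀ g ∈ stabilizer SL x0, g • W = W) :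
    Nat.card X * θ q 2 = θ q n * θ q (n - 1) := by
  have hr : finrank F V = n := by simp
  obtain ⟨k, hk⟩ : ∃ k, dm W = k := ⟨_, rfl⟩
  have k0 : 0 < k := Nat.pos_of_ne_zero fun h => h0 (eq_bot_of_dm (hk.trans h))
  have k1 : k < n := by
    have := dm_lt (lt_top_iff_ne_top.2 h1)
    rwa [dm_top, hr, hk] at this
  obtain ⟨φ, p1, p2, p3⟩ := exists_phi (F := F) hn (le_refl k) le_rfl le_rfl k1.le
  have := cos_trans (F := F) (by omega : 0 < n) (al n k k k k)
  have hw : (W, W, W, W) ∈ Fl F V k k k k := ⟨le_rfl, le_rfl, le_rfl, hk, hk, hk, hk⟩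
  obtain ⟨y0, hy⟩ : (W, W, W, W) ∈ Set.range φ := p3 ▸ hw
  have e1 : ∀ g : SL, g • y0 = y0 ↔ g • W = W := fun g => by
    rw [← p2.eq_iff, p1, hy]; simp
  have e2 : ∀ z ∈ Fl F V k k k k, ∃ g : SL, g • (W, W, W, W) = z := fun z hz => by
    obtain ⟨y, rfl⟩ : z ∈ Set.range φ := p3 ▸ hz
    obtain ⟨g, rfl⟩ := exists_smul_eq SL y0 y
    exact ⟨g, by rw [p1, hy]⟩
  have e3 : stabilizer SL y0 = stabilizer SL x0 := by
    refine ((hc.le_iff.1 fun g hg => (e1 g).2 (hW g hg)).resolve_left fun h => ?_)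
    obtain ⟨A, -, a1, a2⟩ := exists_btw (bot_le : ⊥ ≤ W) (k := k - 1) (by rw [dm_bot]; omega)
      (by omega)
    obtain ⟨P, -, -, b1, b2⟩ := exists_pt (le_top : A ≤ ⊤) a1 fun h => h1 (top_le_iff.1 h)
    have b3 : dm P = k := by omega
    obtain ⟨g, hg⟩ := e2 (P, P, P, P) ⟨le_rfl, le_rfl, le_rfl, b3, b3, b3, b3⟩
    have b4 : g • W = P := congrArg Prod.fst hg
    exact b2 (b4.symm.trans ((e1 g).1 (h ▸ Subgroup.mem_top g : g ∈ stabilizer SL y0))).le
  have e4 : ∀ g g' : SL, g • x0 = g' • x0 ↔ g • (W, W, W, W) = g' • (W, W, W, W) := fun g g' => by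
    rw [← inv_smul_eq_iff, ← inv_smul_eq_iff, ← mul_smul, ← mul_smul, ← mem_stabilizer_iff, ← e3,
      mem_stabilizer_iff, e1]
    simp
  choose r hr' using fun x => exists_smul_eq SL x0 x
  let ψ : X → _ := fun x => r x • (W, W, W, W)
  have q1 : ∀ (g : SL) x, ψ (g • x) = g • ψ x := fun g x => by
    simp only [ψ]; rw [← mul_smul, ← e4, mul_smul, hr', hr']
  have q2 : Function.Injective ψ := fun x x' h => by
    rw [← hr' x, ← hr' x']; exact (e4 _ _).2 h
  have q3 : Set.range ψ = Fl F V k k k k := by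
    ext z
    constructor
    · rintro ⟨x, rfl⟩
      rw [← p3]
      exact ⟨r x • y0, by rw [p1, hy]⟩
    · intro hz
      obtain ⟨g, rfl⟩ := e2 z hz
      exact ⟨g • x0, (e4 _ _).1 (hr' _)⟩
  have hs := al_sum hn (le_refl k) le_rfl le_rfl k1.le
  have r1 := card_orb_prod x0 ψ q1 q2
  have r2 := card_orb_prod y0 φ p1 p2
  rw [card_orb_cos (by omega) hs hs, p3, congrArg (fun H : Subgroup SL => NN H (Fl F V k k k k)) e3,
    ← q3, ← r1, h3, al, tableCount_ext5 hn, Nat.sub_self] at r2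
  have r3 : Nat.card X = {D : Submodule F V | dm D = k}.ncard := by
    rw [← ncard_Fl, ← q3, Set.ncard_range_of_injective q2]
  rw [r3]
  rcases le_total k (n - k) with h | h
  · rw [tcG_two _ (by simp [Fin.sum_univ_five])] at r2
    simp only [Matrix.cons_val] at r2
    rw [c4_sub h] at r2
    obtain rfl : k = 2 := by omega
    rw [card_two (m := n - 1) (by omega), show n - 1 + 1 = n by omega]
  · have e : ![k, 0, 0, 0, n - k] = ![n - k, 0, 0, 0, k] ∘ Equiv.swap 0 4 := by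
      funext i; fin_cases i <;> rfl
    rw [e, tcG_perm, tcG_comm, tcG_perm, tcG_two _ (by simp [Fin.sum_univ_five])] at r2
    simp only [Matrix.cons_val] at r2
    rw [c4_sub h] at r2
    have := card_co2 (bot_le : (⊥ : Submodule F V) ≤ ⊤) (k := k) (m := n - 1)
      (by rw [dm_top]; omega) (by rw [dm_top, dm_bot]; omega)
    rw [show n - 1 + 1 = n by omega] at this
    rw [← this]; simp

theorem exists_qset (hn : 0 < n) (X : Type*) [Finite X] [MulAction SL X]
    (hp : ¬ ringChar F ∣ Nat.card X) : ∃ x : X, qset (stabilizer SL x) ≠ ⊥ := by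
  classical
  have : Fact (ringChar F).Prime := ⟨CharP.char_is_prime F _⟩
  let a : V := Pi.single ⟨0, hn⟩ 1
  let E : Subgroup SL :=
    { carrier := {g | ∃ w h, g = trv a w h}
      one_mem' := ⟨0, by simp, (trv_zero_right _ _).symm⟩
      mul_mem' := by
        rintro _ _ ⟨w, h, rfl⟩ ⟨w', h', rfl⟩
        exact ⟨w + w', by rw [add_dotProduct, h, h', add_zero], (trv_add_right h h' _).symm⟩
      inv_mem' := by
        rintro _ ⟨w, h, rfl⟩
        exact ⟨_, _, trv_inv h⟩ }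
  have hE : IsPGroup (ringChar F) E := by
    rintro ⟨_, w, h, rfl⟩
    refine ⟨1, Subtype.ext ?_⟩
    rw [pow_one, Subgroup.coe_pow, trv_pow]
    simp [trv_zero_right]
  obtain ⟨x, hx⟩ := hE.nonempty_fixed_point_of_prime_not_dvd_card X hp
  refine ⟨x, fun h => ?_⟩
  have h1 : a ∈ qset (stabilizer SL x) := fun w h => ⟨h, hx ⟨_, w, h, rfl⟩⟩
  rw [h] at h1
  simpa [a] using congrFun ((Submodule.mem_bot F).1 h1) ⟨0, hn⟩

theorem main_SL (hn : 5 ≤ n) (X : Type*) [Finite X] [MulAction SL X] [IsPreprimitive SL X]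
    (h3 : Nat.card (orbitRel.Quotient SL (X × X)) = 3) :
    Nat.card X * θ q 2 = θ q n * θ q (n - 1) := by
  have hr : finrank F V = n := by simp
  have : Nontrivial X := by
    by_contra hc
    rw [not_nontrivial_iff_subsingleton] at hc
    have : Nat.card (orbitRel.Quotient SL (X × X)) ≤ 1 := Finite.card_le_one_iff_subsingleton.2
      (Quotient.instSubsingletonQuotient _)
    omega
  have hc : ∀ x : X, IsCoatom (stabilizer SL x) := fun x =>
    IsPreprimitive.isCoatom_stabilizer_of_isPreprimitive SL x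
  have : Nontrivial (Fin n) := Fin.nontrivial_iff_two_le.mpr (by omega)
  by_cases hp : ringChar F ∣ Nat.card X
  swap
  · obtain ⟨x, hx⟩ := exists_qset (n := n) (by omega) X hp
    refine par hn X h3 x (hc x) _ hx (fun h => (hc x).1 (eq_top_of_qset h)) fun g hg => ?_
    refine eq_of_dm ?_ (dm_smul g _).ge
    rintro _ ⟨v, hv, rfl⟩
    exact mulVec_mem_qset hg hv
  obtain ⟨x⟩ : Nonempty X := inferInstance
  have h4 := (rank_eq x).symm.trans h3
  obtain ⟨e, hp', he⟩ := FiniteField.card F (ringChar F)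
  have hq : ringChar F ∣ q := he ▸ dvd_pow_self _ e.ne_zero
  obtain ⟨M, hM, hN⟩ := exists_psd hn X x h4 fun h => by
    have h5 := (Int.natCast_dvd_natCast.2 hq).trans h
    have h6 := (Int.dvd_iff_dvd_of_dvd_sub h5).1 (Int.natCast_dvd_natCast.2 hp)
    exact hp'.one_lt.ne' (Nat.dvd_one.1 (Int.natCast_dvd_natCast.1 h6))
  rcases cls hr hn hM hN with ⟨W, w1, w2, w3⟩ | ⟨a, b, c, d⟩
  · exact par hn X h3 x (hc x) W w1 w2 fun g hg => w3 ⟨g, hg⟩
  refine absurd (top hn (stabilizer SL x) ?_ ?_ ?_ ?_ ?_) (hc x).1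
  · intro A E A' E' e1 e2 e3 e4 e5 e6
    obtain ⟨g, hg⟩ := tr2 a e1 e2 e3 e5 e4 e6
    exact ⟨g, g.2, hg⟩
  · intro A E A' E' e1 e2 e3 e4 e5 e6
    obtain ⟨g, hg⟩ := tr2 b e1 e2 e3 e5 e4 e6
    exact ⟨g, g.2, hg⟩
  · intro A A' e1 e2
    obtain ⟨g, hg⟩ := tr1 c e1 e2
    exact ⟨g, g.2, hg⟩
  · intro _ _ _ A A' e1 e2
    obtain ⟨g, hg⟩ := tr1 d e1 e2
    exact ⟨g, g.2, hg⟩
  · intro h
    have h5 : ringChar F = 2 := ((Nat.prime_dvd_prime_iff_eq Nat.prime_two hp').1
      (Nat.prime_two.dvd_of_dvd_pow (he ▸ h.two_dvd))).symm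
    by_contra h6
    exact Nat.not_even_iff_odd.2 (odd_card_of_three h4 (Nat.not_even_iff_odd.1 h6))
      (even_iff_two_dvd.2 (h5 ▸ hp))

end Lin

end Cfsg.Agent.R3
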