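import Cfsg.Agent.R3.Unip

/-! Evaluation of table counts. -/

set_option autoImplicit false

namespace Cfsg.Agent.R3

open Cfsg.Agent.GLn Finset

/-- extension by zero -/
def ext5 (n : ℕ) (β : Fin 5 → ℕ) : Fin n → ℕ := fun i => if h : i.val < 5 then β ⟨i, h⟩ else 0

theorem sum_ext5 {n : ℕ} (hn : 5 ≤ n) (f : Fin n → ℕ) (hf : ∀ i : Fin n, ¬ i.val < 5 → f i = 0) :
    ∑ i, f i = ∑ i : Fin 5, f (Fin.castLE hn i) := by
  refine Eq.trans ?_ (sum_map univ (Fin.castLEEmb hn) f)
  refine (sum_subset (subset_univ _) fun i _ hi => hf i fun h => hi ?_).symm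
  exact mem_map.2 ⟨⟨i, h⟩, mem_univ _, rfl⟩

theorem ext5_sum {n : ℕ} (hn : 5 ≤ n) (β : Fin 5 → ℕ) : ∑ i, ext5 n β i = ∑ i, β i := by
  rw [sum_ext5 hn (ext5 n β) fun i hi => dif_neg hi]
  exact sum_congr rfl fun i _ => dif_pos i.2

/-- rectangular tables -/
noncomputable def tcG {m : ℕ} (α : Fin m → ℕ) (β : Fin 5 → ℕ) : ℕ :=
  Nat.card {T : Fin m → Fin 5 → ℕ // (∀ s, ∑ t, T s t = α s) ∧ ∀ t, ∑ s, T s t = β t}

theorem tableCount_ext5 {n : ℕ} (hn : 5 ≤ n) (α β : Fin 5 → ℕ) :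
    tableCount (ext5 n α) (ext5 n β) = tcG α β := by
  have key : ∀ T : {T : Fin n → Fin n → ℕ // (∀ s, ∑ t, T s t = ext5 n α s) ∧
      ∀ t, ∑ s, T s t = ext5 n β t}, ∀ s t, ¬ s.val < 5 ∨ ¬ t.val < 5 → T.1 s t = 0 := by
    rintro T s t (h | h)
    · exact sum_eq_zero_iff.1 ((T.2.1 s).trans (dif_neg h)) t (mem_univ _)
    · exact sum_eq_zero_iff.1 ((T.2.2 t).trans (dif_neg h)) s (mem_univ _)
  refine Nat.card_congr ⟨fun T => ⟨fun s t => T.1 (Fin.castLE hn s) (Fin.castLE hn t), fun s => ?_,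
    fun t => ?_⟩, fun T => ⟨fun s t => if h : s.val < 5 ∧ t.val < 5 then T.1 ⟨s, h.1⟩ ⟨t, h.2⟩ else 0,
      fun s => ?_, fun t => ?_⟩, fun T => ?_, fun T => ?_⟩
  · rw [← sum_ext5 hn _ fun i hi => key T _ _ (Or.inr hi), T.2.1]; exact dif_pos s.2
  · rw [← sum_ext5 hn (fun s => T.1 s _) fun i hi => key T _ _ (Or.inl hi), T.2.2]
    exact dif_pos t.2
  · rw [sum_ext5 hn _ fun i hi => dif_neg fun h => hi h.2]
    by_cases h : s.val < 5
    · rw [ext5, dif_pos h, ← T.2.1]
      exact sum_congr rfl fun t _ => dif_pos ⟨h, t.2⟩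
    · rw [ext5, dif_neg h]
      exact sum_eq_zero fun t _ => dif_neg fun h' => h h'.1
  · rw [sum_ext5 hn _ fun i hi => dif_neg fun h => hi h.1]
    by_cases h : t.val < 5
    · rw [ext5, dif_pos h, ← T.2.2]
      exact sum_congr rfl fun s _ => dif_pos ⟨s.2, h⟩
    · rw [ext5, dif_neg h]
      exact sum_eq_zero fun s _ => dif_neg fun h' => h h'.2
  · ext s t
    by_cases h : s.val < 5 ∧ t.val < 5
    · exact dif_pos h
    · exact (dif_neg h).trans (key T s t (not_and_or.1 h)).symm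
  · ext s t
    exact dif_pos ⟨s.2, t.2⟩

/-- computable table count -/
def tcl : List ℕ → ℕ → ℕ → ℕ → ℕ → ℕ → ℕ
  | [], a, b, c, d, e => if a + b + c + d + e = 0 then 1 else 0
  | r :: l, a, b, c, d, e => ∑ x ∈ range (a + 1), ∑ y ∈ range (b + 1), ∑ z ∈ range (c + 1),
      ∑ w ∈ range (d + 1), ∑ u ∈ range (e + 1),
        if x + y + z + w + u = r then tcl l (a - x) (b - y) (c - z) (d - w) (e - u) else 0

theorem sum_box (β : Fin 5 → ℕ) (g : (Fin 5 → ℕ) → ℕ) :
    ∑ f ∈ Fintype.piFinset (fun t => range (β t + 1)), g f =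
      ∑ x ∈ range (β 0 + 1), ∑ y ∈ range (β 1 + 1), ∑ z ∈ range (β 2 + 1),
        ∑ w ∈ range (β 3 + 1), ∑ u ∈ range (β 4 + 1), g ![x, y, z, w, u] := by
  simp only [← sum_product']
  refine sum_nbij' (fun f => (f 0, f 1, f 2, f 3, f 4))
    (fun p => ![p.1, p.2.1, p.2.2.1, p.2.2.2.1, p.2.2.2.2]) ?_ ?_ ?_ ?_ ?_
  · intro f hf
    simp only [Fintype.mem_piFinset] at hf
    simp only [mem_product]
    exact ⟨hf 0, hf 1, hf 2, hf 3, hf 4⟩
  · intro p hp
    simp only [mem_product] at hp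
    simp only [Fintype.mem_piFinset]
    intro t; fin_cases t <;> simp only [] <;> tauto
  · intro f _; funext t; fin_cases t <;> rfl
  · intro p _; rfl
  · intro f _; congr 1; funext t; fin_cases t <;> rfl

theorem finite_tab {m : ℕ} (α : Fin m → ℕ) (β : Fin 5 → ℕ) :
    Finite {T : Fin m → Fin 5 → ℕ // (∀ s, ∑ t, T s t = α s) ∧ ∀ t, ∑ s, T s t = β t} := by
  refine Finite.of_injective (β := ∀ _ : Fin m, ∀ t, Fin (β t + 1))
    (fun T s t => ⟨T.1 s t, Nat.lt_succ_of_le ?_⟩) fun T T' h => ?_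
  · rw [← T.2.2 t]; exact single_le_sum (f := fun s => T.1 s t) (fun _ _ => Nat.zero_le _) (mem_univ s)
  · ext s t; exact congrArg Fin.val (congrFun (congrFun h s) t)

theorem tcG_eq {m : ℕ} (α : Fin m → ℕ) (β : Fin 5 → ℕ) :
    tcG α β = tcl (List.ofFn α) (β 0) (β 1) (β 2) (β 3) (β 4) := by
  induction m generalizing β with
  | zero =>
    rw [List.ofFn_zero, tcl, tcG]
    split_ifs with h
    · have : Nonempty {T : Fin 0 → Fin 5 → ℕ // (∀ s, ∑ t, T s t = α s) ∧ ∀ t, ∑ s, T s t = β t} :=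
        ⟨⟨fun i => i.elim0, fun i => i.elim0, fun t => by fin_cases t <;> simp <;> omega⟩⟩
      exact Nat.card_unique
    · refine Nat.card_eq_zero.2 (Or.inl ⟨fun T => h ?_⟩)
      simp [← T.2.2]
  | succ m ih =>
    let B := Fintype.piFinset (fun t => range (β t + 1))
    let A : (Fin 5 → ℕ) → Type := fun f => {T : Fin m → Fin 5 → ℕ // ∑ t, f t = α 0 ∧
      (∀ s, ∑ t, T s t = α s.succ) ∧ ∀ t, ∑ s, T s t = β t - f t}
    have e : {T : Fin (m + 1) → Fin 5 → ℕ // (∀ s, ∑ t, T s t = α s) ∧ ∀ t, ∑ s, T s t = β t} ≃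
        Σ f : B, A f := by
      refine ⟨fun T => ⟨⟨T.1 0, ?_⟩, fun s => T.1 s.succ, T.2.1 0, fun s => T.2.1 _, fun t => ?_⟩,
        fun p => ⟨Fin.cons p.1.1 p.2.1, fun s => ?_, fun t => ?_⟩, fun T => ?_, fun p => rfl⟩
      · simp only [B, Fintype.mem_piFinset, mem_range]
        intro t
        have := T.2.2 t
        rw [Fin.sum_univ_succ] at this; omega
      · have := T.2.2 t
        rw [Fin.sum_univ_succ] at this; simp only; omega
      · cases s using Fin.cases
        · exact p.2.2.1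
        · exact p.2.2.2.1 _
      · have h1 := p.1.2
        simp only [B, Fintype.mem_piFinset, mem_range] at h1
        have h2 := h1 t
        have h3 := p.2.2.2.2 t
        rw [Fin.sum_univ_succ]
        simp only [Fin.cons_zero, Fin.cons_succ]
        omega
      · exact Subtype.ext (Fin.cons_self_tail T.1)
    have hA : ∀ f, Nat.card (A f) = if ∑ t, f t = α 0 then tcG (fun s => α s.succ) (β - f) else 0 := by
      intro f
      split_ifs with h
      · exact Nat.card_congr (Equiv.subtypeEquivRight fun T => and_iff_right h)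
      · exact Nat.card_eq_zero.2 (Or.inl ⟨fun T => h T.2.1⟩)
    have : ∀ f : B, Finite (A f) := fun f =>
      have := finite_tab (fun s => α s.succ) (β - f)
      Finite.of_injective (β := {T : Fin m → Fin 5 → ℕ // (∀ s, ∑ t, T s t = α s.succ) ∧
        ∀ t, ∑ s, T s t = (β - f) t}) (fun T => ⟨T.1, T.2.2⟩) fun T T' h =>
          Subtype.ext (congrArg (fun x => x.1) h)
    rw [tcG, Nat.card_congr e, Nat.card_sigma, sum_coe_sort B (fun f => Nat.card (A f)), sum_box,
      List.ofFn_succ, tcl]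
    simp only [hA, ih, Fin.sum_univ_five]
    rfl

/-- two-row table counts -/
def c4 (a b c d r k : ℕ) : ℕ := ∑ x ∈ range (a + 1), ∑ y ∈ range (b + 1), ∑ z ∈ range (c + 1),
  ∑ w ∈ range (d + 1), if x + y + z + w ≤ k ∧ k ≤ x + y + z + w + r then 1 else 0

theorem tcl_zero (l : List ℕ) (a b c d e : ℕ) : tcl (0 :: l) a b c d e = tcl l a b c d e := by
  rw [tcl]
  simp only [Nat.add_eq_zero_iff, ite_and, sum_ite_irrel, sum_ite_eq', sum_const_zero]
  simp

theorem tcl_one (r a b c d e : ℕ) : tcl [r] a b c d e = if a + b + c + d + e = r then 1 else 0 := by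
  rw [tcl, sum_eq_single a, sum_eq_single b, sum_eq_single c, sum_eq_single d, sum_eq_single e]
  · simp [tcl]
  all_goals simp only [tcl, mem_range, sum_eq_zero_iff, ite_eq_right_iff]
  all_goals intros; omega

theorem tcl_two {k s a b c d r : ℕ} (h : k + s = a + b + c + d + r) :
    tcl [k, 0, 0, 0, s] a b c d r = c4 a b c d r k := by
  rw [tcl, c4]
  simp only [tcl_zero, tcl_one]
  refine sum_congr rfl fun x hx => sum_congr rfl fun y hy => sum_congr rfl fun z hz =>
    sum_congr rfl fun w hw => ?_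
  simp only [mem_range] at hx hy hz hw
  rw [sum_eq_single (k - (x + y + z + w))]
  · split_ifs <;> omega
  · intro u hu h; rw [if_neg (by omega)]
  · simp only [mem_range]; intro; split_ifs <;> omega

theorem c4_min (a b c d : ℕ) {r k : ℕ} (h : k ≤ r) : c4 a b c d r k = c4 a b c d k k := by
  unfold c4
  refine sum_congr rfl fun x _ => sum_congr rfl fun y _ => sum_congr rfl fun z _ =>
    sum_congr rfl fun w _ => if_congr (by omega) rfl rfl

theorem c4_big {a b c d r k k' : ℕ} (h : a + b + c + d ≤ k') (h' : k' ≤ k) (h'' : k ≤ r) :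
    c4 a b c d r k = c4 a b c d r k' := by
  unfold c4
  refine sum_congr rfl fun x hx => sum_congr rfl fun y hy => sum_congr rfl fun z hz =>
    sum_congr rfl fun w hw => if_congr ?_ rfl rfl
  simp only [mem_range] at hx hy hz hw
  omega

theorem c4_sub {a r k : ℕ} (h : k ≤ r) : c4 a 0 0 0 r k = min a k + 1 := by
  simp only [c4, zero_add, sum_range_one, add_zero]
  rw [← card_filter, ← card_range (min a k + 1)]
  congr 1; ext x; simp only [mem_filter, mem_range]; omega

example : tcl [1, 2, 0, 0, 2] 1 2 0 0 2 = 11 := by decide +kernel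

end Cfsg.Agent.R3
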