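import Cfsg.Agent.R3.Elat
import Cfsg.Agent.R3.PPrime

/-! One transvection and transitivity on points, lines and hyperplanes give all transvections. -/

set_option autoImplicit false

namespace Cfsg.Agent.R3

open Module

variable {F V H : Type*} [Field F] [AddCommGroup V] [Module F V] [Group H]
  {ρ : Representation F H V}

theorem Tv.comm {x y : V} {φ ψ : V →ₗ[F] F} (h1 : Tv ρ x φ) (h2 : Tv ρ y ψ) (h : ψ x = 0) :
    Tv ρ (φ y • x) ψ := by
  obtain ⟨a1, g, b1⟩ := h1
  have h3 := h2.conj g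
  have e : ψ.comp (ρ g⁻¹) = ψ := by
    ext v
    have := congrArg ψ (b1 (ρ g⁻¹ v))
    rw [rho_inv', map_add, map_smul, h, smul_zero, add_zero] at this
    exact this.symm
  rw [e, b1] at h3
  have := h3.add h2.neg
  rwa [add_neg_cancel_comm] at this

theorem Tv.smul' {x : V} {φ : V →ₗ[F] F} {c : F} (h1 : Tv ρ (c • x) φ) (hc : c ≠ 0) :
    Tv ρ x (c • φ) := by
  obtain ⟨a1, g1, b1⟩ := h1
  refine ⟨by simpa [hc] using a1, g1, fun v => ?_⟩
  rw [b1]; simp [smul_smul, mul_comm]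

theorem tv_of_uniform [Fintype F] [Finite V] (hn : 3 ≤ finrank F V) {φ : V →ₗ[F] F} (hφ0 : φ ≠ 0)
    {k : ℕ} (hk2 : 2 ≤ k) (hall : ∀ u, u ≠ 0 → φ u = 0 → Nat.card (tvCoef ρ u φ) = k)
    {x : V} (hx0 : x ≠ 0) (hφ : φ x = 0) : Tv ρ x φ := by
  classical
  have := Fintype.ofFinite V
  have hk := (hall x hx0 hφ).symm
  let U : Finset V := Finset.univ.filter (fun u => u ≠ 0 ∧ φ u = 0)
  let B : Finset V := Finset.univ.filter (fun u => u ≠ 0 ∧ Tv ρ u φ)
  let C : Finset F := Finset.univ.filter (fun c => c ≠ 0)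
  have hU : U.card = Fintype.card F ^ (finrank F V - 1) - 1 := by
    have h1 : U = (Finset.univ.filter (fun u => u ∈ LinearMap.ker φ)).erase 0 := by
      ext u; simp [U]
    rw [h1, Finset.card_erase_of_mem (by simp), ← Fintype.card_subtype,
      Module.card_eq_pow_finrank (K := F) (V := LinearMap.ker φ)]
    have := Module.Dual.finrank_ker_add_one_of_ne_zero hφ0
    congr 2; omega
  have hB : B.card = Nat.card (tvCen ρ φ) - 1 := by
    have h1 : B = (Finset.univ.filter (fun u => u ∈ tvCen ρ φ)).erase 0 := by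
      ext u; simp [B, tvCen]
    rw [h1, Finset.card_erase_of_mem (by simp), ← Fintype.card_subtype, Nat.card_eq_fintype_card]
  have hC : C.card = Fintype.card F - 1 := by
    have h1 : C = Finset.univ.erase 0 := by ext c; simp [C]
    rw [h1, Finset.card_erase_of_mem (by simp), Finset.card_univ]
  have hcount : (C ×ˢ B).card = ∑ u ∈ U, (C.filter (fun c => Tv ρ (c • u) φ)).card := by
    rw [← Finset.card_sigma]
    symm
    refine Finset.card_bij' (fun t _ => (t.2, t.2 • t.1)) (fun t _ => ⟨t.1⁻¹ • t.2, t.1⟩) ?_ ?_ ?_ ?_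
    · rintro ⟨u, c⟩ ht
      simp only [Finset.mem_sigma, U, C, Finset.mem_filter, Finset.mem_univ, true_and] at ht
      simp [B, C, ht.1.1, ht.2.1, ht.2.2]
    · rintro ⟨c, b⟩ ht
      simp only [Finset.mem_product, B, C, Finset.mem_filter, Finset.mem_univ, true_and] at ht
      simp [U, C, ht.1, ht.2.1, ht.2.2, ht.2.2.1, smul_smul]
    · rintro ⟨u, c⟩ ht
      simp only [Finset.mem_sigma, U, C, Finset.mem_filter, Finset.mem_univ, true_and] at ht
      simp [smul_smul, ht.2.1]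
    · rintro ⟨c, b⟩ ht
      simp only [Finset.mem_product, B, C, Finset.mem_filter, Finset.mem_univ, true_and] at ht
      simp [smul_smul, ht.1]
  rw [Finset.sum_congr rfl (g := fun _ => k - 1) (fun u hu => by
    simp only [U, Finset.mem_filter, Finset.mem_univ, true_and] at hu
    have h1 : C.filter (fun c => Tv ρ (c • u) φ) =
        (Finset.univ.filter (fun c => c ∈ tvCoef ρ u φ)).erase 0 := by
      ext c; simp [C, tvCoef]
    rw [h1, Finset.card_erase_of_mem (by simp), ← Fintype.card_subtype, ← Nat.card_eq_fintype_card,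
      hall u hu.1 hu.2]), Finset.sum_const, Finset.card_product, hU, hB, hC, smul_eq_mul] at hcount
  obtain ⟨p, hp⟩ := CharP.exists F
  obtain ⟨e, hpp, he⟩ := FiniteField.card F p
  obtain ⟨a, -, ha⟩ := (Nat.dvd_prime_pow hpp).mp (show Nat.card (tvCen ρ φ) ∣ p ^ (e * finrank F V) by
    rw [pow_mul, ← he, ← Module.card_eq_pow_finrank, ← Nat.card_eq_fintype_card]
    exact AddSubgroup.card_addSubgroup_dvd_card _)
  have hkd : k ∣ p ^ (e : ℕ) := by
    rw [← he, ← Nat.card_eq_fintype_card, hk]; exact AddSubgroup.card_addSubgroup_dvd_card _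
  obtain ⟨s, -, hs⟩ := (Nat.dvd_prime_pow hpp).mp hkd
  rw [ha, hs, he] at hcount
  have := arith_tv hpp e.pos (by omega) (hs ▸ hk2)
    (hs ▸ Nat.le_of_dvd (pow_pos hpp.pos _) hkd) hcount
  have htop : tvCoef ρ x φ = ⊤ := AddSubgroup.eq_top_of_card_eq _ (by
    rw [← hk, hs, this, ← he, Nat.card_eq_fintype_card])
  have : (1 : F) ∈ tvCoef ρ x φ := by rw [htop]; trivial
  simpa [tvCoef] using this

/-- the common kernel of the transvections with centre `x` -/
def Wx (ρ : Representation F H V) (x : V) : Submodule F V where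
  carrier := {y | ∀ φ, Tv ρ x φ → φ y = 0}
  zero_mem' := fun φ _ => map_zero φ
  add_mem' := fun ha hb φ h => by rw [map_add, ha φ h, hb φ h, add_zero]
  smul_mem' := fun c y hy φ h => by rw [map_smul, hy φ h, smul_zero]

theorem Wx_smul {x : V} {c : F} (hc : c ≠ 0) : Wx ρ (c • x) = Wx ρ x := by
  ext y
  constructor
  · intro h φ hφ
    have := h (c⁻¹ • φ) (Tv.smul (by rwa [smul_smul, mul_inv_cancel₀ hc, one_smul]) hc)
    simpa [hc] using this
  · intro h φ hφ
    have := h _ (hφ.smul' hc)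
    simpa [hc] using this

theorem Wx_map (x : V) (h : H) : (Wx ρ x).map (ρ h) ≤ Wx ρ (ρ h x) := by
  rintro _ ⟨y, hy, rfl⟩ φ hφ
  have := hφ.conj h⁻¹
  rw [rho_inv, inv_inv] at this
  exact hy _ this

theorem all_tv' [Fintype F] [Finite V] (h1 : Tr1 ρ 1) (h2 : Tr1 ρ 2)
    (h3 : Tr1 ρ (finrank F V - 1)) (hn : 3 ≤ finrank F V)
    (h : HasTv ρ) (x : V) (φ : V →ₗ[F] F) (hφ : φ x = 0) : Tv ρ x φ := by
  by_cases hx0 : x = 0
  · rw [hx0]; exact Tv.zero φ
  by_cases hφ0 : φ = 0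
  · rw [hφ0]; exact Tv.zero' x
  obtain ⟨y₀, ψ₀, hy₀, hψ₀, h⟩ := h
  have hrk : ∀ x y : V, x ≠ 0 → y ≠ 0 → finrank F (Wx ρ x) ≤ finrank F (Wx ρ y) := by
    intro x y hx hy
    obtain ⟨g, c, hc, e⟩ := pt_trans h1 hx hy
    have := Wx_map (ρ := ρ) x g
    rw [e, Wx_smul hc] at this
    rw [(Submodule.equivMapOfInjective _ (rho_inj (ρ := ρ) g) _).finrank_eq]
    exact Submodule.finrank_mono this
  have hsym : ∀ x y : V, x ≠ 0 → y ≠ 0 → x ∈ Wx ρ y → y ∈ Wx ρ x := by
    intro x y hx hy hxy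
    by_contra hne
    obtain ⟨χ, a1, a2⟩ : ∃ χ, Tv ρ x χ ∧ χ y ≠ 0 := by
      by_contra hn
      push Not at hn
      exact hne hn
    have hle : Wx ρ x ≤ Wx ρ y := by
      intro z hz ψ hψ
      have := hz _ ((a1.comm hψ (hxy ψ hψ)).smul' a2)
      simpa [a2] using this
    rw [Submodule.eq_of_le_of_finrank_le hle (hrk y x hy hx)] at hne
    exact hne (fun ψ hψ => hψ.1)
  have hW : ∀ x y : V, x ≠ 0 → y ∉ Submodule.span F {x} → y ∉ Wx ρ x := by
    intro x y hx hy hyW
    have hiso : ∀ z ∈ Submodule.span F {x, y}, z ≠ 0 → Submodule.span F {x, y} ≤ Wx ρ z := by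
      intro z hz hz0
      have hle : Submodule.span F {x, y} ≤ Wx ρ x := by
        rw [Submodule.span_le]
        rintro _ (rfl | rfl)
        · exact fun ψ hψ => hψ.1
        · exact hyW
      by_cases hzx : z ∈ Submodule.span F {x}
      · obtain ⟨c, rfl⟩ := Submodule.mem_span_singleton.mp hzx
        rwa [Wx_smul (left_ne_zero_of_smul hz0)]
      · have e : Submodule.span F {x, z} = Submodule.span F {x, y} := by
          apply Submodule.eq_of_le_of_finrank_eq
          · rw [Submodule.span_le]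
            rintro _ (rfl | rfl)
            · exact Submodule.subset_span (by simp)
            · exact hz
          · rw [finrank_pair hx hzx, finrank_pair hx hy]
        rw [← e, Submodule.span_le]
        rintro _ (rfl | rfl)
        · exact hsym _ _ hz0 hx (hle hz)
        · exact fun ψ hψ => hψ.1
    apply hψ₀
    ext v
    by_cases hv : v ∈ Submodule.span F {y₀}
    · obtain ⟨c, rfl⟩ := Submodule.mem_span_singleton.mp hv
      simp [h.1]
    · obtain ⟨g, hg⟩ := h2 _ _ (finrank_pair hx hy) (finrank_pair hy₀ hv)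
      obtain ⟨z, hz, e⟩ : y₀ ∈ (Submodule.span F {x, y}).map (ρ g) :=
        hg ▸ Submodule.subset_span (by simp)
      have hz0 : z ≠ 0 := by rintro rfl; exact hy₀ (by simpa using e.symm)
      have := (Submodule.map_mono (f := ρ g) (hiso z hz hz0)).trans (Wx_map z g)
      rw [hg, e] at this
      exact this (Submodule.subset_span (by simp)) ψ₀ h
  have hle : ∀ u w : V, u ≠ 0 → w ≠ 0 → φ u = 0 → φ w = 0 →
      Nat.card (tvCoef ρ u φ) ≤ Nat.card (tvCoef ρ w φ) := by
    intro u w hu hw a1 a2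
    obtain ⟨a, ha, hab⟩ : ∃ a : F, a ≠ 0 ∧ ∀ c : F, Tv ρ (c • u) φ → Tv ρ ((c * a) • w) φ := by
      by_cases huw : u ∈ Submodule.span F {w}
      · obtain ⟨a, rfl⟩ := Submodule.mem_span_singleton.mp huw
        exact ⟨a, left_ne_zero_of_smul hu, fun c hc => by rwa [smul_smul] at hc⟩
      · obtain ⟨χ, b1, b2⟩ : ∃ χ, Tv ρ w χ ∧ χ u ≠ 0 := by
          by_contra hn
          push Not at hn
          exact hW w u hw huw hn
        exact ⟨χ u, b2, fun c hc => by simpa using b1.comm hc a2⟩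
    exact Nat.card_le_card_of_injective (fun c => ⟨c.1 * a, hab c.1 c.2⟩)
      (fun c c' hc => Subtype.ext (by simpa [ha] using congrArg Subtype.val hc))
  obtain ⟨g, c, hc, e⟩ := hyp_trans h3 hψ₀ hφ0
  have t1 := h.conj g
  rw [e] at t1
  have t2 := t1.smul hc
  have t3 : c • ρ g y₀ ≠ 0 :=
    smul_ne_zero hc (fun e => hy₀ (rho_inj (ρ := ρ) g (by simpa using e)))
  refine tv_of_uniform hn hφ0 (k := Nat.card (tvCoef ρ x φ)) ?_
    (fun u a1 a2 => le_antisymm (hle u x a1 hx0 a2 hφ) (hle x u hx0 a1 hφ a2)) hx0 hφ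
  refine le_trans ?_ (hle _ x t3 hx0 t2.1 hφ)
  have : Nontrivial (tvCoef ρ (c • ρ g y₀) φ) := ⟨⟨1, by simpa [tvCoef] using t2⟩, 0, by simp⟩
  exact Finite.one_lt_card

/-- the stabiliser of a subspace -/
def stb [Finite H] (ρ : Representation F H V) (E : Submodule F V) : Subgroup H where
  carrier := {h | ∀ v ∈ E, ρ h v ∈ E}
  mul_mem' := fun ha hb v hv => by rw [rho_mul]; exact ha _ (hb v hv)
  one_mem' := fun v hv => by simpa using hv
  inv_mem' := fun ha => rho_inv_mem ha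

/-- the action of the stabiliser on the subspace -/
def resE [Finite H] (ρ : Representation F H V) (E : Submodule F V) :
    Representation F (stb ρ E) E where
  toFun h := (ρ h).restrict h.2
  map_one' := by ext v; simp
  map_mul' a b := by ext v; simp; rfl

theorem tr1_resE [Finite H] {k l : ℕ} (h : Tr2 ρ k l) {E : Submodule F V} (hE : finrank F E = l) :
    Tr1 (resE ρ E) k := by
  intro A B hA hB
  obtain ⟨g, e1, e2⟩ := h (A.map E.subtype) E (B.map E.subtype) E
    (by rw [Submodule.finrank_map_subtype_eq, hA]) hE (Submodule.map_subtype_le _ _)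
    (by rw [Submodule.finrank_map_subtype_eq, hB]) hE (Submodule.map_subtype_le _ _)
  refine ⟨⟨g, fun v hv => e2 ▸ ⟨v, hv, rfl⟩⟩, Submodule.map_injective_of_injective
    E.injective_subtype ?_⟩
  rw [← e1, ← Submodule.map_comp, ← Submodule.map_comp]
  rfl

theorem tr1_of_tr2 [FiniteDimensional F V] {k l : ℕ} (h : Tr2 ρ k l) (hkl : k ≤ l)
    (hl : l ≤ finrank F V) : Tr1 ρ k ∧ Tr1 ρ l := by
  constructor
  · intro A B hA hB
    obtain ⟨A', a1, -, a2⟩ := exists_between (S := A) (T := ⊤) le_top (k := l) (by omega) (by simpa)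
    obtain ⟨B', b1, -, b2⟩ := exists_between (S := B) (T := ⊤) le_top (k := l) (by omega) (by simpa)
    obtain ⟨g, e, -⟩ := h A A' B B' hA a2 a1 hB b2 b1
    exact ⟨g, e⟩
  · intro A B hA hB
    obtain ⟨A', -, a1, a2⟩ := exists_between (S := ⊥) (T := A) bot_le (k := k) (by simp) (by omega)
    obtain ⟨B', -, b1, b2⟩ := exists_between (S := ⊥) (T := B) bot_le (k := k) (by simp) (by omega)
    obtain ⟨g, -, e⟩ := h A' A B' B a2 hA a1 b2 hB b1
    exact ⟨g, e⟩

/-- all transvections of every plane are induced -/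
theorem plane_tv [Fintype F] [Finite V] [Finite H] (hinj : Function.Injective ρ) {p : ℕ}
    (hp : p.Prime) [CharP F p] (hpn : p < finrank F V) (hn : 3 ≤ finrank F V) (h13 : Tr2 ρ 1 3)
    (h23 : Tr2 ρ 2 3) (hpH : p ∣ Nat.card H) {E : Submodule F V} (hE : finrank F E = 3) {x : V}
    (hx : x ∈ E) {φ : V →ₗ[F] F} (hφ : φ x = 0) : LocTv ρ E x φ := by
  have : Fact p.Prime := ⟨hp⟩
  obtain ⟨u, hu⟩ := exists_prime_orderOf_dvd_card' p hpH
  obtain ⟨π, x₀, φ₀, a1, a2, ⟨v, hv, a3⟩, a4, a5, w, hw⟩ := exists_loc (ρ := ρ) hp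
    (orderOf_dvd_iff_pow_eq_one.mp (by rw [hu]) : u ^ p = 1) (by
      intro h
      have : u = 1 := hinj (by rw [h, map_one])
      rw [this, orderOf_one] at hu; exact hp.ne_one hu.symm) (Or.inr ⟨rfl, hpn⟩)
  obtain ⟨g, hg⟩ := (tr1_of_tr2 h23 (by norm_num) hn).2 π E a1 hE
  have hx1 : ρ g x₀ ∈ E := hg ▸ ⟨x₀, a4, rfl⟩
  have hw' : ∀ y ∈ E, ρ (g * w * g⁻¹) y = y + φ₀ (ρ g⁻¹ y) • ρ g x₀ := by
    rw [← hg]
    rintro _ ⟨y, hy, rfl⟩
    rw [rho_mul, rho_inv, rho_mul, hw y hy, map_add, map_smul]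
  have hT : HasTv (resE ρ E) := by
    refine ⟨⟨ρ g x₀, hx1⟩, (φ₀.comp (ρ g⁻¹)).comp E.subtype, ?_, ?_, ?_,
      ⟨g * w * g⁻¹, fun y hy => ?_⟩, fun y => Subtype.ext (hw' y y.2)⟩
    · intro h
      exact a2 (rho_inj (ρ := ρ) g (by simpa using congrArg Subtype.val h))
    · intro h
      have := LinearMap.congr_fun h ⟨ρ g v, hg ▸ ⟨v, hv, rfl⟩⟩
      simp only [LinearMap.comp_apply, Submodule.subtype_apply, rho_inv] at this
      exact a3 this
    · simp only [LinearMap.comp_apply, Submodule.subtype_apply, rho_inv, a5]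
    · rw [hw' y hy]; exact E.add_mem hy (E.smul_mem _ hx1)
  obtain ⟨-, h, hh⟩ := all_tv' (tr1_resE h13 hE) (tr1_resE h23 hE)
    (by rw [hE]; exact tr1_resE h23 hE) (by omega) hT ⟨x, hx⟩ (φ.comp E.subtype) hφ
  exact ⟨hx, hφ, h, fun y hy => congrArg Subtype.val (hh ⟨y, hy⟩)⟩

theorem flagTv_of_plane [FiniteDimensional F V]
    (h : ∀ (E : Submodule F V), finrank F E = 3 → ∀ x ∈ E, ∀ φ : V →ₗ[F] F, φ x = 0 →
      LocTv ρ E x φ) : FlagTv ρ := by
  intro x l π _ hxl hl h2 h3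
  obtain ⟨v, hv, hv'⟩ : ∃ v ∈ π, v ∉ l := by
    by_contra hn
    push Not at hn
    have := Submodule.finrank_mono (show π ≤ l from hn)
    omega
  obtain ⟨φ, a1, a2⟩ := exists_fun hv'
  exact ⟨φ, h π h3 x (hl hxl) φ (a2 x hxl), ⟨v, hv, by simp [a1]⟩, a2⟩

end Cfsg.Agent.R3
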