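import Cfsg.Agent.R3.G

/-! Two-row constituents: common part and the Steiner case. -/

set_option autoImplicit false

namespace Cfsg.Agent.R3

open Module
open scoped Pointwise

theorem dvd_of_const {α β : Type*} [Finite α] [Finite β] (S : Set α) (T : Set β) (R : α → β → Prop)
    {a : ℕ} (ha : ∀ x ∈ S, {y | y ∈ T ∧ R x y}.ncard = a)
    (hb : ∀ y ∈ T, ∀ y' ∈ T, {x | x ∈ S ∧ R x y'}.ncard = {x | x ∈ S ∧ R x y}.ncard) :
    T.ncard ∣ S.ncard * a := by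
  rcases T.eq_empty_or_nonempty with rfl | ⟨y, hy⟩
  · exact Dvd.intro 0 (dc S ∅ R ha (b := 0) (by simp)).symm
  · exact Dvd.intro _ (dc S T R ha (hb y hy)).symm

theorem exists_avoid {α β : Type*} [Finite α] [Finite β] {S : Set α} {T : Set β} (f : α → β)
    (h : S.ncard < T.ncard) : ∃ y ∈ T, ∀ x ∈ S, f x ≠ y := by
  obtain ⟨y, hy, h'⟩ := exists_of_ncard_lt ((Set.ncard_image_le (f := f) (Set.toFinite S)).trans_lt h)
  exact ⟨y, hy, fun x hx e => h' ⟨x, hx, e⟩⟩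

variable {F V : Type*} [Field F] [Fintype F] [AddCommGroup V] [Module F V] [Finite V]

local notation "q" => Fintype.card F

theorem exists_hp_not {A B X : Submodule F V} (hA : A ≤ B) (hX : X ≤ B) (h : ¬ X ≤ A) :
    ∃ P, A ≤ P ∧ P ≤ B ∧ dm P + 1 = dm B ∧ ¬ X ≤ P := by
  have h1 := dm_lt_of_not_le (le_sup_left : A ≤ A ⊔ X) fun h' => h (le_sup_right.trans h')
  have h2 := dm_mono (sup_le hA hX)
  have h3 := card_dn' hA (k := dm B - 1) (m := dm B - dm A) (by omega) (by omega)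
  have h4 := card_dn' (sup_le hA hX) (k := dm B - 1) (m := dm B - dm (A ⊔ X)) (by omega) (by omega)
  obtain ⟨P, ⟨a, b, c⟩, d⟩ := exists_of_ncard_lt (h4.trans_lt ((θ_lt one_le_q (by omega)).trans_eq
    h3.symm))
  exact ⟨P, a, b, by omega, fun e => d ⟨sup_le a e, b, c⟩⟩

theorem card_co2 {O E : Submodule F V} (h : O ≤ E) {k m : ℕ} (hk : k + 2 = dm E)
    (hm : dm E = dm O + (m + 1)) :
    {D | O ≤ D ∧ D ≤ E ∧ dm D = k}.ncard * θ q 2 = θ q (m + 1) * θ q m := by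
  rw [← card_dn' h (k := k + 1) (by omega) hm]
  refine dc _ _ (fun D W => D ≤ W) ?_ ?_
  · rintro D ⟨a, b, c⟩
    rw [← card_up' b (k := k + 1) (m := 2) (by omega) (by omega)]
    congr 1; ext P
    exact ⟨fun h => ⟨h.2, h.1.2⟩, fun h => ⟨⟨a.trans h.1, h.2⟩, h.1⟩⟩
  · rintro W ⟨a, b, c⟩
    rw [← card_dn' a (k := k) (m := m) (by omega) (by omega)]
    congr 1; ext P
    exact ⟨fun h => ⟨h.1.1, h.2, h.1.2.2⟩, fun h => ⟨⟨h.1, h.2.1.trans b, h.2.2⟩, h.2.1⟩⟩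

theorem card_co2' {O W E : Submodule F V} (h : O ≤ W) (h' : W ≤ E) {k m : ℕ} (hk : k + 1 = dm W)
    (hE : k + 2 = dm E) (hm : dm W = dm O + (m + 1)) :
    {D | D ∈ {D | O ≤ D ∧ D ≤ E ∧ dm D = k} ∧ ¬ D ≤ W}.ncard * θ q 2 =
      q ^ 2 * (θ q (m + 1) * θ q m) := by
  have h1 := card_co2 (h.trans h') (m := m + 1) hE (by omega)
  have h2 : {D | D ∈ {D | O ≤ D ∧ D ≤ E ∧ dm D = k} ∧ D ≤ W}.ncard = θ q (m + 1) := by
    rw [← card_dn' h hk hm]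
    congr 1; ext P
    exact ⟨fun h => ⟨h.1.1, h.2, h.1.2.2⟩, fun h => ⟨⟨h.1, h.2.1.trans h', h.2.2⟩, h.2.1⟩⟩
  rw [← ncard_split _ (· ≤ W), h2, show m + 1 + 1 = 2 + m by ring, θ_add 2 m] at h1
  linarith

theorem card_top {E : Submodule F V} {k m : ℕ} (hk : k = dm E + 1) (hm : finrank F V = dm E + m) :
    {T | E ≤ T ∧ dm T = k}.ncard = θ q m := by
  rw [← card_up' (le_top : E ≤ ⊤) hk (by rw [dm_top, hm])]; simp

omit [Fintype F] [Finite V] in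
theorem le_fix {Γ : Type*} [Group Γ] [DistribMulAction Γ V] [SMulCommClass Γ F V] {g : Γ}
    {O : Submodule F V} (h : g • O = O) (D : Submodule F V) : O ≤ g • D ↔ O ≤ D := by
  conv_lhs => rw [← h, smul_le_smul]

omit [Fintype F] [Finite V] in
theorem fix_le {Γ : Type*} [Group Γ] [DistribMulAction Γ V] [SMulCommClass Γ F V] {g : Γ}
    {O : Submodule F V} (h : g • O = O) (D : Submodule F V) : g • D ≤ O ↔ D ≤ O := by
  conv_lhs => rw [← h, smul_le_smul]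

/-- the data of the two-row case -/
structure St (Γ : Type*) [Group Γ] [DistribMulAction Γ V] [SMulCommClass Γ F V]
    (C : Submodule F V → Prop) (O : Submodule F V) (U : Submodule F V → Submodule F V)
    (i k d n : ℕ) : Prop where
  hC : ∀ (g : Γ) W, C (g • W) ↔ C W
  hO : dm O = i
  hn : finrank F V = n
  ik : i ≤ k
  nk : 2 * k + 5 ≤ n + i
  hU : ∀ D, O ≤ D → dm D = k + 1 → Is C D (U D)
  hd : ∀ D, O ≤ D → dm D = k + 1 → dm (U D) = k + 1 + d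

namespace St
variable {Γ : Type*} [Group Γ] [DistribMulAction Γ V] [SMulCommClass Γ F V]
  {C : Submodule F V → Prop} {O : Submodule F V} {U : Submodule F V → Submodule F V}
  {i k d n : ℕ} (s : St Γ C O U i k d n) {D D' D'' D0 W E : Submodule F V}
include s

omit [Fintype F] [Finite V] in
theorem le (h1 : O ≤ D) (h2 : dm D = k + 1) : D ≤ U D := (s.hU D h1 h2).1

omit [Fintype F] [Finite V] in
theorem iff (h1 : O ≤ D) (h2 : dm D = k + 1) (h3 : D ≤ W) (h4 : dm W = k + 2) : C W ↔ W ≤ U D :=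
  (s.hU D h1 h2).2 W h3 (by omega)

omit [Fintype F] in
theorem smul {g : Γ} (hg : g • O = O) (h1 : O ≤ D) (h2 : dm D = k + 1) : U (g • D) = g • U D :=
  (s.hU _ (by rw [← hg]; simpa using h1) (by simpa using h2)).unique ((s.hU D h1 h2).smul s.hC g)

omit [Fintype F] in
theorem sym (h0 : O ≤ D0) (d0 : dm D0 = k) (h1 : D0 ≤ D) (d1 : dm D = k + 1) (h2 : D0 ≤ D')
    (d2 : dm D' = k + 1) (h : D' ≤ U D) : D ≤ U D' := by
  by_cases e : D = D'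
  · subst e; exact h
  have h3 := pt_sup h1 (by omega) h2 (not_le_of_ne (by omega) e)
  exact le_sup_left.trans ((s.iff (h0.trans h2) d2 le_sup_right (by omega)).1
    ((s.iff (h0.trans h1) d1 le_sup_left (by omega)).2 (sup_le (s.le (h0.trans h1) d1) h)))

omit [Fintype F] in
theorem pencil (h0 : O ≤ D0) (d0 : dm D0 = k) (h1 : D0 ≤ D) (d1 : dm D = k + 1) (h2 : D0 ≤ D')
    (d2 : dm D' = k + 1) (h3 : D0 ≤ D'') (d3 : dm D'' = k + 1) (h : D'' ≤ D ⊔ D') :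
    U D ⊓ U D' ≤ U D'' :=
  le_of_pts (le_inf (h1.trans (s.le (h0.trans h1) d1)) (h2.trans (s.le (h0.trans h2) d2)))
    (h3.trans (s.le (h0.trans h3) d3)) fun P a b c =>
      s.sym h0 d0 a (by omega) h3 d3 (h.trans (sup_le
        (s.sym h0 d0 h1 d1 a (by omega) (b.trans inf_le_left))
        (s.sym h0 d0 h2 d2 a (by omega) (b.trans inf_le_right))))

theorem parity : Even (n - k) ∨ Even d := by
  have := s.hO; have := s.hn; have := s.ik; have := s.nk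
  obtain ⟨D0, h0, d0⟩ := exists_above O (k := k) (by omega) (by omega)
  have := dc {D | D0 ≤ D ∧ dm D = k + 1} {W | D0 ≤ W ∧ dm W = k + 2 ∧ C W} (fun D W => D ≤ W)
    (a := θ q d) (b := θ q 2) ?_ ?_
  · rw [card_top (m := n - k) (by omega) (by omega)] at this
    exact even_of_θ_two_dvd one_le_q (Dvd.intro_left _ this.symm)
  · rintro D ⟨a, b⟩
    rw [← card_up' (s.le (h0.trans a) b) (k := k + 2) (by omega)
      (by rw [s.hd D (h0.trans a) b, b])]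
    congr 1; ext W
    exact ⟨fun h => ⟨h.2, (s.iff (h0.trans a) b h.2 h.1.2.1).1 h.1.2.2, h.1.2.1⟩,
      fun h => ⟨⟨a.trans h.1, h.2.2, (s.iff (h0.trans a) b h.1 h.2.2).2 h.2.1⟩, h.1⟩⟩
  · rintro W ⟨a, b, -⟩
    rw [← card_up' a (k := k + 1) (m := 2) (by omega) (by omega)]
    congr 1; ext D
    exact ⟨fun h => ⟨h.1.1, h.2, h.1.2⟩, fun h => ⟨⟨h.1, h.2.2⟩, h.2.1⟩⟩

theorem ratio (h1 : O ≤ W) (h2 : dm W = k + 2) {d' : ℕ}
    (hd : ∀ D, O ≤ D → D ≤ W → dm D = k + 1 → dm (U D ⊔ W) = k + 2 + d')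
    (tr : ∀ E E', W ≤ E → W ≤ E' → dm E = k + 3 → dm E' = k + 3 →
      Eqv Γ (O, W, E, E) (O, W, E', E')) : d' = 0 ∨ n ≤ k + 2 + d' := by
  have := s.hO; have := s.hn; have := s.ik; have := s.nk
  have := dvd_of_const {D | O ≤ D ∧ D ≤ W ∧ dm D = k + 1} {E | W ≤ E ∧ dm E = k + 3}
    (fun D E => E ≤ U D ⊔ W) (a := θ q d') ?_ ?_
  · rw [card_top (m := n - k - 2) (by omega) (by omega),
      card_dn' h1 (m := k + 2 - i) (by omega) (by omega)] at this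
    by_contra hc
    exact θ_not_dvd_mul two_le_q (by omega) (by omega) (by omega) (by omega) this
  · rintro D ⟨a, b, c⟩
    rw [← card_up' (le_sup_right : W ≤ U D ⊔ W) (k := k + 3) (by omega) (by rw [hd D a b c, h2])]
    congr 1; ext E
    exact ⟨fun h => ⟨h.1.1, h.2, h.1.2⟩, fun h => ⟨⟨h.1, h.2.2⟩, h.2.1⟩⟩
  · rintro E ⟨a, b⟩ E' ⟨a', b'⟩
    obtain ⟨g, g1, g2, rfl, -⟩ := eqv_iff.1 (tr E E' a a' b b')
    refine ncard_eq_of_smul g fun D => ?_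
    have e1 := le_fix g1 D
    have e2 := fix_le g2 D
    simp only [Set.mem_ofPred_eq, e1, e2, dm_smul]
    refine and_congr_right fun h => ?_
    rw [s.smul g1 h.1 h.2.2, ← smul_le_smul g E, smul_sup, g2]

omit [Fintype F] in
theorem inf_of_not (h1 : O ≤ D) (h2 : dm D = k + 1) (h3 : D ≤ W) (h4 : dm W = k + 2) (h : ¬ C W) :
    W ⊓ U D = D := pt_inf h3 (by omega) (s.le h1 h2) (mt (s.iff h1 h2 h3 h4).2 h)

end St

namespace St
variable {Γ : Type*} [Group Γ] [DistribMulAction Γ V] [SMulCommClass Γ F V]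
  {C : Submodule F V → Prop} {O : Submodule F V} {U : Submodule F V → Submodule F V}
  {i k n : ℕ} (s : St Γ C O U i k 1 n) {D D' W W' E : Submodule F V}
include s

omit [Fintype F] in
theorem eqU (h1 : O ≤ D) (h2 : dm D = k + 1) (h3 : D ≤ W) (h4 : dm W = k + 2) (h : C W) :
    W = U D := eq_of_dm ((s.iff h1 h2 h3 h4).1 h) (by rw [s.hd D h1 h2, h4])

omit [Fintype F] [Finite V] in
theorem cU (h1 : O ≤ D) (h2 : dm D = k + 1) : C (U D) :=
  (s.iff h1 h2 (s.le h1 h2) (s.hd D h1 h2)).2 le_rfl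

omit [Fintype F] in
theorem uniq (h1 : O ≤ W) (h2 : dm W = k + 2) (h3 : C W) (h4 : W ≤ E) (h1' : O ≤ W')
    (h2' : dm W' = k + 2) (h3' : C W') (h4' : W' ≤ E) (hE : dm E = k + 3) : W = W' := by
  by_contra hc
  have := hp_inf h4' (by omega) h4 (not_le_of_ne (by omega) hc)
  exact hc ((s.eqU (le_inf h1 h1') (by omega) inf_le_left h2 h3).trans
    (s.eqU (le_inf h1 h1') (by omega) inf_le_right h2' h3').symm)

omit [Fintype F] in
theorem sup_dm (h1 : O ≤ D) (h2 : dm D = k + 1) (h3 : D ≤ E) (h : ¬ U D ≤ E) :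
    dm (U D ⊔ E) = dm E + 1 := pt_sup (s.le h1 h2) (by rw [s.hd D h1 h2, h2]) h3 h

theorem pure (h1 : O ≤ W) (h2 : dm W = k + 2) (h3 : ¬ C W) : ∃ E, W ≤ E ∧ dm E = k + 3 ∧
    ∀ W', O ≤ W' → W' ≤ E → dm W' = k + 2 → ¬ C W' := by
  have := s.hO; have := s.hn; have := s.ik; have := s.nk
  obtain ⟨E, ⟨a, b⟩, c⟩ := exists_avoid (S := {D | O ≤ D ∧ D ≤ W ∧ dm D = k + 1})
    (T := {E | W ≤ E ∧ dm E = k + 3}) (fun D => U D ⊔ W) (by
      rw [card_top (m := n - k - 2) (by omega) (by omega),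
        card_dn' h1 (m := k + 2 - i) (by omega) (by omega)]
      exact θ_lt one_le_q (by omega))
  refine ⟨E, a, b, fun W' e1 e2 e3 e4 => ?_⟩
  have e5 : ¬ W' ≤ W := not_le_of_ne (by omega) fun e => h3 (e ▸ e4)
  have e6 := hp_inf a (by omega) e2 e5
  refine c (W' ⊓ W) ⟨le_inf e1 h1, inf_le_right, by omega⟩ ?_
  rw [← s.eqU (le_inf e1 h1) (by omega) inf_le_left e3 e4]
  exact hp_sup a (by omega) e2 e5

theorem steiner_tr {W1 W2 : Submodule F V} (a1 : O ≤ W1) (b1 : dm W1 = k + 2) (c1 : C W1)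
    (a2 : O ≤ W2) (b2 : dm W2 = k + 2) (c2 : ¬ C W2) (hn : 2 * k + 6 ≤ n + i)
    (H : NN Γ (Fl F V i (k + 2) (k + 3) (k + 4)) ≤ 5) (e1 : W1 ≤ E) (e2 : dm E = k + 3) :
    ∀ T T', E ≤ T → dm T = k + 4 → E ≤ T' → dm T' = k + 4 →
      Eqv Γ (O, W1, E, T) (O, W1, E, T') := by
  classical
  have hO := s.hO; have := s.hn; have := s.ik
  let I2 : Submodule F V → Submodule F V → Prop := fun O E =>
    ∃ W', O ≤ W' ∧ W' ≤ E ∧ dm W' = k + 2 ∧ C W'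
  let I3 : Submodule F V → Submodule F V → Submodule F V → Submodule F V → Prop := fun O W E T =>
    ∃ W', O ≤ W' ∧ W' ≤ T ∧ dm W' = k + 2 ∧ C W' ∧ ¬ W' ≤ E ∧ dm (W' ⊓ W) = k + 1
  let inv : Submodule F V × Submodule F V × Submodule F V × Submodule F V → ℕ := fun x =>
    if C x.2.1 then 4 else if I2 x.1 x.2.2.1 then (if I3 x.1 x.2.1 x.2.2.1 x.2.2.2 then 0 else 1)
      else (if I3 x.1 x.2.1 x.2.2.1 x.2.2.2 then 2 else 3)
  have hinv : ∀ (g : Γ) x, inv (g • x) = inv x := by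
    rintro g ⟨A, B, E, T⟩
    have e2 : I2 (g • A) (g • E) ↔ I2 A E := by
      simp only [I2]; rw [(MulAction.surjective g).exists]; simp [s.hC]
    have e3 : I3 (g • A) (g • B) (g • E) (g • T) ↔ I3 A B E T := by
      simp only [I3]; rw [(MulAction.surjective g).exists]; simp [s.hC, ← smul_inf]
    simp only [inv, Prod.smul_mk, s.hC, e2, e3]
  have key : ∀ E, W2 ≤ E → dm E = k + 3 → (∃ D, O ≤ D ∧ D ≤ W2 ∧ dm D = k + 1 ∧ ¬ U D ≤ E) →
      (∃ T, E ≤ T ∧ dm T = k + 4 ∧ I3 O W2 E T) ∧ ∃ T, E ≤ T ∧ dm T = k + 4 ∧ ¬ I3 O W2 E T := by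
    rintro E e1 e2 ⟨D, d1, d2, d3, d4⟩
    constructor
    · refine ⟨U D ⊔ E, le_sup_right, by rw [s.sup_dm d1 d3 (d2.trans e1) d4, e2], U D,
        d1.trans (s.le d1 d3), le_sup_left, s.hd D d1 d3, s.cU d1 d3, d4, ?_⟩
      rw [inf_comm, s.inf_of_not d1 d3 d2 b2 c2, d3]
    · obtain ⟨T, ⟨a, b⟩, c⟩ := exists_avoid (S := {D | O ≤ D ∧ D ≤ W2 ∧ dm D = k + 1})
        (T := {T | E ≤ T ∧ dm T = k + 4}) (fun D => U D ⊔ E) (by
          rw [card_top (m := n - k - 3) (by omega) (by omega),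
            card_dn' a2 (m := k + 2 - i) (by omega) (by omega)]
          exact θ_lt one_le_q (by omega))
      refine ⟨T, a, b, ?_⟩
      rintro ⟨W', f1, f2, f3, f4, f5, f6⟩
      refine c (W' ⊓ W2) ⟨le_inf f1 a2, inf_le_right, f6⟩ ?_
      rw [← s.eqU (le_inf f1 a2) f6 inf_le_left f3 f4]
      exact hp_sup a (by omega) f2 f5
  obtain ⟨D, d1, d2, d3⟩ := exists_btw a2 (k := k + 1) (by omega) (by omega)
  obtain ⟨D', d1', d2', d3', d4'⟩ := exists_hp_not a2 d2 fun h => by have := dm_mono h; omega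
  obtain ⟨Ep, p1, p2, p3⟩ := s.pure a2 b2 c2
  have m1 : ¬ U D ≤ W2 := not_le_of_ne (by rw [s.hd D d1 d3, b2]) fun e => c2 (e ▸ s.cU d1 d3)
  have m2 := s.sup_dm d1 d3 d2 m1
  have m3 : I2 O (U D ⊔ W2) := ⟨U D, d1.trans (s.le d1 d3), le_sup_left, s.hd D d1 d3, s.cU d1 d3⟩
  have p4 : ¬ I2 O Ep := fun ⟨W', f1, f2, f3, f4⟩ => p3 W' f1 f2 f3 f4
  obtain ⟨⟨T0, t1, t2, t3⟩, T1, u1, u2, u3⟩ := key (U D ⊔ W2) le_sup_right (by omega)
    ⟨D', d1', d2', by omega, fun h => d4' (by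
      have e := s.uniq (d1.trans (s.le d1 d3)) (s.hd D d1 d3) (s.cU d1 d3) le_sup_left
        (d1'.trans (s.le d1' (by omega))) (s.hd D' d1' (by omega)) (s.cU d1' (by omega)) h (by omega)
      rw [← s.inf_of_not d1' (by omega) d2' b2 c2, ← e]
      exact le_inf d2 (s.le d1 d3))⟩
  obtain ⟨⟨T2, v1, v2, v3⟩, T3, w1, w2, w3⟩ := key Ep p1 p2 ⟨D, d1, d2, d3, fun h =>
    p3 _ (d1.trans (s.le d1 d3)) h (s.hd D d1 d3) (s.cU d1 d3)⟩
  intro T T' f1 f2 f3 f4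
  have m4 : dm (U D ⊔ W2) = k + 3 := m2.trans (by rw [b2])
  refine eqv_of_inv (S := Fl F V i (k + 2) (k + 3) (k + 4)) inv hinv H (fun j hj => ?_)
    ⟨a1, e1, f1, hO, b1, e2, f2⟩ ⟨a1, e1, f3, hO, b1, e2, f4⟩ ((if_pos c1).trans (if_pos c1).symm)
  interval_cases j
  · exact ⟨(O, W2, _, T0), ⟨a2, le_sup_right, t1, hO, b2, m4, t2⟩,
      (if_neg c2).trans ((if_pos m3).trans (if_pos t3))⟩
  · exact ⟨(O, W2, _, T1), ⟨a2, le_sup_right, u1, hO, b2, m4, u2⟩,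
      (if_neg c2).trans ((if_pos m3).trans (if_neg u3))⟩
  · exact ⟨(O, W2, Ep, T2), ⟨a2, p1, v1, hO, b2, p2, v2⟩,
      (if_neg c2).trans ((if_neg p4).trans (if_pos v3))⟩
  · exact ⟨(O, W2, Ep, T3), ⟨a2, p1, w1, hO, b2, p2, w2⟩,
      (if_neg c2).trans ((if_neg p4).trans (if_neg w3))⟩
  · exact ⟨(O, W1, E, T), ⟨a1, e1, f1, hO, b1, e2, f2⟩, if_pos c1⟩

theorem steiner_gen {W1 W2 : Submodule F V} (a1 : O ≤ W1) (b1 : dm W1 = k + 2) (c1 : C W1)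
    (a2 : O ≤ W2) (b2 : dm W2 = k + 2) (c2 : ¬ C W2) (hn : 2 * k + 6 ≤ n + i)
    (H : NN Γ (Fl F V i (k + 2) (k + 3) (k + 4)) ≤ 5) : False := by
  have hO := s.hO; have := s.hn; have := s.ik
  obtain ⟨E, e1, e2⟩ := exists_above W1 (k := k + 3) (by omega) (by omega)
  have tr := s.steiner_tr a1 b1 c1 a2 b2 c2 hn H e1 e2
  have r1 := card_top (E := E) (k := k + 4) (m := n - k - 3) (by omega) (by omega)
  have r2 := card_co2' a1 e1 (k := k + 1) (m := k + 1 - i) (by omega) (by omega) (by omega)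
  have r3 := θ_not_dvd_mul (two_le_q (F := F)) (m := n - k - 3) (a := k + 1 - i + 1) (b := k + 1 - i)
    (by clear r1 r2; omega) (by clear r1 r2; omega) (by clear r1 r2; omega) (by clear r1 r2; omega)
  have r4 : Nat.Coprime (θ q (n - k - 3)) q := θ_coprime_q (by clear r1 r2 r3; omega)
  refine r3 ((r4.pow_right 2).dvd_of_dvd_mul_left ?_)
  rw [← r2, ← r1]
  clear r1 r2 r3 r4
  refine Dvd.dvd.mul_right ((dvd_of_const _ _ (fun D T => U D ≤ T) (a := 1) ?_ ?_).trans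
    (dvd_of_eq (mul_one _))) _
  · rintro D ⟨⟨f1, f2, f3⟩, f4⟩
    have f5 : ¬ U D ≤ E := fun h => f4 ((s.le f1 f3).trans_eq
      (s.uniq (f1.trans (s.le f1 f3)) (s.hd D f1 f3) (s.cU f1 f3) h a1 b1 c1 e1 e2))
    have f6 := s.sup_dm f1 f3 f2 f5
    refine ncard_eq_one_of (U D ⊔ E) ⟨⟨le_sup_right, by omega⟩, le_sup_left⟩ ?_
    rintro T ⟨⟨g1, g2⟩, g3⟩
    exact (eq_of_dm (sup_le g3 g1) (by omega)).symm
  · rintro T ⟨a, b⟩ T' ⟨a', b'⟩
    obtain ⟨g, g1, g2, g3, rfl⟩ := eqv_iff.1 (tr T T' a b a' b')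
    refine ncard_eq_of_smul g fun D => ?_
    have e1 := le_fix g1 D
    have e2 := fix_le g2 D
    have e3 := fix_le g3 D
    simp only [Set.mem_ofPred_eq, e1, e2, e3, dm_smul]
    refine and_congr_right fun h => ?_
    rw [s.smul g1 h.1.1 h.1.2.2, smul_le_smul]

end St


theorem steiner_seven {Γ : Type*} [Group Γ] [DistribMulAction Γ V] [SMulCommClass Γ F V]
    {C : Submodule F V → Prop} {U : Submodule F V → Submodule F V} (s : St Γ C ⊥ U 0 1 1 7)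
    {W1 W2 : Submodule F V} (b1 : dm W1 = 3) (c1 : C W1) (b2 : dm W2 = 3) (c2 : ¬ C W2)
    (H : NN Γ (Fl F V 2 4 6 6) ≤ 5) : False := by
  classical
  have hn := s.hn
  let J1 : Submodule F V → Prop := fun Y => ∃ W, W ≤ Y ∧ dm W = 3 ∧ C W
  let J2 : Submodule F V → Submodule F V → Prop := fun l Y => ∃ W, l ≤ W ∧ W ≤ Y ∧ dm W = 3 ∧ C W
  let inv : Submodule F V × Submodule F V × Submodule F V × Submodule F V → ℕ := fun x =>
    if J1 x.2.1 then (if J2 x.1 x.2.1 then 4 else if J2 x.1 x.2.2.1 then 0 else 1)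
      else (if J2 x.1 x.2.2.1 then 2 else 3)
  have hinv : ∀ (g : Γ) x, inv (g • x) = inv x := by
    rintro g ⟨A, B, E, T⟩
    have e1 : ∀ Y, J1 (g • Y) ↔ J1 Y := fun Y => by
      simp only [J1]; rw [(MulAction.surjective g).exists]; simp [s.hC]
    have e2 : ∀ A E, J2 (g • A) (g • E) ↔ J2 A E := fun A E => by
      simp only [J2]; rw [(MulAction.surjective g).exists]; simp [s.hC]
    simp only [inv, Prod.smul_mk, e1, e2]
  have hJ : ∀ l Y, dm l = 2 → (J2 l Y ↔ U l ≤ Y) := fun l Y h =>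
    ⟨fun ⟨W, a, b, c, d⟩ => s.eqU bot_le h a c d ▸ b,
      fun a => ⟨U l, s.le bot_le h, a, s.hd l bot_le h, s.cU bot_le h⟩⟩
  have key : ∀ l Y, dm l = 2 → l ≤ Y → dm Y = 4 → ¬ U l ≤ Y →
      (∃ Z, Y ≤ Z ∧ dm Z = 6 ∧ J2 l Z) ∧ ∃ Z, Y ≤ Z ∧ dm Z = 6 ∧ ¬ J2 l Z := by
    intro l Y a b c d
    have e := s.sup_dm bot_le a b d
    constructor
    · obtain ⟨Z, z1, z2⟩ := exists_above (U l ⊔ Y) (k := 6) (by omega) (by omega)
      exact ⟨Z, le_sup_right.trans z1, z2, (hJ l Z a).2 (le_sup_left.trans z1)⟩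
    · obtain ⟨Z, z1, -, z3, z4⟩ := exists_hp_not (le_top : Y ≤ ⊤) le_top d
      exact ⟨Z, z1, by rw [dm_top] at z3; omega, mt (hJ l Z a).1 z4⟩
  obtain ⟨Y0, p1, p2, p3⟩ := s.pure bot_le b2 c2
  have p4 : ¬ J1 Y0 := fun ⟨W, a, b, c⟩ => p3 W bot_le a b c
  obtain ⟨l0, -, l1, l2⟩ := exists_btw (bot_le : ⊥ ≤ Y0) (k := 2) (by rw [dm_bot]; omega) (by omega)
  obtain ⟨⟨Z2, v1, v2, v3⟩, Z3, w1, w2, w3⟩ := key l0 Y0 l2 l1 p2 fun h =>
    p3 _ bot_le h (s.hd l0 bot_le l2) (s.cU bot_le l2)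
  obtain ⟨Y, y1, y2⟩ := exists_above W1 (k := 4) (by omega) (by omega)
  have y3 : J1 Y := ⟨W1, y1, b1, c1⟩
  have hN : ∀ l, dm l = 2 → ¬ l ≤ W1 → ¬ U l ≤ Y := fun l a b h => b ((s.le bot_le a).trans_eq
    (s.uniq bot_le (s.hd l bot_le a) (s.cU bot_le a) h bot_le b1 c1 y1 y2))
  obtain ⟨x, -, x1, x2, x3⟩ := exists_pt (bot_le : ⊥ ≤ Y) bot_le
    fun h : Y ≤ W1 => by have := dm_mono h; omega
  rw [dm_bot] at x2
  obtain ⟨l, m0, m1, m2⟩ := exists_btw x1 (k := 2) (by omega) (by omega)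
  have m3 := hN l m2 fun h => x3 (m0.trans h)
  obtain ⟨⟨Z0, t1, t2, t3⟩, Z1, u1, u2, u3⟩ := key l Y m2 m1 y2 m3
  have m4 := mt (hJ l Y m2).1 m3
  obtain ⟨l4, -, n1, n2⟩ := exists_btw (bot_le : ⊥ ≤ W1) (k := 2) (by rw [dm_bot]; omega) (by omega)
  have tr : ∀ m Z m' Z', m ≤ W1 → dm m = 2 → Y ≤ Z → dm Z = 6 → m' ≤ W1 → dm m' = 2 → Y ≤ Z' →
      dm Z' = 6 → Eqv Γ (m, Y, Z, Z) (m', Y, Z', Z') := fun m Z m' Z' f1 f2 f3 f4 f5 f6 f7 f8 =>
    eqv_of_inv inv hinv H (fun j hj => by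
      interval_cases j
      · exact ⟨(l, Y, Z0, Z0), ⟨m1, t1, le_rfl, m2, y2, t2, t2⟩, by simp [inv, y3, m4, t3]⟩
      · exact ⟨(l, Y, Z1, Z1), ⟨m1, u1, le_rfl, m2, y2, u2, u2⟩, by simp [inv, y3, m4, u3]⟩
      · exact ⟨(l0, Y0, Z2, Z2), ⟨l1, v1, le_rfl, l2, p2, v2, v2⟩, by simp [inv, p4, v3]⟩
      · exact ⟨(l0, Y0, Z3, Z3), ⟨l1, w1, le_rfl, l2, p2, w2, w2⟩, by simp [inv, p4, w3]⟩
      · exact ⟨(l4, Y, Z0, Z0), ⟨n1.trans y1, t1, le_rfl, n2, y2, t2, t2⟩, by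
          simp [inv, y3, show J2 l4 Y from ⟨W1, n1, y1, b1, c1⟩]⟩)
      ⟨f1.trans y1, f3, le_rfl, f2, y2, f4, f4⟩ ⟨f5.trans y1, f7, le_rfl, f6, y2, f8, f8⟩
      (by simp [inv, y3, show J2 m Y from ⟨W1, f1, y1, b1, c1⟩,
        show J2 m' Y from ⟨W1, f5, y1, b1, c1⟩])
  have := dvd_of_const {D | D ∈ {D | ⊥ ≤ D ∧ D ≤ Y ∧ dm D = 2} ∧ ¬ D ≤ W1}
    ({m | ⊥ ≤ m ∧ m ≤ W1 ∧ dm m = 2} ×ˢ {Z | Y ≤ Z ∧ Z ≤ ⊤ ∧ dm Z = 6})
    (fun D p => D ⊓ W1 ≤ p.1 ∧ U D ≤ p.2) (a := θ q 2 * θ q 2) ?_ ?_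
  · rw [Set.ncard_prod, card_dn' bot_le (m := 3) (by omega) (by rw [dm_bot]; omega),
      card_dn' le_top (m := 3) (by rw [dm_top]; omega) (by rw [dm_top]; omega), ← mul_assoc,
      card_co2' bot_le y1 (m := 2) (by omega) (by omega) (by rw [dm_bot]; omega)] at this
    have h1 : θ q 3 ∣ q ^ 2 * (θ q 2 * θ q 2) :=
      Nat.dvd_of_mul_dvd_mul_left (θ_pos one_le_q (by omega : 0 < 3)) (this.trans (dvd_of_eq (by ring)))
    exact θ_not_dvd_mul two_le_q (by omega) (by omega) (by omega) (by omega)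
      (((θ_coprime_q (by omega)).pow_right 2).dvd_of_dvd_mul_left h1)
  · rintro D ⟨⟨-, f2, f3⟩, f4⟩
    have f5 := hp_inf y1 (by omega) f2 f4
    have f6 := s.sup_dm bot_le f3 f2 (hN D f3 f4)
    rw [← card_up' (inf_le_right : D ⊓ W1 ≤ W1) (k := 2) (m := 2) (by omega) (by omega)]
    nth_rewrite 2 [card_up' (inf_le_right : D ⊓ W1 ≤ W1) (k := 2) (m := 2) (by omega) (by omega)]
    rw [← card_up' (le_top : U D ⊔ Y ≤ ⊤) (k := 6) (m := 2) (by omega) (by rw [dm_top]; omega),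
      ← Set.ncard_prod]
    congr 1; ext ⟨m, Z⟩
    simp only [Set.mem_ofPred_eq, Set.mem_prod, sup_le_iff, bot_le]
    tauto
  · rintro ⟨m, Z⟩ ⟨⟨-, a, b⟩, c, -, d⟩ ⟨m', Z'⟩ ⟨⟨-, a', b'⟩, c', -, d'⟩
    obtain ⟨g, rfl, g2, rfl, -⟩ := eqv_iff.1 (tr m Z m' Z' a b c d a' b' c' d')
    have g3 : g • W1 = W1 := s.uniq bot_le (by simpa using b1) ((s.hC _ _).2 c1)
      (by rw [← g2]; simpa using y1) bot_le b1 c1 y1 y2
    refine ncard_eq_of_smul g fun D => ?_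
    have e2 := fix_le g3 D
    have e3 := fix_le g2 D
    simp only [Set.mem_ofPred_eq, e2, e3, dm_smul, bot_le]
    refine and_congr_right fun h => ?_
    rw [s.smul (smul_bot g) bot_le h.1.2.2, smul_le_smul, ← smul_le_smul g (D ⊓ W1), smul_inf, g3]

end Cfsg.Agent.R3
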