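import Cfsg.Agent.R3.TwoA

/-! Two-row constituents: the hyperplane case and the conclusion. -/

set_option autoImplicit false

namespace Cfsg.Agent.R3

open Module
open scoped Pointwise

variable {F V : Type*} [Field F] [Fintype F] [AddCommGroup V] [Module F V] [Finite V]

local notation "q" => Fintype.card F

/-- `Y` lies in the polar space of `W` -/
def Pr (C : Submodule F V → Prop) (k : ℕ) (O W Y : Submodule F V) : Prop :=
  ∀ D X, O ≤ D → D ≤ W → dm D = k + 1 → Is C D X → Y ≤ X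

section Inv
variable {Γ : Type*} [Group Γ] [DistribMulAction Γ V] [SMulCommClass Γ F V]
  {C : Submodule F V → Prop} (hC : ∀ (g : Γ) W, C (g • W) ↔ C W)
include hC

omit [Fintype F] [Finite V] in
theorem is_smul (g : Γ) (D X : Submodule F V) : Is C (g • D) (g • X) ↔ Is C D X :=
  ⟨fun h => by simpa using h.smul hC g⁻¹, fun h => h.smul hC g⟩

omit [Fintype F] [Finite V] in
theorem pr_smul (g : Γ) (k : ℕ) (O W Y : Submodule F V) :
    Pr C k (g • O) (g • W) (g • Y) ↔ Pr C k O W Y := by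
  unfold Pr
  rw [(MulAction.surjective g).forall]
  refine forall_congr' fun D => ?_
  rw [(MulAction.surjective g).forall]
  simp [is_smul hC]

end Inv

namespace St
variable {Γ : Type*} [Group Γ] [DistribMulAction Γ V] [SMulCommClass Γ F V]
  {C : Submodule F V → Prop} {O : Submodule F V} {U : Submodule F V → Submodule F V}
  {i k d n : ℕ} (s : St Γ C O U i k d n) {D D' D0 W E : Submodule F V}
include s

omit [Fintype F] in
theorem pr_iff (W Y : Submodule F V) :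
    Pr C k O W Y ↔ ∀ D, O ≤ D → D ≤ W → dm D = k + 1 → Y ≤ U D :=
  ⟨fun h D a b c => h D _ a b c (s.hU D a c), fun h D _ a b c e => (s.hU D a c).unique e ▸ h D a b c⟩

variable (hh : k + 2 + d = n)
include hh

omit [Fintype F] in
theorem inj (h0 : O ≤ D0) (d0 : dm D0 = k) (h1 : D0 ≤ D) (d1 : dm D = k + 1) (h2 : D0 ≤ D')
    (d2 : dm D' = k + 1) (h : D ≠ D') : dm (U D ⊓ U D') + 2 = n := by
  have hn := s.hn
  have e1 := s.hd D (h0.trans h1) d1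
  have e2 := s.hd D' (h0.trans h2) d2
  have e3 : ¬ U D ≤ U D' := fun e => by
    obtain ⟨P, p1, -, p2, p3⟩ := exists_pt (le_top : D0 ≤ ⊤) (h1.trans (s.le (h0.trans h1) d1))
      fun h => by have := dm_mono h; rw [dm_top] at this; omega
    have e4 := pt_sup h1 (by omega) h2 (not_le_of_ne (by omega) h)
    have e5 := s.hd P (h0.trans p1) (by omega)
    have e6 := dm_sup_inf (D ⊔ D') (U P)
    have e7 := dm_le (D ⊔ D' ⊔ U P)
    obtain ⟨X, x1, x2, x3⟩ := exists_btw (le_inf (h1.trans le_sup_left)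
      (p1.trans (s.le (h0.trans p1) (by omega))) : D0 ≤ (D ⊔ D') ⊓ U P) (k := k + 1) (by omega)
      (by omega)
    have e8 := s.pencil h0 d0 h1 d1 h2 d2 x1 x3 (x2.trans inf_le_left)
    rw [inf_eq_left.2 e] at e8
    refine p3 ?_
    rw [eq_of_dm e8 (by rw [s.hd X (h0.trans x1) x3, e1])]
    exact s.sym h0 d0 p1 (by omega) x1 x3 (x2.trans inf_le_right)
  have := hp_inf (le_top : U D' ≤ ⊤) (by rw [dm_top]; omega) le_top e3
  omega

theorem codim (h2 : dm W = k + 2) (t : ℕ) : ∀ A, O ≤ A → A ≤ W → dm A + t = k + 2 →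
    ∃ Y, n ≤ dm Y + t ∧ ∀ D, A ≤ D → D ≤ W → dm D = k + 1 → Y ≤ U D := by
  induction t with
  | zero =>
    intro A _ _ h
    exact ⟨⊤, by rw [dm_top, s.hn]; rfl, fun D a _ c => by have := dm_mono a; omega⟩
  | succ t ih =>
    intro A a1 a2 a3
    obtain ⟨B, b1, b2, b3⟩ := exists_btw a2 (k := dm A + 1) (by omega) (by omega)
    obtain ⟨Y, y1, y2⟩ := ih B (a1.trans b1) b2 (by omega)
    obtain ⟨P, p1, p2, p3, p4⟩ := exists_hp_not a2 b2 fun h => by have := dm_mono h; omega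
    have p5 : dm P = k + 1 := by omega
    refine ⟨Y ⊓ U P, ?_, fun D d1 d2 d3 => ?_⟩
    · have := dm_sup_inf Y (U P)
      have := dm_le (Y ⊔ U P)
      have := s.hd P (a1.trans p1) p5
      have := s.hn
      omega
    by_cases e1 : B ≤ D
    · exact inf_le_left.trans (y2 D e1 d2 d3)
    by_cases e2 : D = P
    · exact e2 ▸ inf_le_right
    have e3 := hp_inf p2 p3 d2 (not_le_of_ne (by omega) e2)
    have e4 := pt_sup b1 b3 (le_inf d1 p1) fun h => e1 (h.trans inf_le_left)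
    have e5 : dm (B ⊔ D ⊓ P) = k + 1 := by omega
    have e6 : B ⊔ D ⊓ P ≤ W := sup_le b2 (inf_le_left.trans d2)
    refine (inf_le_inf_right _ (y2 _ le_sup_left e6 e5)).trans (s.pencil (a1.trans (le_inf d1 p1))
      (by omega) le_sup_right e5 inf_le_right p5 inf_le_left d3 ?_)
    rw [hp_sup p2 p3 e6 fun h => p4 (le_sup_left.trans h)]
    exact d2

theorem exists_R (h1 : O ≤ W) (h2 : dm W = k + 2) : ∃ R, (∀ Y, Y ≤ R ↔ Pr C k O W Y) ∧
    (∀ D, O ≤ D → D ≤ W → dm D = k + 1 → R ≤ U D) ∧ O ≤ R ∧ n + i ≤ dm R + (k + 2) ∧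
      dm R + 2 ≤ n := by
  have hO := s.hO; have ik := s.ik
  have key : ∀ Y, Y ≤ sInf {X | ∃ D, O ≤ D ∧ D ≤ W ∧ dm D = k + 1 ∧ X = U D} ↔
      ∀ D, O ≤ D → D ≤ W → dm D = k + 1 → Y ≤ U D := fun Y => by
    rw [le_sInf_iff]
    exact ⟨fun h D a b c => h _ ⟨D, a, b, c, rfl⟩, by rintro h _ ⟨D, a, b, c, rfl⟩; exact h D a b c⟩
  have k2 := (key _).1 le_rfl
  refine ⟨_, fun Y => (key Y).trans (s.pr_iff W Y).symm, k2,
    (key _).2 fun D a _ c => a.trans (s.le a c), ?_, ?_⟩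
  · obtain ⟨Y, y1, y2⟩ := s.codim hh h2 (k + 2 - i) O le_rfl h1 (by omega)
    have := dm_mono ((key Y).2 y2)
    omega
  · obtain ⟨A, a1, a2, a3⟩ := exists_btw h1 (k := k) (by omega) (by omega)
    obtain ⟨D, d1, d2, d3⟩ := exists_btw a2 (k := k + 1) (by omega) (by omega)
    obtain ⟨P, p1, p2, p3, p4⟩ := exists_pt a2 d1 fun h => by have := dm_mono h; omega
    have p5 : dm P = k + 1 := by omega
    rw [← s.inj hh a1 a3 d1 d3 p1 p5 fun h => p4 h.ge]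
    exact Nat.add_le_add_right (dm_mono (le_inf (k2 D (a1.trans d1) d2 d3) (k2 P (a1.trans p1) p2 p5))) _

theorem rad (h1 : O ≤ W) (h2 : dm W = k + 2) (h3 : ¬ C W) (h4 : W ≤ E) (h5 : dm E = k + 3) :
    ∃ Z, O ≤ Z ∧ Z ≤ E ∧ dm Z = i + 1 ∧ (∀ g : Γ, g • O = O → g • W = W → g • E = E → g • Z = Z) ∧
      ∀ D, Z ≤ D → D ≤ E → dm D = k + 1 → E ≤ U D := by
  have hO := s.hO; have hn := s.hn; have ik := s.ik
  obtain ⟨R, r1, r2, r3, r4, -⟩ := s.exists_R hh h1 h2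
  have e1 : W ⊓ R = O := by
    refine le_antisymm ?_ (le_inf h1 r3)
    by_contra hc
    obtain ⟨P, p1, p2, p3, p4⟩ := exists_hp_not h1 inf_le_left hc
    have p5 : dm P = k + 1 := by omega
    exact p4 ((inf_le_inf_left _ (r2 P p1 p2 p5)).trans_eq (s.inf_of_not p1 p5 p2 h2 h3))
  have e2 := dm_sup_inf W R
  have e3 := dm_sup_inf E R
  have e4 := dm_le (E ⊔ R)
  have e5 := dm_mono (sup_le_sup_right h4 R)
  rw [e1] at e2
  have e6 : dm (E ⊓ R) = i + 1 := by omega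
  have e7 : ¬ E ⊓ R ≤ W := fun h => by
    have := dm_mono ((le_inf h inf_le_right).trans_eq e1)
    omega
  clear e2 e3 e4 e5
  refine ⟨E ⊓ R, le_inf (h1.trans h4) r3, inf_le_left, e6, fun g g1 g2 g3 => ?_, fun D d1 d2 d3 => ?_⟩
  · rw [smul_inf, g3, eq_of_dm ((r1 (g • R)).2 ?_) (dm_smul g R).ge]
    rw [← g1, ← g2, pr_smul s.hC]
    exact (r1 R).1 le_rfl
  · have f0 : O ≤ D := (le_inf (h1.trans h4) r3).trans d1
    have f1 : ¬ D ≤ W := fun h => e7 (d1.trans h)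
    have f2 := hp_inf h4 (by omega) d2 f1
    have f3 : O ≤ D ⊓ W := le_inf f0 h1
    have f4 : E ⊓ R ⊔ D ⊓ W = D :=
      hp_sup inf_le_left f2 d1 fun h => e7 (h.trans inf_le_right)
    rw [← hp_sup h4 (by omega) d2 f1]
    refine sup_le (s.le f0 d3) (le_of_pts inf_le_right (inf_le_left.trans (s.le f0 d3))
      fun P p1 p2 p3 => ?_)
    have p4 : dm P = k + 1 := by omega
    refine s.sym f3 (by omega) p1 p4 inf_le_left d3 (f4.symm.trans_le (sup_le ?_ ?_))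
    · exact inf_le_right.trans (r2 P (f3.trans p1) p2 p4)
    · exact p1.trans (s.le (f3.trans p1) p4)

theorem hyp_tr {W1 W2 : Submodule F V} (a1 : O ≤ W1) (b1 : dm W1 = k + 2) (c1 : C W1)
    (a2 : O ≤ W2) (b2 : dm W2 = k + 2) (c2 : ¬ C W2) (hn : 2 * k + 6 ≤ n + i)
    (H : NN Γ (Fl F V i (k + 2) (k + 3) (k + 4)) ≤ 5) (e1 : W2 ≤ E) (e2 : dm E = k + 3) :
    ∀ T T', E ≤ T → dm T = k + 4 → E ≤ T' → dm T' = k + 4 →
      Eqv Γ (O, W2, E, T) (O, W2, E, T') := by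
  classical
  have hO := s.hO; have hN := s.hn; have ik := s.ik
  obtain ⟨R, r1, r2, -, r4, r5⟩ := s.exists_R hh a1 b1
  have w1 : W1 ≤ R := (r1 _).2 ((s.pr_iff _ _).2 fun D a b c => (s.iff a c b b1).1 c1)
  obtain ⟨E0, x1, x2, x3⟩ := exists_btw w1 (k := k + 3) (by omega) (by omega)
  obtain ⟨T0, t1, t2, t3⟩ := exists_btw x2 (k := k + 4) (by omega) (by omega)
  have hR : ¬ ⊤ ≤ R := fun h => by have := dm_mono h; rw [dm_top] at this; omega
  obtain ⟨T1, u1, -, u2, u3⟩ := exists_pt (le_top : E0 ≤ ⊤) x2 hR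
  obtain ⟨E2, y1, -, y2, y3⟩ := exists_pt (le_top : W1 ≤ ⊤) w1 hR
  have y4 := pt_sup y1 y2 w1 y3
  obtain ⟨T2, v1, -, v2, v3⟩ := exists_pt (le_top : E2 ≤ ⊤) (le_sup_left : E2 ≤ E2 ⊔ R)
    fun h => by have := dm_mono h; rw [dm_top] at this; omega
  have v4 : T2 ⊓ R ≤ W1 := by
    rw [← pt_inf y1 y2 w1 y3, ← pt_inf v1 v2 le_sup_left v3]
    exact le_inf (inf_le_inf_left _ le_sup_right) inf_le_right
  have z1 := pt_sup x1 (by omega) y1 (not_le_of_ne (by omega) fun h => y3 (h ▸ x2))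
  have z2 : ¬ E0 ≤ W1 := fun h => by have := dm_mono h; omega
  rw [x3] at u2
  rw [b1] at y2
  rw [y2] at v2 z1
  let I : Submodule F V → Submodule F V → Submodule F V → Prop := fun O W T =>
    ∀ Y, Y ≤ T → Pr C k O W Y → Y ≤ W
  let inv : Submodule F V × Submodule F V × Submodule F V × Submodule F V → ℕ := fun x =>
    if C x.2.1 then (if Pr C k x.1 x.2.1 x.2.2.1 then (if Pr C k x.1 x.2.1 x.2.2.2 then 0 else 1)
      else (if I x.1 x.2.1 x.2.2.2 then 2 else 3)) else 4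
  have hinv : ∀ (g : Γ) x, inv (g • x) = inv x := by
    rintro g ⟨A, B, E, T⟩
    have e2 : I (g • A) (g • B) (g • T) ↔ I A B T := by
      simp only [I]; rw [(MulAction.surjective g).forall]; simp [pr_smul s.hC]
    simp only [inv, Prod.smul_mk, s.hC, e2, pr_smul s.hC]
  intro T T' f1 f2 f3 f4
  refine eqv_of_inv (S := Fl F V i (k + 2) (k + 3) (k + 4)) inv hinv H (fun j hj => ?_)
    ⟨a2, e1, f1, hO, b2, e2, f2⟩ ⟨a2, e1, f3, hO, b2, e2, f4⟩ ((if_neg c2).trans (if_neg c2).symm)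
  interval_cases j
  · exact ⟨(O, W1, E0, T0), ⟨a1, x1, t1, hO, b1, x3, t3⟩,
      (if_pos c1).trans ((if_pos ((r1 _).1 x2)).trans (if_pos ((r1 _).1 t2)))⟩
  · exact ⟨(O, W1, E0, T1), ⟨a1, x1, u1, hO, b1, x3, u2⟩,
      (if_pos c1).trans ((if_pos ((r1 _).1 x2)).trans (if_neg (mt (r1 _).2 u3)))⟩
  · exact ⟨(O, W1, E2, T2), ⟨a1, y1, v1, hO, b1, y2, v2⟩,
      (if_pos c1).trans ((if_neg (mt (r1 _).2 y3)).trans
        (if_pos fun Y a b => (le_inf a ((r1 _).2 b)).trans v4))⟩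
  · exact ⟨(O, W1, E2, E0 ⊔ E2), ⟨a1, y1, le_sup_right, hO, b1, y2, z1⟩,
      (if_pos c1).trans ((if_neg (mt (r1 _).2 y3)).trans
        (if_neg fun h => z2 (h E0 le_sup_left ((r1 _).1 x2))))⟩
  · exact ⟨(O, W2, E, T), ⟨a2, e1, f1, hO, b2, e2, f2⟩, if_neg c2⟩

theorem hyp_gen {W1 W2 : Submodule F V} (a1 : O ≤ W1) (b1 : dm W1 = k + 2) (c1 : C W1)
    (a2 : O ≤ W2) (b2 : dm W2 = k + 2) (c2 : ¬ C W2) (hn : 2 * k + 6 ≤ n + i)
    (H : NN Γ (Fl F V i (k + 2) (k + 3) (k + 4)) ≤ 5) : False := by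
  have hO := s.hO; have hN := s.hn; have ik := s.ik
  obtain ⟨E, e1, e2⟩ := exists_above W2 (k := k + 3) (by omega) (by omega)
  have tr := s.hyp_tr hh a1 b1 c1 a2 b2 c2 hn H e1 e2
  obtain ⟨Z, z1, z2, z3, z4, z5⟩ := s.rad hh a2 b2 c2 e1 e2
  obtain ⟨m, hm⟩ : ∃ m, n = k + 3 + (m + 1) := ⟨n - k - 4, by omega⟩
  have r3 := θ_not_dvd_mul (two_le_q (F := F)) (m := m + 1) (a := k + 1 - i + 1) (b := k + 1 - i)
    (by omega) (by omega) (by omega) (by omega)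
  have r4 : Nat.Coprime (θ q (m + 1)) (θ q m) := θ_coprime two_le_q (by simp)
  have r5 : ∀ D, O ≤ D → dm D = k + 1 → dm (U D) = dm E + m := fun D a b => by
    have := s.hd D a b; omega
  have r6 : k + 4 = dm E + 1 := by omega
  have r1 := card_top (E := E) (k := k + 4) (m := m + 1) r6 (by omega)
  have r2 := card_co2 z2 (k := k + 1) (m := k + 1 - i) (by omega) (by omega)
  refine r3 ?_
  rw [← r2]
  refine Dvd.dvd.mul_right (r4.dvd_of_dvd_mul_right ?_) _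
  rw [← r1]
  refine dvd_of_const _ _ (fun D T => T ≤ U D) ?_ ?_
  · rintro D ⟨f1, f2, f3⟩
    rw [← card_up' (z5 D f1 f2 f3) r6 (r5 D (z1.trans f1) f3)]
    congr 1; ext T
    exact ⟨fun h => ⟨h.1.1, h.2, h.1.2⟩, fun h => ⟨⟨h.1, h.2.2⟩, h.2.1⟩⟩
  · rintro T ⟨a, b⟩ T' ⟨a', b'⟩
    obtain ⟨g, g1, g2, g3, rfl⟩ := eqv_iff.1 (tr T T' a b a' b')
    refine ncard_eq_of_smul g fun D => ?_
    have e1 := le_fix (z4 g g1 g2 g3) D
    have e3 := fix_le g3 D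
    simp only [Set.mem_ofPred_eq, e1, e3, dm_smul]
    refine and_congr_right fun h => ?_
    rw [s.smul g1 (z1.trans h.1) h.2.2, smul_le_smul]

end St

theorem hyp_seven {Γ : Type*} [Group Γ] [DistribMulAction Γ V] [SMulCommClass Γ F V]
    {C : Submodule F V → Prop} {U : Submodule F V → Submodule F V} (s : St Γ C ⊥ U 0 1 4 7)
    {W1 W2 : Submodule F V} (b1 : dm W1 = 3) (c1 : C W1) (b2 : dm W2 = 3) (c2 : ¬ C W2)
    (H : NN Γ (Fl F V 2 4 6 6) ≤ 5) : False := by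
  classical
  have hn := s.hn
  have hT : dm (⊤ : Submodule F V) = 7 := dm_top.trans hn
  have hB : dm (⊥ : Submodule F V) = 0 := dm_bot
  have key : ∀ l Y, dm l = 2 → dm Y = 4 → Y ≤ U l → ∃ Z, Y ≤ Z ∧ dm Z = 6 ∧ ¬ Is C l Z := by
    intro l Y a b c
    have e := s.hd l bot_le a
    obtain ⟨Z, z1, -, z3, z4⟩ := exists_hp_not (le_top : Y ≤ ⊤) (le_top : U l ≤ ⊤)
      fun h => by have := dm_mono h; omega
    exact ⟨Z, z1, by omega, fun h => z4 ((s.hU l bot_le a).unique h).le⟩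
  obtain ⟨R1, -, r2, -, r4, -⟩ := s.exists_R rfl bot_le b1
  have w1 : ∀ D, D ≤ W1 → dm D = 2 → W1 ≤ U D := fun D a b => (s.iff bot_le b a b1).1 c1
  obtain ⟨Y0, y1, y2, y3⟩ := exists_btw (le_sup_left : W1 ≤ W1 ⊔ R1) (k := 4) (by omega)
    (le_trans (by omega) (dm_mono le_sup_right))
  have y4 : ∀ D, D ≤ W1 → dm D = 2 → Y0 ≤ U D := fun D a b =>
    y2.trans (sup_le (w1 D a b) (r2 D bot_le a b))
  have y5 : ∀ W, W ≤ Y0 → dm W = 3 → C W := fun W a b => by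
    by_cases e : W = W1
    · exact e ▸ c1
    have := hp_inf y1 (by omega) a (not_le_of_ne (by omega) e)
    exact (s.iff bot_le (by omega) inf_le_left b).2 (a.trans (y4 _ inf_le_right (by omega)))
  obtain ⟨l0, -, l1, l2⟩ := exists_btw (bot_le : ⊥ ≤ W1) (k := 2) (by omega) (by omega)
  obtain ⟨Z1, u1, u2, u3⟩ := key l0 Y0 l2 y3 (y4 l0 l1 l2)
  obtain ⟨Y, x1, x2⟩ := exists_above W2 (k := 4) (by omega) (by omega)
  obtain ⟨Z, -, z2, z3, -, z5⟩ := s.rad rfl bot_le b2 c2 x1 x2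
  obtain ⟨m, m0, m1, m2⟩ := exists_btw z2 (k := 2) (by omega) (by omega)
  have m3 := z5 m m0 m1 m2
  obtain ⟨Z3, v1, v2, v3⟩ := key m Y m2 x2 m3
  obtain ⟨l, -, n1, n2⟩ := exists_btw (bot_le : ⊥ ≤ W2) (k := 2) (by omega) (by omega)
  have n3 := s.hd l bot_le n2
  have n4 : ¬ Y ≤ U l := fun h => c2 ((s.iff bot_le n2 n1 b2).2 (x1.trans h))
  have n5 := hp_inf (le_top : U l ≤ ⊤) (by omega) le_top n4
  have p1 : l ≤ Y ⊓ U l := le_inf (n1.trans x1) (s.le bot_le n2)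
  have p2 : dm (Y ⊓ U l) = 3 := by omega
  have p3 : C (Y ⊓ U l) := (s.iff bot_le n2 p1 p2).2 inf_le_right
  obtain ⟨R, t1, t2, -, t4, t5⟩ := s.exists_R rfl bot_le p2
  have t6 : Y ⊓ U l ≤ R := (t1 _).2 ((s.pr_iff _ _).2 fun D a b c => (s.iff a c b p2).1 p3)
  have t7 := dm_sup_inf Y R
  have t8 := dm_mono (le_inf inf_le_left t6)
  obtain ⟨Z4, f1, f2⟩ := exists_above (Y ⊔ R) (k := 6) (by omega) (by omega)
  obtain ⟨Z5, g1, -, g2, g3⟩ := exists_hp_not (le_top : Y ≤ ⊤) (le_top : R ≤ ⊤) fun h => by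
    have := dm_mono (le_inf h (t2 l bot_le p1 n2)); omega
  have g4 : dm Z5 = 6 := by omega
  let K1 : Submodule F V → Prop := fun Y => ∀ W, W ≤ Y → dm W = 3 → C W
  let K2 : Submodule F V → Submodule F V → Prop := fun l Y => ∀ W, l ≤ W → W ≤ Y → dm W = 3 → C W
  let K4 : Submodule F V → Submodule F V → Submodule F V → Prop := fun l Y Z =>
    ∃ P, l ≤ P ∧ P ≤ Y ∧ dm P = 3 ∧ C P ∧ ∀ X, Pr C 1 ⊥ P X → X ≤ Z
  let inv : Submodule F V × Submodule F V × Submodule F V × Submodule F V → ℕ := fun x =>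
    if K1 x.2.1 then (if Is C x.1 x.2.2.1 then 0 else 1) else if K2 x.1 x.2.1 then
      (if Is C x.1 x.2.2.1 then 2 else 3) else (if K4 x.1 x.2.1 x.2.2.1 then 4 else 5)
  have hinv : ∀ (g : Γ) x, inv (g • x) = inv x := by
    rintro g ⟨A, B, E, T⟩
    have e1 : K1 (g • B) ↔ K1 B := by
      simp only [K1]; rw [(MulAction.surjective g).forall]; simp [s.hC]
    have e2 : K2 (g • A) (g • B) ↔ K2 A B := by
      simp only [K2]; rw [(MulAction.surjective g).forall]; simp [s.hC]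
    have e4 : K4 (g • A) (g • B) (g • E) ↔ K4 A B E := by
      simp only [K4]; rw [(MulAction.surjective g).exists]
      refine exists_congr fun P => ?_
      rw [(MulAction.surjective g).forall]
      have := fun X => pr_smul s.hC g 1 ⊥ P X
      simp only [smul_bot] at this
      simp [s.hC, this]
    simp only [inv, Prod.smul_mk, e1, e2, e4, is_smul s.hC]
  have k1 : ¬ K1 Y := fun h => c2 (h W2 x1 b2)
  have k2 : K2 m Y := fun W a b c => (s.iff bot_le m2 a c).2 (b.trans m3)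
  have k3 : ¬ K2 l Y := fun h => c2 (h W2 n1 x1 b2)
  have k4 : K4 l Y Z4 := ⟨_, p1, inf_le_left, p2, p3, fun X h =>
    ((t1 X).2 h).trans (le_sup_right.trans f1)⟩
  have k5 : ¬ K4 l Y Z5 := fun ⟨P, a, b, c, d, e⟩ => g3 (e R (by
    rw [eq_of_dm (le_inf b ((s.iff bot_le n2 a c).1 d)) (p2.trans c.symm).le]
    exact (t1 R).1 le_rfl))
  refine absurd ((inv_le (S := Fl F V 2 4 6 6) inv hinv (m := 6) fun j hj => ?_).trans H) (by decide)
  interval_cases j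
  · exact ⟨(l0, Y0, U l0, U l0), ⟨l1.trans y1, y4 l0 l1 l2, le_rfl, l2, y3, s.hd l0 bot_le l2,
      s.hd l0 bot_le l2⟩, (if_pos y5).trans (if_pos (s.hU l0 bot_le l2))⟩
  · exact ⟨(l0, Y0, Z1, Z1), ⟨l1.trans y1, u1, le_rfl, l2, y3, u2, u2⟩, (if_pos y5).trans (if_neg u3)⟩
  · exact ⟨(m, Y, U m, U m), ⟨m1, m3, le_rfl, m2, x2, s.hd m bot_le m2, s.hd m bot_le m2⟩,
      (if_neg k1).trans ((if_pos k2).trans (if_pos (s.hU m bot_le m2)))⟩
  · exact ⟨(m, Y, Z3, Z3), ⟨m1, v1, le_rfl, m2, x2, v2, v2⟩,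
      (if_neg k1).trans ((if_pos k2).trans (if_neg v3))⟩
  · exact ⟨(l, Y, Z4, Z4), ⟨n1.trans x1, le_sup_left.trans f1, le_rfl, n2, x2, f2, f2⟩,
      (if_neg k1).trans ((if_neg k3).trans (if_pos k4))⟩
  · exact ⟨(l, Y, Z5, Z5), ⟨n1.trans x1, g1, le_rfl, n2, x2, g4, g4⟩,
      (if_neg k1).trans ((if_neg k3).trans (if_neg k5))⟩

omit [Fintype F] in
theorem exists_two_sub {Γ : Type*} [Group Γ] [DistribMulAction Γ V] [SMulCommClass Γ F V] {j : ℕ}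
    (HJ : 2 ≤ NN Γ (Fl F V j j j j)) :
    ∃ W1 W2 : Submodule F V, dm W1 = j ∧ dm W2 = j ∧ ¬ Eqv Γ W1 W2 := by
  obtain ⟨⟨W1, _, _, _⟩, ⟨x1, x2, x3, x4, x5, x6, x7⟩, ⟨W2, _, _, _⟩, ⟨y1, y2, y3, y4, y5, y6, y7⟩,
    hne⟩ := exists_not_eqv HJ
  simp only at x1 x2 x3 x4 x5 x6 x7 y1 y2 y3 y4 y5 y6 y7
  obtain rfl := eq_of_dm x1 (x5.trans x4.symm).le
  obtain rfl := eq_of_dm x2 (x6.trans x4.symm).le
  obtain rfl := eq_of_dm x3 (x7.trans x4.symm).le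
  obtain rfl := eq_of_dm y1 (y5.trans y4.symm).le
  obtain rfl := eq_of_dm y2 (y6.trans y4.symm).le
  obtain rfl := eq_of_dm y3 (y7.trans y4.symm).le
  exact ⟨_, _, x4, y4, fun ⟨g, e⟩ => hne (eqv_iff.2 ⟨g, e, e, e, e⟩)⟩

section Main
variable {Γ : Type*} [Group Γ] [DistribMulAction Γ V] [SMulCommClass Γ F V] {i k n : ℕ}
  (hn : finrank F V = n) (ik : i ≤ k) (nk : 2 * k + 5 ≤ n + i)
  (H1 : NN Γ (Fl F V i (k + 1) (k + 1) (k + 1)) ≤ 1)
  (H3 : NN Γ (Fl F V i (k + 2) (k + 3) (k + 3)) ≤ 3)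
  (H4 : 2 * k + 6 ≤ n + i → NN Γ (Fl F V i (k + 2) (k + 3) (k + 4)) ≤ 5)
  (H5 : n + i = 2 * k + 5 → Even (k + 2 - i) ∨ (i = 0 ∧ k = 1 ∧ NN Γ (Fl F V 2 4 6 6) ≤ 5))
include hn ik nk H1 H3 H4 H5

theorem two_core {C : Submodule F V → Prop} (hC : ∀ (g : Γ) W, C (g • W) ↔ C W)
    {O W1 W2 D U0 : Submodule F V} (hO : dm O = i) (a1 : O ≤ W1) (b1 : dm W1 = k + 2) (c1 : C W1)
    (a2 : O ≤ W2) (b2 : dm W2 = k + 2) (c2 : ¬ C W2) (d1 : O ≤ D) (d2 : dm D = k + 1)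
    (h : Is C D U0) : False := by
  classical
  have e0 : ∀ D', ∃ X, O ≤ D' → dm D' = k + 1 → Is C D' X ∧ dm X = dm U0 := fun D' => by
    by_cases e : O ≤ D' ∧ dm D' = k + 1
    · obtain ⟨g, -, rfl, -⟩ := eqv_iff.1 (eqv_of_NN H1 (x := (O, D, D, D)) (y := (O, D', D', D'))
        ⟨d1, le_rfl, le_rfl, hO, d2, d2, d2⟩ ⟨e.1, le_rfl, le_rfl, hO, e.2, e.2, e.2⟩)
      exact ⟨g • U0, fun _ _ => ⟨h.smul hC g, dm_smul g U0⟩⟩
    · exact ⟨⊥, fun a b => absurd ⟨a, b⟩ e⟩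
  choose U hU using e0
  obtain ⟨d, hd⟩ := Nat.exists_eq_add_of_le (d2.symm.trans_le (dm_mono h.1))
  have s : St Γ C O U i k d n :=
    ⟨hC, hO, hn, ik, nk, fun D a b => (hU D a b).1, fun D a b => (hU D a b).2.trans hd⟩
  have e1 : 1 ≤ d := by
    obtain ⟨P, p1, p2, p3⟩ := exists_btw a1 (k := k + 1) (by omega) (by omega)
    have := dm_mono ((s.iff p1 p3 p2 b1).1 c1)
    have := s.hd P p1 p3
    omega
  have e2 : k + 2 + d ≤ n := by
    obtain ⟨P, p1, p2, p3⟩ := exists_btw a2 (k := k + 1) (by omega) (by omega)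
    have := dm_lt_of_not_le (le_top : U P ≤ ⊤) fun h => c2 ((s.iff p1 p3 p2 b2).2 (le_top.trans h))
    have := s.hd P p1 p3
    have := dm_top (F := F) (V := V)
    omega
  have e3 : d = 1 ∨ k + 2 + d = n := by
    by_cases tr : ∀ E E', W1 ≤ E → W1 ≤ E' → dm E = k + 3 → dm E' = k + 3 →
      Eqv Γ (O, W1, E, E) (O, W1, E', E')
    · have := s.ratio a1 b1 (d' := d - 1) (fun D a b c => by
        rw [sup_eq_left.2 ((s.iff a c b b1).1 c1), s.hd D a c]; omega) tr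
      omega
    push Not at tr
    obtain ⟨E1, E2, f1, f2, f3, f4, f5⟩ := tr
    have := s.ratio a2 b2 (d' := d) (fun D a b c => by
      rw [sup_comm, pt_sup b (by omega) (s.le a c) (mt (s.iff a c b b2).2 c2), s.hd D a c]; omega)
      fun E E' g1 g2 g3 g4 => eqv_of_inv (S := Fl F V i (k + 2) (k + 3) (k + 3))
        (fun x => if C x.2.1 then (if Eqv Γ (O, W1, E1, E1) x then 0 else 1) else 2)
        (fun g x => by simp only [eqv_smul, Prod.smul_fst, Prod.smul_snd, hC]) H3 (fun j hj => by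
          interval_cases j
          · exact ⟨(O, W1, E1, E1), ⟨a1, f1, le_rfl, hO, b1, f3, f3⟩,
              (if_pos c1).trans (if_pos (Eqv.refl _))⟩
          · exact ⟨(O, W1, E2, E2), ⟨a1, f2, le_rfl, hO, b1, f4, f4⟩, (if_pos c1).trans (if_neg f5)⟩
          · exact ⟨(O, W2, E, E), ⟨a2, g1, le_rfl, hO, b2, g3, g3⟩, if_neg c2⟩)
        ⟨a2, g1, le_rfl, hO, b2, g3, g3⟩ ⟨a2, g2, le_rfl, hO, b2, g4, g4⟩
        ((if_neg c2).trans (if_neg c2).symm)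
    omega
  have e4 := s.parity
  rcases Nat.lt_or_ge (n + i) (2 * k + 6) with e5 | e5
  · rcases H5 (by omega) with e6 | ⟨rfl, rfl, e6⟩
    · simp only [Nat.even_iff] at e4 e6
      omega
    · obtain rfl := eq_bot_of_dm hO
      obtain rfl : n = 7 := by omega
      rcases e3 with rfl | e3
      · exact steiner_seven s b1 c1 b2 c2 e6
      · obtain rfl : d = 4 := by omega
        exact hyp_seven s b1 c1 b2 c2 e6
  · rcases e3 with rfl | e3
    · exact s.steiner_gen a1 b1 c1 a2 b2 c2 e5 (H4 e5)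
    · exact s.hyp_gen e3 a1 b1 c1 a2 b2 c2 e5 (H4 e5)

theorem two_row (H0 : NN Γ (Fl F V i i i i) ≤ 1)
    (HJ : 2 ≤ NN Γ (Fl F V (k + 2) (k + 2) (k + 2) (k + 2)))
    (H2 : NN Γ (Fl F V i (k + 1) (k + 2) (k + 3)) ≤ NN Γ (Fl F V i (k + 1) (k + 3) (k + 3)) + 1) :
    False := by
  obtain ⟨W1, W2, x4, y4, c2⟩ := exists_two_sub HJ
  have hC : ∀ (g : Γ) W, Eqv Γ W1 (g • W) ↔ Eqv Γ W1 W := fun g W => eqv_smul g W1 W
  obtain ⟨O, -, o1, o2⟩ := exists_btw (bot_le : ⊥ ≤ W1) (k := i) (by rw [dm_bot]; omega) (by omega)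
  obtain ⟨O', -, o3, o4⟩ := exists_btw (bot_le : ⊥ ≤ W2) (k := i) (by rw [dm_bot]; omega) (by omega)
  obtain ⟨g, rfl, -⟩ := eqv_iff.1 (eqv_of_NN H0 (x := (O', O', O', O')) (y := (O, O, O, O))
    ⟨le_rfl, le_rfl, le_rfl, o4, o4, o4, o4⟩ ⟨le_rfl, le_rfl, le_rfl, o2, o2, o2, o2⟩)
  have a2 := (smul_le_smul g _ _).2 o3
  have b2 : dm (g • W2) = k + 2 := (dm_smul g W2).trans y4
  have c3 := mt (hC g W2).1 c2
  obtain ⟨D, d1, -, d2⟩ := exists_btw o1 (k := k + 1) (by omega) (by omega)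
  rcases is_of_NN hC d1 (by omega) (by rw [o2, d2]; exact H2) with ⟨U, h⟩ | ⟨U, h⟩
  · exact two_core hn ik nk H1 H3 H4 H5 hC o2 o1 x4 (Eqv.refl W1) a2 b2 c3 d1 d2 h
  · exact two_core hn ik nk H1 H3 H4 H5 (fun g W => (hC g W).not) o2 a2 b2 c3 o1 x4
      (not_not.2 (Eqv.refl W1)) d1 d2 h

end Main

end Cfsg.Agent.R3
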