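import Cfsg.Agent.GLn.ParabCard
import Cfsg.Agent.R3.Base

/-! Unipotent constituents of a rank three permutation character of `SL_n(q)`. -/

set_option autoImplicit false

namespace Cfsg.Agent.R3

open Cfsg Cfsg.Agent.GLn MulAction
open scoped RealInnerProductSpace

theorem abstract_psd {E P : Type*} [NormedAddCommGroup E] [InnerProductSpace ℝ E]
    (u : P → E) (hu : Orthonormal ℝ u) (ν0 : P) (π : E) (h3 : ⟪π, π⟫ = 3) (m : P → ℤ)
    (hm : ∀ ν, ⟪u ν, π⟫ = m ν) (h0 : m ν0 = 1) :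
    (∃ ν1 ν2, ν1 ≠ ν0 ∧ ν2 ≠ ν0 ∧ π = u ν0 + (m ν1 : ℝ) • u ν1 + (m ν2 : ℝ) • u ν2) ∨
    ∀ ω ∈ Submodule.span ℝ (Set.range u), ⟪π - u ν0, ω⟫ ^ 2 ≤ ⟪ω, ω⟫ := by
  classical
  have ho := orthonormal_iff_ite.1 hu
  have hm' : ∀ ν, ⟪π, u ν⟫ = m ν := fun ν => by rw [real_inner_comm, hm]
  by_cases h : ∃ ν1 ν2, ν1 ≠ ν0 ∧ ν2 ≠ ν0 ∧ ν1 ≠ ν2 ∧ m ν1 ≠ 0 ∧ m ν2 ≠ 0
  · obtain ⟨ν1, ν2, h1, h2, h12, h4, h5⟩ := h
    refine Or.inl ⟨ν1, ν2, h1, h2, ?_⟩
    rw [← sub_eq_zero, ← real_inner_self_nonpos]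
    have e1 : (1 : ℝ) ≤ (m ν1 : ℝ) ^ 2 := by exact_mod_cast (sq_pos_of_ne_zero h4 : 0 < m ν1 ^ 2)
    have e2 : (1 : ℝ) ≤ (m ν2 : ℝ) ^ 2 := by exact_mod_cast (sq_pos_of_ne_zero h5 : 0 < m ν2 ^ 2)
    simp only [inner_sub_left, inner_sub_right, inner_add_left, inner_add_right,
      real_inner_smul_left, real_inner_smul_right, ho, hm, hm', h3, h0, h1, h2, h12, h1.symm,
      h2.symm, h12.symm, if_true, if_false]
    push_cast
    nlinarith
  · right
    obtain ⟨w, hw1, hw2⟩ : ∃ w : E, ⟪w, w⟫ ≤ 1 ∧ ∀ ν, ⟪π - u ν0, u ν⟫ = ⟪w, u ν⟫ := by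
      by_cases h' : ∃ ν1, ν1 ≠ ν0 ∧ m ν1 ≠ 0
      · obtain ⟨ν1, h1, h4⟩ := h'
        have hz : ∀ ν, ν ≠ ν0 → ν ≠ ν1 → m ν = 0 := fun ν a b => by
          by_contra c; exact h ⟨ν, ν1, a, h1, b, c, h4⟩
        refine ⟨(m ν1 : ℝ) • u ν1, ?_, fun ν => ?_⟩
        · have := real_inner_self_nonneg (x := π - (u ν0 + (m ν1 : ℝ) • u ν1))
          simp only [inner_sub_left, inner_sub_right, inner_add_left, inner_add_right,
            real_inner_smul_left, real_inner_smul_right, ho, hm, hm', h3, h0, h1,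
            h1.symm, if_true, if_false] at this ⊢
          have e : (m ν1 : ℝ) * m ν1 ≤ 2 := by push_cast at this; nlinarith
          have e' : m ν1 * m ν1 ≤ 2 := by exact_mod_cast e
          have e'' : m ν1 * m ν1 ≤ 1 := by
            by_contra hc
            have : m ν1 ≤ -2 ∨ 2 ≤ m ν1 ∨ m ν1 = 1 ∨ m ν1 = -1 := by omega
            rcases this with h | h | h | h
            · nlinarith
            · nlinarith
            · simp [h] at hc
            · simp [h] at hc
          rw [mul_one]; exact_mod_cast e''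
        · rw [inner_sub_left, real_inner_smul_left, hm', ho, ho]
          by_cases a : ν = ν0
          · subst a; simp [h0, h1]
          by_cases b : ν = ν1
          · subst b; simp [Ne.symm a]
          · simp [hz ν a b, Ne.symm a, Ne.symm b]
      · push Not at h'
        refine ⟨0, by simp, fun ν => ?_⟩
        rw [inner_sub_left, hm', ho]
        by_cases a : ν = ν0
        · subst a; simp [h0]
        · simp [h' ν a, Ne.symm a]
    intro ω hω
    have : ⟪π - u ν0, ω⟫ = ⟪w, ω⟫ := by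
      induction hω using Submodule.span_induction with
      | mem x hx => obtain ⟨ν, rfl⟩ := hx; exact hw2 ν
      | zero => simp
      | add x y _ _ hx hy => rw [inner_add_right, inner_add_right, hx, hy]
      | smul a x _ hx => rw [real_inner_smul_right, real_inner_smul_right, hx]
    rw [this]
    have h1 := real_inner_mul_inner_self_le w ω
    have h2 := real_inner_self_nonneg (x := ω)
    nlinarith

section Vec
variable {G : Type*} [Group G] [Fintype G]

/-- normalised vector of a function -/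
noncomputable def vec : (G → ℝ) →ₗ[ℝ] EuclideanSpace ℝ G :=
  (√(Fintype.card G))⁻¹ • (WithLp.linearEquiv 2 ℝ (G → ℝ)).symm.toLinearMap

theorem inner_vec (f g : G → ℝ) : ⟪vec f, vec g⟫ = (Fintype.card G : ℝ)⁻¹ * ∑ x, f x * g x := by
  have h : (0 : ℝ) ≤ Fintype.card G := by positivity
  simp only [vec, LinearMap.smul_apply, real_inner_smul_left, real_inner_smul_right]
  rw [← mul_assoc, ← mul_inv, Real.mul_self_sqrt h]
  simp [PiLp.inner_apply, mul_comm]

theorem vec_inj {f g : G → ℝ} (h : vec f = vec g) : f = g := by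
  have h0 : (√(Fintype.card G))⁻¹ ≠ 0 := by
    have : (0 : ℝ) < Fintype.card G := by exact_mod_cast Fintype.card_pos
    positivity
  exact (WithLp.linearEquiv 2 ℝ (G → ℝ)).symm.injective (smul_right_injective _ h0 h)

variable (G) in
/-- permutation character -/
noncomputable def pc (Y : Type*) [MulAction G Y] : G → ℝ := fun g => Nat.card (fixedBy Y g)

theorem inner_pc (Y Z : Type*) [Finite Y] [Finite Z] [MulAction G Y] [MulAction G Z] :
    ⟪vec (pc G Y), vec (pc G Z)⟫ = Nat.card (orbitRel.Quotient G (Y × Z)) := by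
  classical
  have := Fintype.ofFinite Y
  have := Fintype.ofFinite Z
  have : Fintype (orbitRel.Quotient G (Y × Z)) := Fintype.ofFinite _
  have h := sum_card_fixedBy_eq_card_orbits_mul_card_group G (Y × Z)
  have h1 : ∀ g : G, pc G Y g * pc G Z g = (Fintype.card (fixedBy (Y × Z) g) : ℝ) := by
    intro g
    unfold pc
    rw [← Nat.cast_mul, ← Nat.card_prod, ← Nat.card_eq_fintype_card]
    congr 1
    refine Nat.card_congr ((Equiv.Set.prod _ _).symm.trans (Equiv.setCongr ?_))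
    ext ⟨x, y⟩
    simp [MulAction.mem_fixedBy, Prod.ext_iff]
  rw [inner_vec]
  simp_rw [h1]
  rw [← Nat.cast_sum, h, Nat.card_eq_fintype_card, Nat.cast_mul]
  have : (Fintype.card G : ℝ) ≠ 0 := by exact_mod_cast Fintype.card_ne_zero
  field_simp

theorem avg_pc (Y : Type*) [Finite Y] [MulAction G Y] [IsPretransitive G Y] [Nonempty Y] :
    (Fintype.card G : ℝ)⁻¹ * ∑ g, pc G Y g = 1 := by
  classical
  have := Fintype.ofFinite Y
  have : Fintype (orbitRel.Quotient G Y) := Fintype.ofFinite _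
  have h := sum_card_fixedBy_eq_card_orbits_mul_card_group G Y
  have h1 : Fintype.card (orbitRel.Quotient G Y) = 1 := by
    obtain ⟨this⟩ := (pretransitive_iff_unique_quotient_of_nonempty G Y).1 inferInstance
    exact Fintype.card_unique
  simp only [pc, Nat.card_eq_fintype_card]
  rw [← Nat.cast_sum, h, h1, one_mul, inv_mul_cancel₀ (by exact_mod_cast Fintype.card_ne_zero)]

omit [Fintype G] in
theorem pc_one (Y : Type*) [MulAction G Y] : pc G Y 1 = Nat.card Y := by
  simp [pc]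

omit [Fintype G] in
theorem pc_congr {Y Z : Type*} [MulAction G Y] [MulAction G Z] (e : Y ≃ Z)
    (he : ∀ (g : G) y, e (g • y) = g • e y) : pc G Y = pc G Z := by
  funext g
  unfold pc
  congr 1
  exact Nat.card_congr (e.subtypeEquiv fun y => by
    simp only [mem_fixedBy, ← he, e.apply_eq_iff_eq])

end Vec

section Tab
variable {n : ℕ}

theorem tableCount_comm (α β : Fin n → ℕ) : tableCount α β = tableCount β α :=
  Nat.card_congr ⟨fun T => ⟨fun s t => T.1 t s, T.2.2, T.2.1⟩, fun T => ⟨fun s t => T.1 t s, T.2.2, T.2.1⟩,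
    fun _ => rfl, fun _ => rfl⟩

theorem tableCount_perm (α β : Fin n → ℕ) (σ : Equiv.Perm (Fin n)) :
    tableCount (α ∘ σ) β = tableCount α β :=
  Nat.card_congr ⟨fun T => ⟨fun s t => T.1 (σ.symm s) t, fun s => by simpa using T.2.1 (σ.symm s),
      fun t => by rw [← T.2.2 t]; exact Equiv.sum_comp σ.symm fun s => T.1 s t⟩,
    fun T => ⟨fun s t => T.1 (σ s) t, fun s => T.2.1 (σ s),
      fun t => by rw [← T.2.2 t]; exact Equiv.sum_comp σ fun s => T.1 s t⟩,
    fun T => by ext; simp, fun T => by ext; simp⟩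

end Tab

section Lin
variable {F : Type*} [Field F] {n : ℕ}

local notation "SL" => Matrix.SpecialLinearGroup (Fin n) F

variable (F) in
/-- flags of type `α` as cosets -/
def Cos (α : Fin n → ℕ) : Type _ := GL (Fin n) F ⧸ parabolicGL n F α

instance (α : Fin n → ℕ) : MulAction (GL (Fin n) F) (Cos F α) :=
  inferInstanceAs (MulAction (GL (Fin n) F) (GL (Fin n) F ⧸ parabolicGL n F α))

instance (α : Fin n → ℕ) : MulAction SL (Cos F α) :=
  MulAction.compHom (Cos F α) Matrix.SpecialLinearGroup.toGL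

instance [Finite F] (α : Fin n → ℕ) : Finite (Cos F α) :=
  inferInstanceAs (Finite (GL (Fin n) F ⧸ parabolicGL n F α))

/-- diagonal matrix with a prescribed determinant -/
theorem exists_diag (hn : 0 < n) (c : Fˣ) : ∃ d : GL (Fin n) F, Matrix.GeneralLinearGroup.det d = c ∧
    ∀ (σ : Equiv.Perm (Fin n)) (a : Fin n → ℕ), (permGL F σ)⁻¹ * d * permGL F σ ∈ parab F a := by
  classical
  let v : Fin n → F := Function.update 1 ⟨0, hn⟩ c
  have hv : (Matrix.diagonal v).det = c := by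
    rw [Matrix.det_diagonal, Finset.prod_update_of_mem (Finset.mem_univ _)]; simp
  refine ⟨Matrix.GeneralLinearGroup.mkOfDetNeZero (Matrix.diagonal v) (by rw [hv]; exact c.ne_zero),
    Units.ext hv, fun σ a i j hij => ?_⟩
  rw [← map_inv, Units.val_mul, Units.val_mul, mul_permGL_apply, permGL_mul_apply]
  refine Matrix.diagonal_apply_ne _ fun h => ?_
  have : i = j := by simpa using h
  rw [this] at hij; exact lt_irrefl _ hij

theorem exists_fixc (hn : 0 < n) {α β : Fin n → ℕ} (x : Cos F α) (y : Cos F β) (c : Fˣ) :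
    ∃ t : GL (Fin n) F, t • x = x ∧ t • y = y ∧ Matrix.GeneralLinearGroup.det t = c := by
  obtain ⟨d, hd, hd'⟩ := exists_diag hn c
  induction x using QuotientGroup.induction_on with | H a =>
  induction y using QuotientGroup.induction_on with | H b =>
  obtain ⟨p, hp, π, u, hu, -, h⟩ := bruhat (a⁻¹ * b)
  have hp' : p ∈ parabolicGL n F α := parab_val_le (compLabel_monotone α) hp
  have hu' : u ∈ parabolicGL n F β := parab_val_le (compLabel_monotone β) hu
  refine ⟨a * p * d * (a * p)⁻¹, ?_, ?_, by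
    rw [map_mul, map_mul, map_inv, hd, mul_inv_cancel_comm]⟩
  · refine QuotientGroup.eq.2 ?_
    have h1 : d ∈ parabolicGL n F α := by simpa [parabolicGL_eq] using hd' 1 (compLabel α)
    have : (((a * p * d * (a * p)⁻¹) • a)⁻¹ * a : GL (Fin n) F) = p * d⁻¹ * p⁻¹ := by
      simp only [smul_eq_mul]; group
    rw [this]
    exact mul_mem (mul_mem hp' (inv_mem h1)) (inv_mem hp')
  · refine QuotientGroup.eq.2 ?_
    have h1 : (permGL F π)⁻¹ * d * permGL F π ∈ parabolicGL n F β := hd' π (compLabel β)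
    have hb : b = a * p * permGL F π * u⁻¹ := by rw [mul_assoc a, ← h]; group
    have : (((a * p * d * (a * p)⁻¹) • b)⁻¹ * b : GL (Fin n) F) =
        u * ((permGL F π)⁻¹ * d * permGL F π)⁻¹ * u⁻¹ := by
      simp only [smul_eq_mul]; rw [hb]; group
    rw [this]
    exact mul_mem (mul_mem hu' (inv_mem h1)) (inv_mem hu')

theorem exists_sl (hn : 0 < n) {α β : Fin n → ℕ} (x : Cos F α) (y : Cos F β) (g : GL (Fin n) F) :
    ∃ s : SL, s • x = g • x ∧ s • y = g • y := by
  obtain ⟨t, h1, h2, h3⟩ := exists_fixc hn x y (Matrix.GeneralLinearGroup.det g)⁻¹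
  have h4 : Matrix.GeneralLinearGroup.det (g * t) = 1 := by simp [h3]
  have h5 : Matrix.SpecialLinearGroup.toGL (⟨(g * t : GL (Fin n) F), congrArg Units.val h4⟩ : SL) = g * t :=
    Units.ext rfl
  refine ⟨⟨(g * t : GL (Fin n) F), congrArg Units.val h4⟩, ?_, ?_⟩
  · exact (congrArg (· • x) h5).trans (by simp only [mul_smul, h1])
  · exact (congrArg (· • y) h5).trans (by simp only [mul_smul, h2])

theorem cos_trans (hn : 0 < n) (α : Fin n → ℕ) : IsPretransitive SL (Cos F α) := ⟨fun x y => by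
  obtain ⟨g, rfl⟩ := exists_smul_eq (GL (Fin n) F) (α := GL (Fin n) F ⧸ parabolicGL n F α) x y
  obtain ⟨s, h, -⟩ := exists_sl hn x x g
  exact ⟨s, h⟩⟩

theorem card_orb_cos (hn : 0 < n) {α β : Fin n → ℕ} (hα : ∑ i, α i = n) (hβ : ∑ i, β i = n) :
    Nat.card (orbitRel.Quotient SL (Cos F α × Cos F β)) = tableCount α β := by
  rw [← card_doubleCoset_young hα hβ, youngSubgroup_eq, youngSubgroup_eq,
    ← card_doubleCoset_parab (F := F) (compLabel_monotone _) (compLabel_monotone _),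
    ← card_orbits_eq_card_doubleCoset]
  refine Nat.card_congr (Quotient.congrRight ?_)
  rintro ⟨x, y⟩ ⟨x', y'⟩
  constructor
  · rintro ⟨s, hs⟩; exact ⟨Matrix.SpecialLinearGroup.toGL s, hs⟩
  · rintro ⟨g, hg⟩
    obtain ⟨s, h1, h2⟩ := exists_sl hn x' y' g
    exact ⟨s, (Prod.ext h1 h2).trans hg⟩

/-- the unipotent class functions -/
noncomputable def uf (F : Type*) [Field F] (ν : Fin n → ℕ) :
    Matrix.SpecialLinearGroup (Fin n) F → ℝ :=
  ∑ κ : Equiv.Perm (Fin n), if ∀ i : Fin n, (κ i).val ≤ ν i + i.val then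
    ((Equiv.Perm.sign κ : ℤ) : ℝ) • pc _ (Cos F fun i => ν i + i.val - (κ i).val) else 0

/-- the one-part composition -/
def nu0 (n : ℕ) : Fin n → ℕ := fun i => if i.val + 1 = n then n else 0

theorem nu0_sum (hn : 0 < n) : ∑ i, nu0 n i = n := by
  rw [Finset.sum_eq_single ⟨n - 1, by omega⟩]
  · simp only [nu0]; rw [if_pos (by omega)]
  · intro b _ hb
    exact if_neg fun h => hb (Fin.ext (by simp only; omega))
  · simp

theorem nu0_mono : Monotone (nu0 n) := fun i j hij => by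
  have := j.2
  have : i.val ≤ j.val := hij
  simp only [nu0]; split_ifs <;> omega

theorem pc_nu0 (hn : 0 < n) : pc SL (Cos F (nu0 n)) = fun _ => 1 := by
  have h1 : ∀ i, compLabel (nu0 n) i = n - 1 := fun i => by
    have h2 := compLabel_lt (nu0_sum hn) i
    rcases Nat.lt_or_ge 1 n with h | h
    · have := (lt_compLabel_iff (nu0 n) i ⟨n - 2, by omega⟩).2 (by
        rw [Finset.sum_eq_zero]
        · omega
        · intro k hk
          have : k.val ≤ n - 2 := (Finset.mem_filter.1 hk).2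
          exact if_neg (by omega))
      simp only at this; omega
    · omega
  have h2 : parabolicGL n F (nu0 n) = ⊤ := by
    rw [eq_top_iff]; intro g _ i j hij
    rw [h1, h1] at hij; exact absurd hij (lt_irrefl _)
  have : Subsingleton (Cos F (nu0 n)) := by
    unfold Cos; rw [h2]; exact QuotientGroup.subsingleton_quotient_top
  funext g
  have : Nonempty (fixedBy (Cos F (nu0 n)) g) :=
    ⟨⟨((1 : GL (Fin n) F) : GL (Fin n) F ⧸ _), Subsingleton.elim _ _⟩⟩
  simp [pc, Nat.card_unique]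

theorem uf_nu0 (hn : 0 < n) : uf F (nu0 n) = fun _ => 1 := by
  unfold uf
  rw [Finset.sum_eq_single 1]
  · rw [if_pos (by simp), ← pc_nu0 hn, show (fun i : Fin n => nu0 n i + i.val -
      ((1 : Equiv.Perm (Fin n)) i).val) = nu0 n from funext fun i => by simp]
    simp
  · intro κ _ hκ
    refine if_neg fun h => hκ ?_
    have h1 : ∀ i, (κ i).val ≤ i.val := fun i => by
      have := h i
      have := (κ i).2
      simp only [nu0] at *
      split_ifs at * <;> omega
    have h2 := (Finset.sum_eq_sum_iff_of_le (s := Finset.univ) fun i _ => h1 i).1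
      (Equiv.sum_comp κ Fin.val)
    ext i; exact h2 i (Finset.mem_univ _)
  · simp

variable [Fintype F]

theorem uf_deg {ν : Fin n → ℕ} (hν : Monotone ν) (hs : ∑ i, ν i = n) (h0 : ν ≠ nu0 n) :
    ∃ z : ℤ, uf F ν 1 = (Fintype.card F : ℝ) * z := by
  classical
  set q := Fintype.card F with hq
  let γ : ℤ := ∑ κ : Equiv.Perm (Fin n), if ∀ i : Fin n, (κ i).val ≤ ν i + i.val then
    (Equiv.Perm.sign κ : ℤ) * Nat.card (Cos F fun i => ν i + i.val - (κ i).val) else 0
  have h1 : uf F ν 1 = γ := by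
    simp only [uf, γ, Finset.sum_apply]
    push_cast
    refine Finset.sum_congr rfl fun κ _ => ?_
    split_ifs <;> simp [pc_one]
  have h2 : unipotentCharacterGL n F ν 1 = γ := by
    simp only [unipotentCharacterGL, γ]
    push_cast
    refine Finset.sum_congr rfl fun κ _ => ?_
    split_ifs
    · simp [fixedPointCharacter, Cos]
    · rfl
  have h3 := unipotentCharacterGL_degree (F := F) hs
  rw [h2] at h3
  have h4 : γ * (q : ℤ) ^ (n * (n - 1) * (n - 2) / 6) * ∏ i : Fin n, (qFact q (ν i + i.val) : ℤ) =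
      (qFact q n : ℤ) * ∏ i : Fin n, ∏ j ∈ Finset.Ioi i,
        ((θ q (ν j + j.val) : ℤ) - (θ q (ν i + i.val) : ℤ)) := by
    unfold θ; exact_mod_cast h3
  have h5 : ∏ i : Fin n, ∏ _j ∈ Finset.Ioi i, (q : ℤ) ^ (ν i + i.val) ∣
      ∏ i : Fin n, ∏ j ∈ Finset.Ioi i, ((θ q (ν j + j.val) : ℤ) - (θ q (ν i + i.val) : ℤ)) := by
    refine Finset.prod_dvd_prod_of_dvd _ _ fun i _ => Finset.prod_dvd_prod_of_dvd _ _ fun j hj => ?_
    obtain ⟨c, hc⟩ := Nat.exists_eq_add_of_le (strictMono_add hν (Finset.mem_Ioi.1 hj)).le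
    simp only at hc
    rw [hc, θ_add]; push_cast; simp
  simp_rw [Finset.prod_pow_eq_pow_sum, Finset.sum_add_distrib] at h5
  have h6 : ∑ i : Fin n, ∑ _j ∈ Finset.Ioi i, i.val = n * (n - 1) * (n - 2) / 6 := by
    rw [← sum_choose_two, Finset.sum_comm' (t' := Finset.univ) (s' := fun j => Finset.Iio j)
      (by simp), ← Fin.sum_univ_eq_sum_range (fun j => ∑ k ∈ Finset.range j, k)]
    refine Finset.sum_congr rfl fun j _ => ?_
    rw [← Nat.Iio_eq_range, ← Fin.map_valEmbedding_Iio, Finset.sum_map]; rfl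
  have h7 : 1 ≤ ∑ i : Fin n, ∑ _j ∈ Finset.Ioi i, ν i := by
    by_contra hc
    have h8 : ∑ i : Fin n, ∑ _j ∈ Finset.Ioi i, ν i = 0 := by omega
    rw [Finset.sum_eq_zero_iff] at h8
    have h9 : ∀ i : Fin n, i.val + 1 ≠ n → ν i = 0 := fun i hi =>
      Finset.sum_eq_zero_iff.1 (h8 i (Finset.mem_univ _)) ⟨i.val + 1, by have := i.2; omega⟩
        (Finset.mem_Ioi.2 (by rw [Fin.lt_def]; simp))
    apply h0
    funext i
    simp only [nu0]
    split_ifs with h
    · rw [← hs, Finset.sum_eq_single i (fun b _ hb => h9 b fun h' => hb (Fin.ext (by omega))) (by simp)]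
    · exact h9 i h
  have h8 : (q : ℤ) ^ (n * (n - 1) * (n - 2) / 6) * q ∣
      (q : ℤ) ^ (n * (n - 1) * (n - 2) / 6) * (γ * ∏ i : Fin n, (qFact q (ν i + i.val) : ℤ)) := by
    rw [← mul_assoc, mul_comm _ γ, h4, ← pow_succ]
    exact ((pow_dvd_pow _ (by omega)).trans h5).mul_left _
  have hq0 : (q : ℤ) ≠ 0 := by exact_mod_cast Fintype.card_ne_zero
  have h9 := (mul_dvd_mul_iff_left (pow_ne_zero _ hq0)).1 h8
  have h10 : IsCoprime (q : ℤ) (∏ i : Fin n, (qFact q (ν i + i.val) : ℤ)) := by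
    refine IsCoprime.prod_right fun i _ => Nat.isCoprime_iff_coprime.2 ?_
    exact Nat.Coprime.prod_right fun j _ => (θ_coprime_q (Nat.succ_pos j)).symm
  obtain ⟨z, hz⟩ := h10.dvd_of_dvd_mul_right h9
  exact ⟨z, by rw [h1, hz]; push_cast; rfl⟩

variable [Fintype (Matrix.SpecialLinearGroup (Fin n) F)]

theorem inner_cos (hn : 0 < n) {α β : Fin n → ℕ} (hα : ∑ i, α i = n) (hβ : ∑ i, β i = n) :
    ⟪vec (pc SL (Cos F α)), vec (pc SL (Cos F β))⟫ = tableCount α β := by
  rw [inner_pc, card_orb_cos hn hα hβ]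

theorem pc_perm (hn : 0 < n) {α : Fin n → ℕ} (hα : ∑ i, α i = n) (σ : Equiv.Perm (Fin n)) :
    pc SL (Cos F (α ∘ σ)) = pc SL (Cos F α) := by
  have hα' : ∑ i, (α ∘ σ) i = n := (Equiv.sum_comp σ α).trans hα
  apply vec_inj
  rw [← sub_eq_zero, ← inner_self_eq_zero (𝕜 := ℝ)]
  simp only [inner_sub_left, inner_sub_right, inner_cos hn, hα, hα', tableCount_perm,
    tableCount_comm α (α ∘ σ), sub_self]

theorem inner_uf (hn : 0 < n) {ν μ : Fin n → ℕ} (hν : Monotone ν) (hνs : ∑ i, ν i = n)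
    (hμ : Monotone μ) (hμs : ∑ i, μ i = n) :
    ⟪vec (uf F ν), vec (uf F μ)⟫ = if ν = μ then 1 else 0 := by
  classical
  have h := table_orthogonality (strictMono_add hν) (strictMono_add hμ)
  have h1 : ((fun i => ν i + i.val) = fun i => μ i + i.val) ↔ ν = μ := by
    simp [funext_iff]
  simp only [h1] at h
  have h2 := congrArg (Int.cast : ℤ → ℝ) h
  push_cast at h2
  rw [← h2]
  simp only [uf, map_sum, sum_inner, inner_sum]
  rw [Finset.sum_comm]
  refine Finset.sum_congr rfl fun κ _ => Finset.sum_congr rfl fun κ' _ => ?_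
  by_cases h3 : ∀ i, (κ i).val ≤ ν i + i.val
  · by_cases h4 : ∀ i, (κ' i).val ≤ μ i + i.val
    · rw [if_pos h3, if_pos h4, if_pos ⟨h3, h4⟩, map_smul, map_smul, real_inner_smul_left,
        real_inner_smul_right, inner_cos hn (sum_sub_perm hνs κ h3) (sum_sub_perm hμs κ' h4)]
      ring
    · simp [h4]
  · simp [h3]

/-- the main inequality -/
theorem psd (hn : 0 < n) (X : Type*) [Finite X] [MulAction SL X] [IsPretransitive SL X] [Nonempty X]
    (h3 : Nat.card (orbitRel.Quotient SL (X × X)) = 3)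
    (hq : ¬ (Fintype.card F : ℤ) ∣ Nat.card X - 1) {ι : Type*} [Fintype ι] (c : ι → ℤ)
    (α : ι → Fin n → ℕ) (hα : ∀ i, ∑ k, α i k = n) :
    (∑ i, c i * ((Nat.card (orbitRel.Quotient SL (X × Cos F (α i))) : ℤ) - 1)) ^ 2 ≤
      ∑ i, ∑ j, c i * c j * tableCount (α i) (α j) := by
  classical
  let P := {ν : Fin n → ℕ // Monotone ν ∧ ∑ i, ν i = n}
  have : Finite P := ((Finset.Nat.antidiagonalTuple n n).finite_toSet.subset
    (t := {ν : Fin n → ℕ | Monotone ν ∧ ∑ i, ν i = n})
    fun ν hν => Finset.Nat.mem_antidiagonalTuple.2 hν.2).to_subtype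
  have := Fintype.ofFinite P
  let u : P → EuclideanSpace ℝ SL := fun ν => vec (uf F ν.1)
  have hu : Orthonormal ℝ u := orthonormal_iff_ite.2 fun ν μ => by
    simp only [u, inner_uf hn ν.2.1 ν.2.2 μ.2.1 μ.2.2, Subtype.val_inj]
  let hv : (Fin n → ℕ) → EuclideanSpace ℝ SL := fun α => vec (pc SL (Cos F α))
  have hV : ∀ α, ∑ k, α k = n → hv α ∈ Submodule.span ℝ (Set.range fun ν : P => hv ν.1) :=
    fun α hα => Submodule.subset_span ⟨⟨α ∘ Tuple.sort α, Tuple.monotone_sort α,
      (Equiv.sum_comp _ α).trans hα⟩, by simp only [hv, pc_perm hn hα]⟩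
  have hsp : Submodule.span ℝ (Set.range u) = Submodule.span ℝ (Set.range fun ν : P => hv ν.1) := by
    refine Submodule.eq_of_le_of_finrank_le (Submodule.span_le.2 ?_) ?_
    · rintro _ ⟨ν, rfl⟩
      simp only [u, uf, map_sum]
      refine Submodule.sum_mem _ fun κ _ => ?_
      split_ifs with h
      · rw [map_smul]; exact Submodule.smul_mem _ _ (hV _ (sum_sub_perm ν.2.2 κ h))
      · simp
    · rw [finrank_span_eq_card hu.linearIndependent]
      exact finrank_range_le_card _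
  let ν0 : P := ⟨nu0 n, nu0_mono, nu0_sum hn⟩
  let m : P → ℤ := fun ν => ∑ κ : Equiv.Perm (Fin n), if ∀ i : Fin n, (κ i).val ≤ ν.1 i + i.val then
    (Equiv.Perm.sign κ : ℤ) * Nat.card (orbitRel.Quotient SL
      ((Cos F fun i => ν.1 i + i.val - (κ i).val) × X)) else 0
  have hm : ∀ ν, ⟪u ν, vec (pc SL X)⟫ = m ν := fun ν => by
    simp only [u, uf, m, map_sum, sum_inner]
    push_cast
    refine Finset.sum_congr rfl fun κ _ => ?_
    split_ifs
    · rw [map_smul, real_inner_smul_left, inner_pc]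
    · simp
  have h0 : m ν0 = 1 := by
    have := hm ν0
    simp only [u, ν0, uf_nu0 hn, inner_vec, one_mul, avg_pc] at this
    exact_mod_cast this.symm
  rcases abstract_psd u hu ν0 (vec (pc SL X)) (by rw [inner_pc, h3]; rfl) m hm h0 with
    ⟨ν1, ν2, h1, h2, h⟩ | h
  · exfalso
    simp only [u, ← map_smul, ← map_add] at h
    have h4 := congrFun (vec_inj h) 1
    obtain ⟨z1, hz1⟩ := uf_deg (F := F) ν1.2.1 ν1.2.2 fun h => h1 (Subtype.ext h)
    obtain ⟨z2, hz2⟩ := uf_deg (F := F) ν2.2.1 ν2.2.2 fun h => h2 (Subtype.ext h)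
    simp only [Pi.add_apply, Pi.smul_apply, smul_eq_mul, hz1, hz2, pc_one, ν0, uf_nu0 hn] at h4
    refine hq ⟨m ν1 * z1 + m ν2 * z2, ?_⟩
    have : ((Nat.card X : ℤ) - 1 : ℝ) = (Fintype.card F : ℤ) * (m ν1 * z1 + m ν2 * z2) := by
      push_cast; rw [h4]; ring
    exact_mod_cast this
  · have h1 := h (∑ i, (c i : ℝ) • hv (α i)) (by
      rw [hsp]; exact Submodule.sum_mem _ fun i _ => Submodule.smul_mem _ _ (hV _ (hα i)))
    have h2 : ∀ i, ⟪u ν0, hv (α i)⟫ = 1 := fun i => by
      have := cos_trans (F := F) hn (α i)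
      have : Nonempty (Cos F (α i)) := ⟨((1 : GL (Fin n) F) : GL (Fin n) F ⧸ _)⟩
      simp only [u, ν0, hv, uf_nu0 hn, inner_vec, one_mul, avg_pc]
    simp only [sum_inner, inner_sum, real_inner_smul_left, real_inner_smul_right, inner_sub_left,
      h2] at h1
    simp only [hv, inner_cos hn (hα _) (hα _)] at h1
    simp only [inner_pc] at h1
    rw [Finset.sum_comm]
    have : ((∑ i, c i * ((Nat.card (orbitRel.Quotient SL (X × Cos F (α i))) : ℤ) - 1)) ^ 2 : ℝ) ≤
      ∑ j, ∑ i, c i * c j * tableCount (α i) (α j) := by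
      push_cast
      simp only [mul_sub]
      refine h1.trans_eq (Finset.sum_congr rfl fun j _ => ?_)
      exact Finset.sum_congr rfl fun i _ => by ring
    exact_mod_cast this

end Lin

end Cfsg.Agent.R3
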